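import Cfsg.Agent.H34.PDeg2
import Cfsg.Agent.S0169
import Cfsg.Agent.Char.AvgN

/-!
Counting characters of degree prime to `ℓ`.
-/

set_option autoImplicit false
set_option linter.unusedSectionVars false

namespace Cfsg.Agent.H34.McK

open Cfsg Cfsg.Agent.Char Cfsg.Agent.CharBase
open scoped ComplexConjugate commutatorElement

universe u v

/-- number of irreducible characters of degree prime to `ℓ` -/
noncomputable def nl (ℓ : ℕ) (G : Type u) [Group G] : ℕ := Nat.card {χ : IrrCharacter G // ¬ ℓ ∣ charDegree (χ : G → ℂ)}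

theorem nl_equiv (ℓ : ℕ) {G : Type u} [Group G] {H : Type v} [Group H] (e : G ≃* H) : nl ℓ G = nl ℓ H := by
  refine Nat.card_congr (Equiv.subtypeEquiv (Blk.irrMap e) fun χ => ?_)
  rw [charDegree, charDegree, Blk.irrMap_apply, map_one]

theorem degree_dvd_index {N : Type u} [Group N] [Finite N] (A : Subgroup N) [A.Normal] (hA : ∀ a ∈ A, ∀ b ∈ A, a * b = b * a)
    (χ : IrrCharacter N) : charDegree (χ : N → ℂ) ∣ A.index := by
  obtain ⟨χ, n, ρ, hρ, rfl⟩ := χ
  have h := S0169.result ρ A hA
  have h1 : ρ.character 1 = (Module.finrank ℂ (Fin n → ℂ) : ℂ) := by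
    rw [Representation.character, map_one]
    exact LinearMap.trace_one ℂ _
  have h2 : charDegree ρ.character = Module.finrank ℂ (Fin n → ℂ) := H34.Deg.charDegree_of_eq h1
  show charDegree ρ.character ∣ A.index
  rw [h2]
  exact h

theorem nl_of_abelian {ℓ : ℕ} {N : Type u} [Group N] [Finite N] (A : Subgroup N) [A.Normal] (hA : ∀ a ∈ A, ∀ b ∈ A, a * b = b * a)
    (hidx : ¬ ℓ ∣ A.index) : nl ℓ N = Nat.card (ConjClasses N) := by
  rw [← card_irr_eq_card_conjClasses, nl]
  refine Nat.card_congr (Equiv.subtypeUnivEquiv fun χ h => hidx (h.trans (degree_dvd_index A hA χ)))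

theorem nl_of_normal_sylow {ℓ : ℕ} [hl : Fact ℓ.Prime] {N : Type u} [Group N] [Finite N] (S : Subgroup N) [hS : S.Normal] (hp : IsPGroup ℓ S)
    (hidx : ¬ ℓ ∣ S.index) : nl ℓ N = Nat.card (ConjClasses (N ⧸ ⁅S, S⁆)) := by
  classical
  haveI : Fintype N := Fintype.ofFinite N
  rw [← card_irr_eq_card_conjClasses, nl, Nat.card_congr (H75.inflateEquiv ⁅S, S⁆)]
  refine Nat.card_congr (Equiv.subtypeEquivRight fun χ => ?_)
  constructor
  · intro hdeg
    set Q : Subgroup N := ⁅S, S⁆ with hQ
    have hQS : Q ≤ S := Subgroup.commutator_le_left S S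
    haveI : Fintype S := Fintype.ofFinite S
    haveI : Fintype Q := Fintype.ofFinite Q
    haveI : Fintype (IrrCharacter S) := Fintype.ofFinite _
    have hχS : IsCharacter S (fun s : S => (χ : N → ℂ) s) := isCharacter_comp (irr_isCharacter χ) S.subtype
    obtain ⟨m, hm, hsum⟩ := exists_mult_of_isCharacter hχS
    -- a linear constituent
    obtain ⟨l, hl1, hlm⟩ : ∃ l : IrrCharacter S, (l : S → ℂ) 1 = 1 ∧ m l ≠ 0 := by
      by_contra hcon
      push Not at hcon
      apply hdeg
      have h1 : ∀ θ : IrrCharacter S, ℓ ∣ m θ * charDegree (θ : S → ℂ) := by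
        intro θ
        obtain ⟨n, hn⟩ := hp.exists_card_eq
        have h2 : charDegree (θ : S → ℂ) ∣ ℓ ^ n := by
          rw [← hn]; exact BlkC.charDegree_dvd_card θ
        obtain ⟨j, -, hj⟩ := (Nat.dvd_prime_pow hl.out).1 h2
        rcases Nat.eq_zero_or_pos j with rfl | hj0
        · have h3 : (θ : S → ℂ) 1 = 1 := by
            rw [BlkC.charDegree_spec, hj]; norm_num
          rw [hcon θ h3, zero_mul]
          exact dvd_zero _
        · rw [hj]
          exact Dvd.dvd.mul_left (dvd_pow_self ℓ hj0.ne') _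
      have h2 : charDegree (χ : N → ℂ) = ∑ θ : IrrCharacter S, m θ * charDegree (θ : S → ℂ) := by
        have h3 : (χ : N → ℂ) 1 = ((∑ θ : IrrCharacter S, m θ * charDegree (θ : S → ℂ) : ℕ) : ℂ) := by
          have h4 := congrFun hsum 1
          have h5 : (χ : N → ℂ) ((1 : S) : N) = (χ : N → ℂ) 1 := rfl
          rw [← h5, h4, Finset.sum_apply]
          push_cast
          refine Finset.sum_congr rfl fun θ _ => ?_
          rw [← BlkC.charDegree_spec]
          simp
        exact H34.Deg.charDegree_of_eq h3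
      rw [h2]
      exact Finset.dvd_sum fun θ _ => h1 θ
    -- restriction to Q
    have hchar : ∀ θ : IrrCharacter S, IsCharacter Q (fun q : Q => (θ : S → ℂ) (Subgroup.inclusion hQS q)) := fun θ =>
      isCharacter_comp (irr_isCharacter θ) (Subgroup.inclusion hQS)
    choose r hr using fun θ : IrrCharacter S => classInner_natCast (hchar θ) (Char.isCharacter_one (G := Q))
    have hrl : r l = 1 := by
      have h1 : (fun q : Q => (l : S → ℂ) (Subgroup.inclusion hQS q)) = fun _ => 1 := by
        set f : S →* ℂˣ := (linHom (irr_isCharacter l) hl1).toHomUnits with hf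
        have h2 : Q ≤ f.ker.map S.subtype := by
          rw [hQ, Subgroup.commutator_le]
          intro a ha b hb
          refine ⟨(⁅(⟨a, ha⟩ : S), (⟨b, hb⟩ : S)⁆ : S), ?_, rfl⟩
          show (⁅(⟨a, ha⟩ : S), (⟨b, hb⟩ : S)⁆ : S) ∈ f.ker
          rw [MonoidHom.mem_ker, map_commutatorElement, commutatorElement_eq_one_iff_mul_comm, mul_comm]
        funext q
        obtain ⟨s, hs, hsq⟩ := h2 q.2
        have h3 : Subgroup.inclusion hQS q = s := Subtype.ext hsq.symm
        rw [h3]
        have h4 : f s = 1 := hs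
        have h5 : ((f s : ℂˣ) : ℂ) = 1 := by rw [h4]; rfl
        exact h5
      have h2 := hr l
      rw [h1] at h2
      have h3 : classInner (fun _ : Q => (1 : ℂ)) (fun _ => 1) = 1 := classInner_irr_self (⟨_, Char.isIrrCharacter_one⟩ : IrrCharacter Q)
      rw [h3] at h2
      exact_mod_cast h2.symm
    have hne : classInner (fun n : Q => (χ : N → ℂ) n) (fun _ => 1) ≠ 0 := by
      have h1 : (fun n : Q => (χ : N → ℂ) n) = ∑ θ : IrrCharacter S, ((m θ : ℂ) • fun q : Q => (θ : S → ℂ) (Subgroup.inclusion hQS q)) := by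
        funext q
        have h4 := congrFun hsum (Subgroup.inclusion hQS q)
        have h5 : (χ : N → ℂ) ((Subgroup.inclusion hQS q : S) : N) = (χ : N → ℂ) q := rfl
        rw [← h5, h4, Finset.sum_apply, Finset.sum_apply]
        refine Finset.sum_congr rfl fun θ _ => ?_
        simp
      rw [h1, classInner_sum_left]
      have h2 : ∀ θ : IrrCharacter S, classInner ((m θ : ℂ) • fun q : Q => (θ : S → ℂ) (Subgroup.inclusion hQS q)) (fun _ => 1) = ((m θ * r θ : ℕ) : ℂ) := by
        intro θ
        rw [classInner_smul_left, hr θ]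
        push_cast; rfl
      rw [Finset.sum_congr rfl fun θ _ => h2 θ, ← Nat.cast_sum, Nat.cast_ne_zero]
      intro h3
      have h4 := (Finset.sum_eq_zero_iff.1 h3) l (Finset.mem_univ l)
      rw [hrl, mul_one] at h4
      exact hlm h4
    intro n hn
    have := irr_const_of_classInner_ne_zero Q χ.2 hne ⟨n, hn⟩ 1
    rwa [mul_one] at this
  · intro hker hdvd
    obtain ⟨χ', h1, h2⟩ := H75.exists_deflate_irr ⁅S, S⁆ χ.2 hker
    have h3 : charDegree (χ : N → ℂ) = charDegree χ' := by
      unfold charDegree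
      rw [← h2 1]; rfl
    haveI hn : (S.map (QuotientGroup.mk' ⁅S, S⁆)).Normal := hS.map _ (QuotientGroup.mk'_surjective _)
    have h4 := degree_dvd_index (S.map (QuotientGroup.mk' ⁅S, S⁆)) (by
      rintro _ ⟨a, ha, rfl⟩ _ ⟨b, hb, rfl⟩
      rw [← map_mul, ← map_mul]
      show ((a * b : N) : N ⧸ ⁅S, S⁆) = ((b * a : N) : N ⧸ ⁅S, S⁆)
      rw [eq_comm, QuotientGroup.eq]
      have h5 : (b * a)⁻¹ * (a * b) = ⁅a⁻¹, b⁻¹⁆ := by
        rw [commutatorElement_def]; group
      rw [h5]
      exact Subgroup.commutator_mem_commutator (S.inv_mem ha) (S.inv_mem hb)) ⟨χ', h1⟩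
    have h5 : (S.map (QuotientGroup.mk' ⁅S, S⁆)).index ∣ S.index := Subgroup.index_map_dvd _ (QuotientGroup.mk'_surjective _)
    rw [h3] at hdvd
    exact hidx (hdvd.trans (h4.trans h5))

end Cfsg.Agent.H34.McK
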