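import Cfsg.Agent.H76.PSolvable
import Cfsg.Agent.Cop.Hall
import Cfsg.Agent.Solv.Core

/-! Normal subgroups meeting a Sylow subgroup in its derived subgroup, `p`-solvable groups (owner: helper34). -/

set_option autoImplicit false
set_option linter.style.haveILetI false

namespace Cfsg.Agent.H34.PQB

open Cfsg Cfsg.Agent
open scoped commutatorElement Pointwise

universe u

variable {G : Type u} [Group G] [Finite G] {p : ℕ} [hp : Fact p.Prime]

theorem card_mul_relIndex' {H K : Subgroup G} (h : H ≤ K) : Nat.card H * H.relIndex K = Nat.card K := by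
  have h1 := Subgroup.relIndex_mul_relIndex ⊥ H K bot_le h
  rwa [Subgroup.relIndex_bot_left, Subgroup.relIndex_bot_left] at h1

theorem commutator_le_frattini {P : Type*} [Group P] [Finite P] (h : Group.IsNilpotent P) :
    commutator P ≤ frattini P := by
  rw [frattini, Order.radical]
  refine le_iInf₂ fun N hN => ?_
  have hn : N.Normal :=
    Subgroup.NormalizerCondition.normal_of_coatom _ Group.normalizerCondition_of_isNilpotent hN
  by_contra hcon
  have h1 : commutator P ⊔ N = ⊤ := hN.2 _ (by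
    refine lt_of_le_of_ne le_sup_right ?_
    intro h2
    exact hcon (h2 ▸ le_sup_left))
  have hnt : Nontrivial (P ⧸ N) := by
    rw [QuotientGroup.nontrivial_iff]
    exact hN.1
  have h2 : commutator (P ⧸ N) = ⊤ := by
    have h3 : (commutator P).map (QuotientGroup.mk' N) = commutator (P ⧸ N) := by
      rw [commutator_def, commutator_def, Subgroup.map_commutator,
        Subgroup.map_top_of_surjective _ (QuotientGroup.mk'_surjective N)]
    rw [← h3]
    have h4 : (commutator P ⊔ N).map (QuotientGroup.mk' N) = ⊤ := by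
      rw [h1, Subgroup.map_top_of_surjective _ (QuotientGroup.mk'_surjective N)]
    rw [Subgroup.map_sup, (Subgroup.map_eq_bot_iff N).mpr (by rw [QuotientGroup.ker_mk']), sup_bot_eq] at h4
    exact h4
  have h5 : Group.IsSolvable (P ⧸ N) := inferInstance
  exact absurd h2 (Group.IsSolvable.commutator_lt_top_of_nontrivial (P ⧸ N)).ne

/-- a subgroup of `P` covering `P / P'` is `P` -/
theorem eq_of_sup_commutator (P : Subgroup G) (hP : IsPGroup p P) (X : Subgroup G) (hX : P ≤ X ⊔ ⁅P, P⁆) (hXP : X ≤ P) : X = P := by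
  have hn : Group.IsNilpotent P := hP.isNilpotent
  have h1 : X.subgroupOf P ⊔ commutator P = ⊤ := by
    apply Subgroup.map_injective P.subtype_injective
    rw [Subgroup.map_sup, Subgroup.map_subtype_commutator, ← MonoidHom.range_eq_map, Subgroup.range_subtype,
      Subgroup.map_subgroupOf_eq_of_le hXP]
    exact le_antisymm (sup_le hXP (Subgroup.commutator_le_self P)) hX
  have h2 : X.subgroupOf P = ⊤ := by
    apply frattini_nongenerating
    rw [eq_top_iff, ← h1]
    exact sup_le_sup_left (commutator_le_frattini hn) _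
  rw [Subgroup.subgroupOf_eq_top] at h2
  exact le_antisymm hXP h2

theorem le_sylow_of_normal (P : Sylow p G) (R : Subgroup G) [hR : R.Normal] (hRp : IsPGroup p R) : R ≤ (P : Subgroup G) := by
  obtain ⟨Q, hQ⟩ := hRp.exists_le_sylow
  obtain ⟨g, hg⟩ := MulAction.exists_smul_eq G Q P
  intro x hx
  rw [← hg, Sylow.coe_subgroup_smul, Subgroup.mem_pointwise_smul_iff_inv_smul_mem]
  apply hQ
  rw [← map_inv, MulAut.smul_def, MulAut.conj_apply]
  exact hR.conj_mem _ hx _

/-- normal `p`-subgroups inside `P'` split off -/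
theorem exists_normal_complement (hsolv : IsPSolvable p G) (P : Sylow p G) (Z W : Subgroup G) [Z.Normal] [hWn : W.Normal]
    (hZW : Z ≤ W) (hZp : IsPGroup p Z) (hZP : Z ≤ ⁅(P : Subgroup G), (P : Subgroup G)⁆) (hi : (Z.relIndex W).Coprime p) :
    ∃ W0 : Subgroup G, W0.Normal ∧ (Nat.card W0).Coprime p ∧ W = Z ⊔ W0 := by
  obtain ⟨a, ha⟩ := IsPGroup.iff_card.1 hZp
  have hcardW : Nat.card W = Z.relIndex W * p ^ a := by
    rw [← ha, mul_comm]
    exact (card_mul_relIndex' hZW).symm
  have hcop : (Z.relIndex W).Coprime (p ^ a) := Nat.Coprime.pow_right a hi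
  have hsepW := Cop.sep_of_isPSolvable (H76.isPSolvable_subgroup W hsolv) a
  obtain ⟨⟨H, hH⟩, hconj⟩ := Cop.hall_sep (Nat.card W) (G := W) rfl (Z.relIndex W) (p ^ a) hcardW hcop hsepW
  set W0 : Subgroup G := H.map W.subtype with hW0
  have hW0W : W0 ≤ W := Subgroup.map_subtype_le H
  have hW0c : Nat.card W0 = Z.relIndex W := by
    rw [hW0, Subgroup.card_subtype, hH]
  -- conjugates
  have hconj' : ∀ g : G, ∃ w ∈ W, W0.map (MulAut.conj g).toMonoidHom = W0.map (MulAut.conj w).toMonoidHom := by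
    intro g
    have h1 : W0.map (MulAut.conj g).toMonoidHom ≤ W := by
      rintro _ ⟨x, hx, rfl⟩
      exact hWn.conj_mem x (hW0W hx) g
    have h2 : Nat.card (W0.map (MulAut.conj g).toMonoidHom) = Z.relIndex W := by
      rw [← hW0c]
      exact Subgroup.card_map_of_injective (MulAut.conj g).injective
    obtain ⟨w, hw⟩ := hconj H ((W0.map (MulAut.conj g).toMonoidHom).subgroupOf W) hH (by
      rw [Nat.card_congr (Subgroup.subgroupOfEquivOfLe h1).toEquiv, h2]; exact hcop)
    refine ⟨w, w.2, ?_⟩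
    apply Subgroup.eq_of_le_of_card_ge
    · intro y hy
      have h3 := hw (show (⟨y, h1 hy⟩ : W) ∈ (W0.map (MulAut.conj g).toMonoidHom).subgroupOf W from hy)
      rw [Subgroup.mem_pointwise_smul_iff_inv_smul_mem, ← map_inv, MulAut.smul_def, MulAut.conj_apply] at h3
      refine ⟨(w : G)⁻¹ * y * w, ?_, ?_⟩
      · exact ⟨_, h3, by simp⟩
      · show (w : G) * ((w : G)⁻¹ * y * w) * (w : G)⁻¹ = y
        group
    · rw [h2]
      rw [← hW0c]
      exact (Subgroup.card_map_of_injective (MulAut.conj (w : G)).injective).le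
  set N := Subgroup.normalizer (W0 : Set G) with hN
  have hWN : ∀ g : G, ∃ w ∈ W, w⁻¹ * g ∈ N := by
    intro g
    obtain ⟨w, hw, h1⟩ := hconj' g
    refine ⟨w, hw, ?_⟩
    rw [hN, Subgroup.mem_normalizer_iff_map_conj_eq]
    have h2 : (MulAut.conj (w⁻¹ * g)) = (MulAut.conj w⁻¹) * (MulAut.conj g) := map_mul _ _ _
    have h3 : W0.map (MulAut.conj (w⁻¹ * g) : MulAut G).toMonoidHom = (W0.map (MulAut.conj g).toMonoidHom).map (MulAut.conj w⁻¹).toMonoidHom := by
      rw [h2]
      ext y
      constructor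
      · rintro ⟨x, hx, rfl⟩
        exact ⟨_, ⟨x, hx, rfl⟩, rfl⟩
      · rintro ⟨_, ⟨x, hx, rfl⟩, rfl⟩
        exact ⟨x, hx, rfl⟩
    have h4 : (W0.map (MulAut.conj w).toMonoidHom).map (MulAut.conj w⁻¹).toMonoidHom = W0 := by
      rw [Subgroup.map_map]
      have : (MulAut.conj w⁻¹).toMonoidHom.comp (MulAut.conj w).toMonoidHom = MonoidHom.id G := by
        ext x
        simp [mul_assoc]
      rw [this, Subgroup.map_id]
    have h5 := h3
    rw [h1, h4] at h5
    exact h5
  -- W = Z ⊔ W0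
  have hWZ : W = Z ⊔ W0 := by
    symm
    apply Subgroup.eq_of_le_of_card_ge (sup_le hZW hW0W)
    rw [hcardW, mul_comm, ← ha, ← hW0c]
    have h1 : Disjoint Z W0 := by
      rw [disjoint_iff]
      apply Subgroup.card_eq_one.1
      have h2 : Nat.card (Z ⊓ W0 : Subgroup G) ∣ p ^ a := by rw [← ha]; exact Subgroup.card_dvd_of_le inf_le_left
      have h3 : Nat.card (Z ⊓ W0 : Subgroup G) ∣ Z.relIndex W := by rw [← hW0c]; exact Subgroup.card_dvd_of_le inf_le_right
      exact Nat.eq_one_of_dvd_coprimes hcop h3 h2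
    have h2 : Nat.card (Z ⊔ W0 : Subgroup G) = Nat.card Z * Nat.card W0 := by
      have h3 := card_mul_relIndex' (le_sup_left : Z ≤ Z ⊔ W0)
      have h4 : Z.relIndex (Z ⊔ W0) = Z.relIndex W0 := by rw [sup_comm, Subgroup.relIndex_sup_right]
      have h5 : Z.relIndex W0 = Nat.card W0 := by
        rw [← Subgroup.inf_relIndex_right, disjoint_iff.1 h1, Subgroup.relIndex_bot_left]
      rw [h4, h5] at h3
      exact h3.symm
    exact h2.ge
  have htop : Z ⊔ N = ⊤ := by
    rw [eq_top_iff]
    intro g _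
    obtain ⟨w, hw, h1⟩ := hWN g
    have h2 : w ∈ Z ⊔ N := by
      rw [hWZ] at hw
      exact (sup_le_sup_left Subgroup.le_normalizer Z) hw
    have h3 : g = w * (w⁻¹ * g) := by group
    rw [h3]
    exact mul_mem h2 ((le_sup_right : N ≤ Z ⊔ N) h1)
  have hZP' : Z ≤ (P : Subgroup G) := le_sylow_of_normal P Z hZp
  have hPN : (N ⊓ (P : Subgroup G)) = (P : Subgroup G) := by
    refine eq_of_sup_commutator (p := p) (P : Subgroup G) P.isPGroup' _ ?_ inf_le_right
    intro x hx
    have h1 : x ∈ N ⊔ Z := by rw [sup_comm, htop]; trivial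
    obtain ⟨n, hn, z, hz, rfl⟩ := Subgroup.mem_sup_of_normal_right.1 h1
    have h2 : n ∈ (P : Subgroup G) := by
      have : n = (n * z) * z⁻¹ := by group
      rw [this]
      exact mul_mem hx (inv_mem (hZP' hz))
    exact mul_mem ((le_sup_left : N ⊓ (P : Subgroup G) ≤ _) ⟨hn, h2⟩) ((le_sup_right : ⁅(P : Subgroup G), (P : Subgroup G)⁆ ≤ _) (hZP hz))
  have hZN : Z ≤ N := hZP'.trans (by rw [← hPN]; exact inf_le_left)
  have hNtop : N = ⊤ := by rw [← htop]; exact (sup_eq_right.2 hZN).symm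
  refine ⟨W0, Subgroup.normalizer_eq_top_iff.1 hNtop, ?_, hWZ⟩
  rw [hW0c]; exact hi

/-- the main group theoretic lemma -/
theorem le_pCore_of_inf_le (hsolv : IsPSolvable p G) (hcore : pPrimeCore p G = ⊥) (P : Sylow p G) (D : Subgroup G) [hD : D.Normal]
    (hDP : D ⊓ pCore p G ≤ ⁅(P : Subgroup G), (P : Subgroup G)⁆) : D ≤ pCore p G := by
  by_contra hcon
  have hsolv' := hsolv
  obtain ⟨n, A, h0, hlast, hmono, hnorm, hfac⟩ := hsolv
  set Z := D ⊓ pCore p G with hZ
  haveI hZn : Z.Normal := inferInstance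
  have hZp : IsPGroup p Z := (Solv.pCore_isPGroup p).to_le inf_le_right
  have hex : ∃ i : Fin n, D ⊓ A i.castSucc ≤ Z ∧ ¬ D ⊓ A i.succ ≤ Z := by
    by_contra hc
    push Not at hc
    have : ∀ i : Fin (n + 1), D ⊓ A i ≤ Z := by
      intro i
      induction i using Fin.induction with
      | zero => rw [h0, inf_bot_eq]; exact bot_le
      | succ i ih => exact hc i ih
    have h1 := this (Fin.last n)
    rw [hlast, inf_top_eq] at h1
    exact hcon (h1.trans inf_le_right)
  obtain ⟨i, hi1, hi2⟩ := hex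
  haveI := hnorm i.succ
  haveI := hnorm i.castSucc
  set X := D ⊓ A i.succ with hX
  have hXn : X.Normal := inferInstance
  have hd1 : Z.relIndex X ∣ (A i.castSucc).relIndex (A i.succ) := by
    have h1 : (A i.castSucc ⊓ X).relIndex X ∣ (A i.castSucc).relIndex (A i.succ) := by
      rw [Subgroup.inf_relIndex_right]
      exact H76.relIndex_dvd_relIndex_of_le inf_le_right
    refine (Subgroup.relIndex_dvd_of_le_left X ?_).trans h1
    intro x hx
    exact hi1 ⟨hx.2.1, hx.1⟩
  have hd2 : Z.relIndex (Z ⊔ X) = Z.relIndex X := by rw [sup_comm, Subgroup.relIndex_sup_right]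
  haveI : (Z ⊔ X).Normal := inferInstance
  have hZX : Z ⊔ X ≤ D := sup_le inf_le_left inf_le_left
  rcases hfac i with ⟨m, hm⟩ | hcop
  · -- `p`-group
    rw [hm] at hd1
    obtain ⟨c, -, hc⟩ := (Nat.dvd_prime_pow hp.out).1 hd1
    have h1 : IsPGroup p (Z ⊔ X : Subgroup G) := by
      obtain ⟨a, ha⟩ := IsPGroup.iff_card.1 hZp
      apply IsPGroup.of_card (n := a + c)
      have h3 := card_mul_relIndex' (le_sup_left : Z ≤ Z ⊔ X)
      rw [← h3, hd2, hc, ha, pow_add]
    have h2 := Solv.le_pCore (inferInstance : (Z ⊔ X).Normal) h1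
    exact hi2 (le_inf inf_le_left (le_sup_right.trans h2))
  · -- `p'`-group
    obtain ⟨W0, hW0n, hW0c, hW0⟩ := exists_normal_complement hsolv' P Z (Z ⊔ X) le_sup_left hZp hDP (by
      rw [hd2]
      exact Nat.Coprime.coprime_dvd_left hd1 hcop)
    have h1 := Solv.le_pPrimeCore hW0n hW0c
    rw [hcore, le_bot_iff] at h1
    rw [h1, sup_bot_eq] at hW0
    exact hi2 (le_sup_right.trans hW0.le)

end Cfsg.Agent.H34.PQB
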