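import Cfsg.Agent.H34.PQB1
import Cfsg.Agent.H79.HeightPS
import Cfsg.Agent.H75.TwoDeg4
import Cfsg.Agent.H4.BlkQuot
import Cfsg.Agent.Char.RelGlaub2
import Cfsg.Agent.Bal.Quot
import Cfsg.Agent.H75.Inflate

/-! Characters of `p'`-degree in the principal block of a `p`-solvable group (owner: helper34). -/

set_option autoImplicit false
set_option linter.style.haveILetI false

namespace Cfsg.Agent.H34.PQB

open Cfsg Cfsg.Agent Cfsg.Agent.CharBase Cfsg.Agent.Char Cfsg.Agent.Blk
open scoped commutatorElement Pointwise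

universe u

/-- the principal block of a `p`-solvable group -/
theorem mem_principal_iff {G : Type u} [Group G] [Finite G] (p : ℕ) [Fact p.Prime] (M : Ideal AlgInt) (hM : IsPModular p M)
    (hsolv : IsPSolvable p G) (χ : IrrCharacter G) :
    χ ∈ principalBlock M G ↔ ∀ n ∈ pPrimeCore p G, (χ : G → ℂ) n = (χ : G → ℂ) 1 := by
  classical
  have := Fintype.ofFinite G
  haveI := isPrime_of_isPModular hM
  haveI := charP_kM hM
  set N := pPrimeCore p G with hN
  have hNn : N.Normal := inferInstance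
  have hNp : ¬ p ∣ Nat.card N := H79.not_dvd_pPrimeCore
  have := Fintype.ofFinite N
  obtain ⟨K, hKn, hNK, hKp, hC⟩ := H79.exists_K_of_psolvable hsolv
  have hinv : ∀ g : G, Char.cj N g ((oneIrr N : IrrCharacter N) : N → ℂ) = oneIrr N := fun g => rfl
  obtain ⟨B₀, hB₀, hmem, hD⟩ := H79.fong_core hM hNp hinv hNK hKp (fun Q h1 h2 h3 => (hC Q h1 h2 h3).2)
  have hone : ∀ χ : IrrCharacter G, (∀ n : N, (χ : G → ℂ) n = (χ : G → ℂ) 1) → χ ∈ B₀ := by
    intro χ hχ
    rw [hmem χ]
    have h1 : classInner (fun n : N => (χ : G → ℂ) n) ((oneIrr N : IrrCharacter N) : N → ℂ)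
        = (χ : G → ℂ) 1 := by
      unfold classInner
      have h2 : ∀ n : N, (χ : G → ℂ) n * (starRingEnd ℂ) (((oneIrr N : IrrCharacter N) : N → ℂ) n)
          = (χ : G → ℂ) 1 := by
        intro n
        rw [hχ n]
        change (χ : G → ℂ) 1 * (starRingEnd ℂ) 1 = _
        rw [map_one, mul_one]
      rw [Finset.sum_congr rfl fun n _ => h2 n, Finset.sum_const, Finset.card_univ,
        ← Nat.card_eq_fintype_card, nsmul_eq_mul, ← mul_assoc, inv_mul_cancel₀, one_mul]
      exact_mod_cast Nat.card_pos.ne'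
    rw [h1]
    exact irr_one_ne_zero χ.2
  have h1G : oneIrr G ∈ B₀ := hone _ fun n => rfl
  have hB₀P : principalBlock M G = B₀ := by
    rw [isPBlock_eq_blockOf hB₀ h1G]
    rfl
  rw [hB₀P]
  constructor
  · intro hχ
    by_contra hcon
    rw [hmem χ] at hχ
    apply hχ
    have h0 := H4.sum_coset_eq_zero N χ hcon 1
    unfold classInner
    have h2 : ∑ n : N, (χ : G → ℂ) n * (starRingEnd ℂ) (((oneIrr N : IrrCharacter N) : N → ℂ) n) = ∑ n : N, (χ : G → ℂ) (1 * n) := by
      refine Finset.sum_congr rfl fun n _ => ?_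
      change (χ : G → ℂ) n * (starRingEnd ℂ) 1 = _
      rw [map_one, mul_one, one_mul]
    rw [h2, h0, mul_zero]
  · intro h
    exact hone χ (fun n => h n n.2)

theorem isIrr_of_one {H : Type u} [Group H] [Finite H] {μ : H → ℂ} (hμ : IsCharacter H μ) (h1 : μ 1 = 1) : IsIrrCharacter H μ := by
  have := Fintype.ofFinite H
  exact isIrrCharacter_of_hom ({ toFun := μ, map_one' := h1, map_mul' := fun a b => Char.linChar_mul hμ h1 a b } : H →* ℂ)

/-- if all `p'`-degree characters contain `A` in the kernel then `A ∩ P ≤ P'` -/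
theorem inf_le_commutator {G : Type u} [Group G] [Finite G] (p : ℕ) [hp : Fact p.Prime] (P : Sylow p G) (A : Subgroup G)
    (hA : ∀ χ : IrrCharacter G, ¬ p ∣ H75.deg χ → ∀ a ∈ A, (χ : G → ℂ) a = (χ : G → ℂ) 1) :
    A ⊓ (P : Subgroup G) ≤ ⁅(P : Subgroup G), (P : Subgroup G)⁆ := by
  classical
  rintro x ⟨hxA, hxP⟩
  by_contra hcon
  have := Fintype.ofFinite G
  have := Fintype.ofFinite (P : Subgroup G)
  have : Fintype (IrrCharacter G) := Fintype.ofFinite _
  have hy : (⟨x, hxP⟩ : (P : Subgroup G)) ∉ commutator (P : Subgroup G) := by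
    intro h
    apply hcon
    rw [← Subgroup.map_subtype_commutator]
    exact ⟨_, h, rfl⟩
  obtain ⟨μ, hμ, hμ1, hμy⟩ := H75.TwoDeg.exists_linear_ne hy
  have hμirr : IsIrrCharacter (P : Subgroup G) μ := isIrr_of_one hμ hμ1
  have hind := indFun_isCharacter (P : Subgroup G) μ hμ
  obtain ⟨k, hk, hsum⟩ := exists_mult_of_isCharacter hind
  have hdeg : ((P : Subgroup G).index : ℂ) = ((∑ ψ : IrrCharacter G, k ψ * H75.deg ψ : ℕ) : ℂ) := by
    have h1 := congrFun hsum 1
    rw [indFun_one_apply, hμ1, mul_one, Finset.sum_apply] at h1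
    rw [h1]
    push_cast
    refine Finset.sum_congr rfl fun ψ _ => ?_
    rw [Pi.smul_apply, nsmul_eq_mul, H75.deg_spec]
  have hdeg' : (P : Subgroup G).index = ∑ ψ : IrrCharacter G, k ψ * H75.deg ψ := by exact_mod_cast hdeg
  have hex : ∃ χ : IrrCharacter G, k χ ≠ 0 ∧ ¬ p ∣ H75.deg χ := by
    by_contra hc
    push Not at hc
    apply P.not_dvd_index
    rw [hdeg']
    refine Finset.dvd_sum fun ψ _ => ?_
    by_cases hk0 : k ψ = 0
    · rw [hk0, zero_mul]; exact dvd_zero _
    · exact Dvd.dvd.mul_left (hc ψ hk0) _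
  obtain ⟨χ, hχ0, hχp⟩ := hex
  have h1 : classInner (indFun (P : Subgroup G) μ) (χ : G → ℂ) ≠ 0 := by
    rw [hk χ]; exact_mod_cast hχ0
  rw [frobenius_reciprocity (P : Subgroup G) μ _ (isClassFunction_of_isCharacter (irr_isCharacter χ)),
    classInner_comm_of_isCharacter hμ (isCharacter_restrict (irr_isCharacter χ) _)] at h1
  let T : Subgroup (P : Subgroup G) := A.subgroupOf (P : Subgroup G)
  have := Fintype.ofFinite T
  have hθ : IsIrrCharacter T (fun t => μ (T.subtype t)) := isIrr_of_one (isCharacter_comp hμ T.subtype) (by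
    show μ (T.subtype 1) = 1
    rw [map_one, hμ1])
  have h2 : classInner (fun t : T => μ (T.subtype t)) (fun t => μ (T.subtype t)) ≠ 0 := by
    rw [classInner_self_of_irr hθ]; exact one_ne_zero
  have h3 := RG.inner_comp_ne_zero T.subtype (isCharacter_restrict (irr_isCharacter χ) (P : Subgroup G)) hμirr hθ h1 h2
  have h4 : (fun t : T => (χ : G → ℂ) (T.subtype t : (P : Subgroup G))) = (χ : G → ℂ) 1 • (fun _ : T => (1 : ℂ)) := by
    funext t
    rw [Pi.smul_apply, smul_eq_mul, mul_one]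
    exact hA χ hχp _ t.2
  rw [h4, classInner_smul_left] at h3
  have h5 : (⟨fun _ : T => (1 : ℂ), CharBase.isIrrCharacter_one⟩ : IrrCharacter T) = ⟨_, hθ⟩ := by
    by_contra hne
    exact right_ne_zero_of_mul h3 (classInner_irr_of_ne hne)
  have h6 := congrFun (congrArg Subtype.val h5) ⟨⟨x, hxP⟩, hxA⟩
  exact hμy h6.symm

end Cfsg.Agent.H34.PQB
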