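import Cfsg.Agent.H34.PQB2

/-! `Irr_{p'}(B_0(p)) = Irr_{q'}(B_0(q))` (owner: helper34). -/

set_option autoImplicit false
set_option linter.style.haveILetI false

namespace Cfsg.Agent.H34.PQB

open Cfsg Cfsg.Agent Cfsg.Agent.CharBase Cfsg.Agent.Char Cfsg.Agent.Blk
open scoped commutatorElement Pointwise

universe u

section one

variable {G : Type u} [Group G] [Finite G] (p q : ℕ) [hp : Fact p.Prime] [hq : Fact q.Prime]

theorem image_le (hps : IsPSolvable p G)
    (hE : ∀ χ : IrrCharacter G, ((∀ b ∈ pPrimeCore p G, (χ : G → ℂ) b = (χ : G → ℂ) 1) ∧ ¬ p ∣ H75.deg χ) →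
      (∀ a ∈ pPrimeCore q G, (χ : G → ℂ) a = (χ : G → ℂ) 1)) (P : Sylow p (G ⧸ pPrimeCore p G)) :
    (pPrimeCore q G).map (QuotientGroup.mk' (pPrimeCore p G)) ≤ pCore p (G ⧸ pPrimeCore p G) ∧
    (pPrimeCore q G).map (QuotientGroup.mk' (pPrimeCore p G)) ≤ ⁅(P : Subgroup (G ⧸ pPrimeCore p G)), (P : Subgroup (G ⧸ pPrimeCore p G))⁆ := by
  set B := pPrimeCore p G with hB
  set A := pPrimeCore q G with hA
  have hAn : (A.map (QuotientGroup.mk' B)).Normal := (inferInstance : A.Normal).map _ (QuotientGroup.mk'_surjective B)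
  have h1 : A.map (QuotientGroup.mk' B) ⊓ (P : Subgroup (G ⧸ B)) ≤ ⁅(P : Subgroup (G ⧸ B)), (P : Subgroup (G ⧸ B))⁆ := by
    apply inf_le_commutator
    intro χ hχ a ha
    obtain ⟨a, ha, rfl⟩ := ha
    have h2 := hE ((H75.inflateEquiv B) χ).1 ⟨((H75.inflateEquiv B) χ).2, by
      have h3 : H75.deg ((H75.inflateEquiv B) χ).1 = H75.deg χ := by
        rw [← H75.charDegree_eq_deg, ← H75.charDegree_eq_deg]; rfl
      rw [h3]; exact hχ⟩ a ha
    exact h2
  have hcore : pCore p (G ⧸ B) ≤ (P : Subgroup (G ⧸ B)) := le_sylow_of_normal P _ (Solv.pCore_isPGroup p)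
  have h2 := le_pCore_of_inf_le (H76.isPSolvable_quotient B hps) Bal.pPrimeCore_quot_bot P (A.map (QuotientGroup.mk' B))
    ((inf_le_inf_left _ hcore).trans h1)
  exact ⟨h2, (le_inf le_rfl (h2.trans hcore)).trans h1⟩

theorem main (hpq : p ≠ q) (hpd : p ∣ Nat.card G) (hps : IsPSolvable p G) (hqs : IsPSolvable q G)
    (hE : ∀ χ : IrrCharacter G, ((∀ b ∈ pPrimeCore p G, (χ : G → ℂ) b = (χ : G → ℂ) 1) ∧ ¬ p ∣ H75.deg χ) ↔
      ((∀ a ∈ pPrimeCore q G, (χ : G → ℂ) a = (χ : G → ℂ) 1) ∧ ¬ q ∣ H75.deg χ)) : False := by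
  set B := pPrimeCore p G with hB
  set A := pPrimeCore q G with hA
  have hBn : B.Normal := inferInstance
  have hAn : A.Normal := inferInstance
  obtain ⟨P⟩ : Nonempty (Sylow p (G ⧸ B)) := inferInstance
  obtain ⟨Q⟩ : Nonempty (Sylow q (G ⧸ A)) := inferInstance
  obtain ⟨h1, h2⟩ := image_le p q hps (fun χ hχ => ((hE χ).1 hχ).1) P
  obtain ⟨h3, h4⟩ := image_le q p hqs (fun χ hχ => ((hE χ).2 hχ).1) Q
  have hsB := QuotientGroup.mk'_surjective B
  have hsA := QuotientGroup.mk'_surjective A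
  set X := (pCore p (G ⧸ B)).comap (QuotientGroup.mk' B) with hX
  have hXn : X.Normal := (inferInstance : (pCore p (G ⧸ B)).Normal).comap _
  have hBX : B ≤ X := by
    intro x hx
    rw [hX, Subgroup.mem_comap]
    have : QuotientGroup.mk' B x = 1 := (QuotientGroup.eq_one_iff x).2 hx
    rw [this]; exact one_mem _
  have hZn : (B.map (QuotientGroup.mk' A)).Normal := hBn.map _ hsA
  have hWn : (X.map (QuotientGroup.mk' A)).Normal := hXn.map _ hsA
  have hrel : (B.map (QuotientGroup.mk' A)).relIndex (X.map (QuotientGroup.mk' A)) ∣ B.relIndex X := by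
    have e1 : (B.map (QuotientGroup.mk' A)).relIndex (X.map (QuotientGroup.mk' A)) = (B ⊔ A).relIndex (X ⊔ A) := by
      have e2 : B ⊔ A = (B.map (QuotientGroup.mk' A)).comap (QuotientGroup.mk' A) := by
        rw [Subgroup.comap_map_eq, QuotientGroup.ker_mk']
      have e3 : X ⊔ A = (X.map (QuotientGroup.mk' A)).comap (QuotientGroup.mk' A) := by
        rw [Subgroup.comap_map_eq, QuotientGroup.ker_mk']
      rw [e2, Subgroup.relIndex_comap, e3, Subgroup.map_comap_eq_self_of_surjective hsA]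
    have e4 : X ⊔ A = X ⊔ (B ⊔ A) := by rw [← sup_assoc, sup_eq_left.2 hBX]
    have e5 : (B ⊔ A).relIndex (X ⊔ (B ⊔ A)) = (B ⊔ A).relIndex X := Subgroup.relIndex_sup_right _ _
    rw [e1, e4, e5]
    exact Subgroup.relIndex_dvd_of_le_left X le_sup_left
  have hBXp : ∃ c, B.relIndex X = p ^ c := by
    have e1 : B = (⊥ : Subgroup (G ⧸ B)).comap (QuotientGroup.mk' B) := by
      rw [MonoidHom.comap_bot, QuotientGroup.ker_mk']
    have e2 : B.relIndex X = Nat.card (pCore p (G ⧸ B)) := by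
      have e3 : B.relIndex X = ((⊥ : Subgroup (G ⧸ B)).comap (QuotientGroup.mk' B)).relIndex X := by rw [← e1]
      rw [e3, Subgroup.relIndex_comap, hX, Subgroup.map_comap_eq_self_of_surjective hsB, Subgroup.relIndex_bot_left]
    rw [e2]
    exact IsPGroup.iff_card.1 (Solv.pCore_isPGroup p)
  have hcop : ((B.map (QuotientGroup.mk' A)).relIndex (X.map (QuotientGroup.mk' A))).Coprime q := by
    obtain ⟨c, hc⟩ := hBXp
    rw [hc] at hrel
    exact Nat.Coprime.coprime_dvd_left hrel (Nat.Coprime.pow_left c ((Nat.coprime_primes hp.out hq.out).2 hpq))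
  obtain ⟨W0, hW0n, hW0c, hW0⟩ := exists_normal_complement (H76.isPSolvable_quotient A hqs) Q
    (B.map (QuotientGroup.mk' A)) (X.map (QuotientGroup.mk' A)) (Subgroup.map_mono hBX)
    ((Solv.pCore_isPGroup q).to_le h3) h4 hcop
  have hW0' := Solv.le_pPrimeCore hW0n hW0c
  rw [Bal.pPrimeCore_quot_bot, le_bot_iff] at hW0'
  rw [hW0', sup_bot_eq] at hW0
  have hXle : X ≤ B ⊔ A := by
    have e2 : B ⊔ A = (B.map (QuotientGroup.mk' A)).comap (QuotientGroup.mk' A) := by
      rw [Subgroup.comap_map_eq, QuotientGroup.ker_mk']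
    rw [e2, ← hW0]
    exact Subgroup.le_comap_map _ _
  have hcoreA : pCore p (G ⧸ B) ≤ A.map (QuotientGroup.mk' B) := by
    have e1 : pCore p (G ⧸ B) = X.map (QuotientGroup.mk' B) := by
      rw [hX, Subgroup.map_comap_eq_self_of_surjective hsB]
    rw [e1]
    have e2 : (B ⊔ A).map (QuotientGroup.mk' B) = A.map (QuotientGroup.mk' B) := by
      rw [Subgroup.map_sup, (Subgroup.map_eq_bot_iff B).mpr (by rw [QuotientGroup.ker_mk']), bot_sup_eq]
    rw [← e2]
    exact Subgroup.map_mono hXle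
  have htop := le_pCore_of_inf_le (H76.isPSolvable_quotient B hps) Bal.pPrimeCore_quot_bot P ⊤ (by
    rw [top_inf_eq]
    exact hcoreA.trans h2)
  have h5 : (⊤ : Subgroup (G ⧸ B)) ≤ ⁅(P : Subgroup (G ⧸ B)), (P : Subgroup (G ⧸ B))⁆ := htop.trans (hcoreA.trans h2)
  have h6 := eq_of_sup_commutator (P : Subgroup (G ⧸ B)) P.isPGroup' ⊥ (by rw [bot_sup_eq]; exact le_top.trans h5) bot_le
  have h7 : (⊤ : Subgroup (G ⧸ B)) ≤ ⊥ := by
    refine h5.trans ((Subgroup.commutator_le_self _).trans ?_)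
    rw [← h6]
  have h8 : B = ⊤ := by
    rw [eq_top_iff]
    intro x _
    have := h7 (Subgroup.mem_top (QuotientGroup.mk' B x))
    rw [Subgroup.mem_bot] at this
    exact (QuotientGroup.eq_one_iff x).1 this
  have h9 : ¬ p ∣ Nat.card B := H79.not_dvd_pPrimeCore
  rw [h8, Subgroup.card_top] at h9
  exact h9 hpd

end one

end Cfsg.Agent.H34.PQB
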