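import Cfsg.Agent.H81.RealOver
import Cfsg.Agent.H75.Inflate
import Cfsg.Agent.H75.Ito
import Cfsg.Agent.H75.Tools
import Cfsg.Agent.H4.BlkQuot
import Cfsg.Agent.Char.RelGlaub2

/-! Real irreducible characters of degree prime to `p`: existence of real characters over a normal
subgroup containing a real element (owner: helper34). -/

set_option autoImplicit false

namespace Cfsg.Agent.H34.RealP

open Cfsg Cfsg.Agent Cfsg.Agent.CharBase Cfsg.Agent.Char

universe u

section classes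

variable {G : Type u} [Group G] [Finite G]

/-- If real elements of `G ⧸ N` lift to real elements and `N` has a nontrivial real element, then some
real irreducible character does not contain `N` in its kernel. -/
theorem exists_real_of_classes (N : Subgroup G) [N.Normal]
    (hlift : ∀ x : G, IsConj (x : G ⧸ N) (x : G ⧸ N)⁻¹ → ∃ y : G, (y : G ⧸ N) = (x : G ⧸ N) ∧ IsConj y y⁻¹)
    {n : G} (hn : n ∈ N) (hn1 : n ≠ 1) (hreal : IsConj n n⁻¹) :
    ∃ χ : IrrCharacter G, (∀ g, ((χ : G → ℂ) g).im = 0) ∧ ¬ ∀ m ∈ N, (χ : G → ℂ) m = (χ : G → ℂ) 1 := by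
  classical
  by_contra hcon
  push Not at hcon
  have h1 : Nat.card (H81.RealIrr G) ≤ Nat.card (H81.RealIrr (G ⧸ N)) := by
    refine Nat.card_le_card_of_injective
      (fun χ : H81.RealIrr G => (⟨(H75.inflateEquiv N).symm ⟨χ.1, hcon χ.1 χ.2⟩, ?_⟩ : H81.RealIrr (G ⧸ N))) ?_
    · intro k
      obtain ⟨g, rfl⟩ := QuotientGroup.mk_surjective k
      have h2 := congrArg (fun z => ((z : {χ : IrrCharacter G // ∀ n ∈ N, (χ : G → ℂ) n = (χ : G → ℂ) 1}).1 : G → ℂ) g)
        ((H75.inflateEquiv N).apply_symm_apply ⟨χ.1, hcon χ.1 χ.2⟩)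
      have h3 : (((H75.inflateEquiv N).symm ⟨χ.1, hcon χ.1 χ.2⟩ : IrrCharacter (G ⧸ N)) : G ⧸ N → ℂ) (QuotientGroup.mk g) = (χ.1 : G → ℂ) g := h2
      rw [h3]
      exact χ.2 g
    · intro χ χ' h
      have h2 := congrArg Subtype.val h
      have h3 := (H75.inflateEquiv N).symm.injective h2
      have h4 : χ.1 = χ'.1 := congrArg (fun z : {χ : IrrCharacter G // ∀ n ∈ N, (χ : G → ℂ) n = (χ : G → ℂ) 1} => z.1) h3
      exact Subtype.ext h4
  rw [H81.card_real_irr, H81.card_real_irr] at h1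
  let f : {C : ConjClasses G // ∀ g, ConjClasses.mk g = C → IsConj g⁻¹ g} →
      {C : ConjClasses (G ⧸ N) // ∀ g, ConjClasses.mk g = C → IsConj g⁻¹ g} := fun C =>
    ⟨ConjClasses.map (QuotientGroup.mk' N) C.1, by
      obtain ⟨C, hC⟩ := C
      obtain ⟨x, rfl⟩ := ConjClasses.exists_rep C
      intro g hg
      have h2 : IsConj (QuotientGroup.mk' N x) g := (ConjClasses.mk_eq_mk_iff_isConj.1 hg).symm
      have h3 := hC x rfl
      have h4 : IsConj (QuotientGroup.mk' N x⁻¹) (QuotientGroup.mk' N x) := MonoidHom.map_isConj _ h3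
      have h5 : IsConj g⁻¹ (QuotientGroup.mk' N x)⁻¹ := by
        obtain ⟨c, hc⟩ := isConj_iff.1 h2.symm
        exact isConj_iff.2 ⟨c, by rw [← hc]; group⟩
      rw [map_inv] at h4
      exact (h5.trans h4).trans h2⟩
  have hsurj : Function.Surjective f := by
    rintro ⟨C, hC⟩
    obtain ⟨x', rfl⟩ := ConjClasses.exists_rep C
    obtain ⟨x, rfl⟩ := QuotientGroup.mk_surjective x'
    obtain ⟨y, hy, hyr⟩ := hlift x (hC _ rfl).symm
    refine ⟨⟨ConjClasses.mk y, ?_⟩, Subtype.ext ?_⟩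
    · intro g hg
      have h2 := ConjClasses.mk_eq_mk_iff_isConj.1 hg
      have h5 : IsConj g⁻¹ y⁻¹ := by
        obtain ⟨c, hc⟩ := isConj_iff.1 h2
        exact isConj_iff.2 ⟨c, by rw [← hc]; group⟩
      exact (h5.trans hyr.symm).trans h2.symm
    · show ConjClasses.map (QuotientGroup.mk' N) (ConjClasses.mk y) = ConjClasses.mk (x : G ⧸ N)
      rw [← hy]
      rfl
  have hfin : Finite (ConjClasses G) := Quotient.finite _
  have hfin2 : Finite (ConjClasses (G ⧸ N)) := Quotient.finite _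
  have hcardle : Nat.card {C : ConjClasses (G ⧸ N) // ∀ g, ConjClasses.mk g = C → IsConj g⁻¹ g} ≤
      Nat.card {C : ConjClasses G // ∀ g, ConjClasses.mk g = C → IsConj g⁻¹ g} := Nat.card_le_card_of_surjective f hsurj
  have hinj : Function.Injective f := (hsurj.bijective_of_nat_card_le h1).1
  have hr1 : ∀ g : G, ConjClasses.mk g = ConjClasses.mk n → IsConj g⁻¹ g := by
    intro g hg
    have h2 := ConjClasses.mk_eq_mk_iff_isConj.1 hg
    have h5 : IsConj g⁻¹ n⁻¹ := by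
      obtain ⟨c, hc⟩ := isConj_iff.1 h2
      exact isConj_iff.2 ⟨c, by rw [← hc]; group⟩
    exact (h5.trans hreal.symm).trans h2.symm
  have hr2 : ∀ g : G, ConjClasses.mk g = ConjClasses.mk (1 : G) → IsConj g⁻¹ g := by
    intro g hg
    have h2 := ConjClasses.mk_eq_mk_iff_isConj.1 hg
    obtain rfl : g = 1 := isConj_one_left.1 h2
    rw [inv_one]
  have h6 : f ⟨ConjClasses.mk n, hr1⟩ = f ⟨ConjClasses.mk 1, hr2⟩ := by
    apply Subtype.ext
    show ConjClasses.mk (QuotientGroup.mk' N n) = ConjClasses.mk (QuotientGroup.mk' N 1)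
    rw [map_one, (QuotientGroup.eq_one_iff n).2 hn |> fun h => (show QuotientGroup.mk' N n = 1 from h)]
  have h7 := congrArg Subtype.val (hinj h6)
  have h8 : IsConj n 1 := ConjClasses.mk_eq_mk_iff_isConj.1 h7
  exact hn1 (isConj_one_left.1 h8)

omit [Finite G] in
/-- a `2`-element acting nontrivially gives a nontrivial inverted element -/
theorem exists_inverted (N : Subgroup G) [N.Normal] (k : ℕ) : ∀ (t : G), t ^ 2 ^ k = 1 → (∃ n ∈ N, t * n * t⁻¹ ≠ n) →
    ∃ n ∈ N, n ≠ 1 ∧ IsConj n n⁻¹ := by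
  induction k with
  | zero =>
    intro t ht ⟨n, hn, hne⟩
    rw [pow_zero, pow_one] at ht
    subst ht
    exact absurd (by group) hne
  | succ k ih =>
    intro t ht ⟨n, hn, hne⟩
    by_cases h2 : ∃ n ∈ N, t ^ 2 * n * (t ^ 2)⁻¹ ≠ n
    · refine ih (t ^ 2) ?_ h2
      rw [← pow_mul, ← pow_succ']
      exact ht
    · push Not at h2
      refine ⟨n⁻¹ * (t * n * t⁻¹), N.mul_mem (N.inv_mem hn) (Subgroup.Normal.conj_mem inferInstance n hn t), ?_, ?_⟩
      · intro h
        apply hne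
        rw [inv_mul_eq_one] at h
        exact h.symm
      · rw [isConj_iff]
        refine ⟨t, ?_⟩
        have h3 := h2 n hn
        have h4 : t * (n⁻¹ * (t * n * t⁻¹)) * t⁻¹ = (t * n * t⁻¹)⁻¹ * (t ^ 2 * n * (t ^ 2)⁻¹) := by
          rw [sq]; group
        rw [h4, h3]; group

/-- real elements lift modulo a normal subgroup of odd order -/
theorem lift_real (N : Subgroup G) [N.Normal] (hodd : Odd (Nat.card N)) (x : G) (h : IsConj (x : G ⧸ N) (x : G ⧸ N)⁻¹) :
    ∃ y : G, (y : G ⧸ N) = (x : G ⧸ N) ∧ IsConj y y⁻¹ := by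
  classical
  obtain ⟨c, hc⟩ := isConj_iff.1 h
  obtain ⟨g, rfl⟩ := QuotientGroup.mk_surjective c
  obtain ⟨k, m, hm, hkm⟩ := Nat.exists_eq_two_pow_mul_odd (orderOf_pos g).ne'
  have hc' := H81.inv_conj_pow hc m hm
  set t := g ^ m with ht
  have ht2 : t ^ 2 ^ k = 1 := by
    rw [ht, ← pow_mul, mul_comm, ← hkm, pow_orderOf_eq_one]
  have hmem : ∀ y : G, (y : G ⧸ N) = (x : G ⧸ N) → ((t * y⁻¹ * t⁻¹ : G) : G ⧸ N) = (x : G ⧸ N) := by
    intro y hy
    have h1 : ((t * y⁻¹ * t⁻¹ : G) : G ⧸ N) = ((g : G ⧸ N) ^ m * (x : G ⧸ N) * ((g : G ⧸ N) ^ m)⁻¹)⁻¹ := by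
      rw [QuotientGroup.mk_mul, QuotientGroup.mk_mul, QuotientGroup.mk_inv, QuotientGroup.mk_inv, hy, ht, QuotientGroup.mk_pow]
      group
    rw [h1, hc', inv_inv]
  let S := {y : G // (y : G ⧸ N) = (x : G ⧸ N)}
  let τ0 : S → S := fun y => ⟨t * (y : G)⁻¹ * t⁻¹, hmem y y.2⟩
  have hinj : Function.Injective τ0 := by
    intro a b hab
    have h1 := congrArg Subtype.val hab
    apply Subtype.ext
    have h2 : t * (a : G)⁻¹ * t⁻¹ = t * (b : G)⁻¹ * t⁻¹ := h1
    have h3 := mul_right_cancel h2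
    exact inv_injective (mul_left_cancel h3)
  have hSfin : Finite S := inferInstance
  let τ : Equiv.Perm S := Equiv.ofBijective τ0 (Finite.injective_iff_bijective.1 hinj)
  have hτ : ∀ y : S, ((τ y : S) : G) = t * (y : G)⁻¹ * t⁻¹ := fun y => rfl
  have hτ2 : ∀ (j : ℕ) (y : S), (((τ ^ (2 * j)) y : S) : G) = t ^ (2 * j) * (y : G) * (t ^ (2 * j))⁻¹ := by
    intro j
    induction j with
    | zero => intro y; simp
    | succ j ih =>
      intro y
      have h1 : τ ^ (2 * (j + 1)) = τ * (τ * τ ^ (2 * j)) := by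
        rw [← pow_succ', ← pow_succ']; congr 1
      rw [h1, Equiv.Perm.mul_apply, hτ, Equiv.Perm.mul_apply, hτ, ih]
      have h2 : t ^ (2 * (j + 1)) = t * (t * t ^ (2 * j)) := by
        rw [← pow_succ', ← pow_succ']; congr 1
      rw [h2]; group
  have hτ1 : τ ^ 2 ^ (k + 1) = 1 := by
    apply Equiv.ext
    intro y
    apply Subtype.ext
    rw [pow_succ', hτ2, mul_comm 2, pow_mul, ht2]
    simp
  have hp2 : Fact (Nat.Prime 2) := ⟨Nat.prime_two⟩
  have hPG : IsPGroup 2 (Subgroup.zpowers τ) := by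
    rintro ⟨z, hz⟩
    refine ⟨k + 1, ?_⟩
    obtain ⟨j, rfl⟩ := Subgroup.mem_zpowers_iff.1 hz
    apply Subtype.ext
    rw [Subgroup.coe_pow, Subgroup.coe_one, ← zpow_natCast, ← zpow_mul, mul_comm, zpow_mul, zpow_natCast, hτ1, one_zpow]
  have hcard : Nat.card S = Nat.card N := by
    refine Nat.card_congr ⟨fun y => ⟨x⁻¹ * y, ?_⟩, fun n => ⟨x * n, ?_⟩, fun y => ?_, fun n => ?_⟩
    · exact QuotientGroup.eq.1 y.2.symm
    · rw [QuotientGroup.mk_mul, (QuotientGroup.eq_one_iff (n : G)).2 n.2, mul_one]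
    · apply Subtype.ext; simp
    · apply Subtype.ext; simp
  have hmod := hPG.card_modEq_card_fixedPoints S
  have hne : (MulAction.fixedPoints (Subgroup.zpowers τ) S).Nonempty := by
    rw [Set.nonempty_iff_ne_empty]
    intro he
    rw [he, hcard] at hmod
    simp only [Nat.card_eq_fintype_card, Set.card_empty, Fintype.card_eq_zero] at hmod
    have h1 : Nat.card N % 2 = 0 := hmod
    rw [Nat.odd_iff] at hodd
    omega
  obtain ⟨y, hy⟩ := hne
  have h1 : τ y = y := hy ⟨τ, Subgroup.mem_zpowers τ⟩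
  have h2 := hτ y
  rw [h1] at h2
  refine ⟨y, y.2, isConj_iff.2 ⟨t, ?_⟩⟩
  have h3 : t * (y : G) * t⁻¹ = (t * (y : G)⁻¹ * t⁻¹)⁻¹ := by group
  rw [h3, ← h2]

end classes

section kernels

variable {G : Type u} [Group G] [Finite G]

/-- if `p'`-degree characters of `H` contain `N` in the kernel then so do those of `G` -/
theorem ker_of_not_dvd {p : ℕ} (H N : Subgroup G) [N.Normal] (hNH : N ≤ H)
    (hH : ∀ ψ : IrrCharacter H, ¬ p ∣ H75.deg ψ → ∀ n : H, (n : G) ∈ N → (ψ : H → ℂ) n = (ψ : H → ℂ) 1)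
    (χ : IrrCharacter G) (hp : ¬ p ∣ H75.deg χ) (m : G) (hm : m ∈ N) : (χ : G → ℂ) m = (χ : G → ℂ) 1 := by
  classical
  have := Fintype.ofFinite G
  have := Fintype.ofFinite H
  have := Fintype.ofFinite N
  have : Fintype (IrrCharacter H) := Fintype.ofFinite _
  by_contra hcon
  have hker : ¬ ∀ n ∈ N, (χ : G → ℂ) n = (χ : G → ℂ) 1 := fun h => hcon (h m hm)
  have h0 := H4.sum_coset_eq_zero N χ hker 1
  have hres : IsCharacter H (fun h : H => (χ : G → ℂ) h) := isCharacter_restrict (irr_isCharacter χ) H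
  obtain ⟨k, hk, hsum⟩ := exists_mult_of_isCharacter hres
  -- some constituent has degree prime to p
  have hex : ∃ ψ : IrrCharacter H, k ψ ≠ 0 ∧ ¬ p ∣ H75.deg ψ := by
    by_contra hc
    push Not at hc
    apply hp
    have h1 := congrFun hsum 1
    have h2 : ((H75.deg χ : ℕ) : ℂ) = ((∑ ψ : IrrCharacter H, k ψ * H75.deg ψ : ℕ) : ℂ) := by
      rw [← H75.deg_spec]
      have h3 : (fun h : H => (χ : G → ℂ) h) 1 = (χ : G → ℂ) 1 := by simp
      rw [← h3]
      have h1' : (fun h : H => (χ : G → ℂ) h) 1 = (∑ ψ : IrrCharacter H, k ψ • (ψ : H → ℂ)) 1 := h1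
      rw [h1', Finset.sum_apply]
      push_cast
      refine Finset.sum_congr rfl fun ψ _ => ?_
      rw [Pi.smul_apply, nsmul_eq_mul, H75.deg_spec]
    have h3 : H75.deg χ = ∑ ψ : IrrCharacter H, k ψ * H75.deg ψ := by exact_mod_cast h2
    rw [h3]
    refine Finset.dvd_sum fun ψ _ => ?_
    by_cases hk0 : k ψ = 0
    · rw [hk0, zero_mul]; exact dvd_zero _
    · exact Dvd.dvd.mul_left (hc ψ hk0) _
  obtain ⟨ψ, hψ0, hψp⟩ := hex
  have h1 : classInner (fun h : H => (χ : G → ℂ) h) (ψ : H → ℂ) ≠ 0 := by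
    rw [hk ψ]
    exact_mod_cast hψ0
  have htriv : IsIrrCharacter N (fun _ : N => (1 : ℂ)) := CharBase.isIrrCharacter_one
  have h2 : classInner (fun n : N => (ψ : H → ℂ) (Subgroup.inclusion hNH n)) (fun _ : N => (1 : ℂ)) ≠ 0 := by
    have h3 : (fun n : N => (ψ : H → ℂ) (Subgroup.inclusion hNH n)) = fun _ : N => (ψ : H → ℂ) 1 := by
      funext n
      exact hH ψ hψp _ n.2
    rw [h3]
    unfold classInner
    simp only [map_one, mul_one, Finset.sum_const, Finset.card_univ, nsmul_eq_mul]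
    rw [Nat.card_eq_fintype_card, ← mul_assoc, inv_mul_cancel₀ (by exact_mod_cast Fintype.card_ne_zero), one_mul]
    exact irr_one_ne_zero ψ.2
  have h3 := RG.inner_comp_ne_zero (Subgroup.inclusion hNH) hres ψ.2 htriv h1 h2
  apply h3
  unfold classInner
  have h4 : ∑ n : N, (χ : G → ℂ) (Subgroup.inclusion hNH n : H) * (starRingEnd ℂ) 1 = 0 := by
    have h5 : ∑ x : N, (χ : G → ℂ) (1 * x) = ∑ n : N, (χ : G → ℂ) (Subgroup.inclusion hNH n : H) * (starRingEnd ℂ) 1 := by
      refine Finset.sum_congr rfl fun n _ => ?_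
      rw [one_mul, map_one, mul_one]
      rfl
    rw [← h5, h0]
  rw [h4, mul_zero]

theorem mem_ker_of_comm {H : Type u} [Group H] [Finite H] {ψ : IrrCharacter H} (h1 : H75.deg ψ = 1) {x : H}
    (hx : x ∈ commutator H) : (ψ : H → ℂ) x = (ψ : H → ℂ) 1 := by
  have h2 : (ψ : H → ℂ) 1 = 1 := by rw [H75.deg_spec, h1]; simp
  have hle : commutator H ≤ H75.charKer (irr_isCharacter ψ) := by
    rw [commutator_def, Subgroup.commutator_le]
    intro a _ b _
    rw [H75.mem_charKer, h2]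
    exact H75.linear_commutator (irr_isCharacter ψ) h2 a b
  exact (H75.mem_charKer _ _).1 (hle hx)

end kernels

end Cfsg.Agent.H34.RealP
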