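import Cfsg.Agent.H34.RealP1

/-! Groups whose real irreducible characters have degree prime to `p`: the normal Sylow subgroup
theorems (owner: helper34). -/

set_option autoImplicit false
set_option linter.style.haveILetI false

namespace Cfsg.Agent.H34.RealP

open Cfsg Cfsg.Agent Cfsg.Agent.CharBase Cfsg.Agent.Char
open scoped commutatorElement

universe u

/-- the subgroup generated by the `p`-elements -/
abbrev pGen (p : ℕ) (G : Type u) [Group G] : Subgroup G := Subgroup.closure {g : G | ∃ k : ℕ, orderOf g = p ^ k}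

theorem pGen_normal (p : ℕ) (G : Type u) [Group G] : (pGen p G).Normal := by
    constructor
    intro n hn g
    refine Subgroup.closure_induction (p := fun x _ => g * x * g⁻¹ ∈ pGen p G) ?_ ?_ ?_ ?_ hn
    · rintro x ⟨k, hk⟩
      apply Subgroup.subset_closure
      refine ⟨k, ?_⟩
      rw [← hk]
      exact (MulAut.conj g).orderOf_eq x
    · simp
    · intro x y _ _ hx hy
      have : g * (x * y) * g⁻¹ = (g * x * g⁻¹) * (g * y * g⁻¹) := by group
      rw [this]
      exact mul_mem hx hy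
    · intro x _ hx
      have : g * x⁻¹ * g⁻¹ = (g * x * g⁻¹)⁻¹ := by group
      rw [this]
      exact inv_mem hx

theorem mem_pGen {p : ℕ} [hp : Fact p.Prime] {G : Type u} [Group G] {g : G} {k : ℕ} (h : g ^ p ^ k = 1) : g ∈ pGen p G := by
  apply Subgroup.subset_closure
  obtain ⟨j, -, hj⟩ := (Nat.dvd_prime_pow hp.out).1 (orderOf_dvd_of_pow_eq_one h)
  exact ⟨j, hj⟩

theorem map_pGen_le (p : ℕ) [hp : Fact p.Prime] {G : Type u} {H : Type u} [Group G] [Group H] (f : G →* H) :
    (pGen p G).map f ≤ pGen p H := by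
  rw [Subgroup.map_le_iff_le_comap, Subgroup.closure_le]
  rintro x ⟨k, hk⟩
  refine mem_pGen (k := k) ?_
  rw [← map_pow, ← hk, pow_orderOf_eq_one, map_one]

/-- `p`-elements lift -/
theorem pGen_le_map (p : ℕ) [hp : Fact p.Prime] {G : Type u} [Group G] [Finite G] {H : Type u} [Group H] (f : G →* H)
    (hf : Function.Surjective f) : pGen p H ≤ (pGen p G).map f := by
  rw [Subgroup.closure_le]
  rintro x ⟨k, hk⟩
  obtain ⟨g, rfl⟩ := hf x
  obtain ⟨a, m, hm, ham⟩ := Nat.exists_eq_pow_mul_and_not_dvd (orderOf_pos g).ne' p hp.out.ne_one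
  have hcop : Nat.Coprime m (p ^ k) := (Nat.Coprime.pow_left k ((Nat.Prime.coprime_iff_not_dvd hp.out).2 hm)).symm
  obtain ⟨c, hc⟩ : ∃ c, m * c ≡ 1 [MOD p ^ k] := Nat.exists_mul_mod_eq_one_of_coprime' hcop
  refine ⟨g ^ (m * c), mem_pGen (k := a) ?_, ?_⟩
  · rw [← pow_mul, mul_right_comm, mul_comm m, ← ham, pow_mul, pow_orderOf_eq_one, one_pow]
  · rw [map_pow]
    have h1 : f g ^ (m * c) = f g ^ 1 := by
      rw [pow_eq_pow_iff_modEq, hk]
      exact hc
    rw [h1, pow_one]
where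
  Nat.exists_mul_mod_eq_one_of_coprime' {m n : ℕ} (h : Nat.Coprime m n) : ∃ c, m * c ≡ 1 [MOD n] := by
    rcases Nat.lt_or_ge 1 n with h1 | h1
    · obtain ⟨c, hc⟩ := Nat.exists_mul_mod_eq_one_of_coprime h h1
      refine ⟨c, ?_⟩
      rw [Nat.ModEq, hc.2, Nat.mod_eq_of_lt h1]
    · interval_cases n
      · rw [Nat.coprime_zero_right] at h
        exact ⟨1, by rw [h]⟩
      · exact ⟨1, Nat.modEq_one⟩

/-- minimal normal subgroups inside a nontrivial solvable normal subgroup -/
theorem exists_min_abelian {G : Type u} [Group G] [Finite G] (L : Subgroup G) [L.Normal] (hL : L ≠ ⊥) (hs : Group.IsSolvable L) :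
    ∃ (N : Subgroup G) (r : ℕ), N.Normal ∧ N ≤ L ∧ N ≠ ⊥ ∧ r.Prime ∧ (∀ n ∈ N, n ^ r = 1) ∧ (∀ a ∈ N, ∀ b ∈ N, a * b = b * a) ∧
      ∀ M : Subgroup G, M.Normal → M ≤ N → M = ⊥ ∨ M = N := by
  classical
  obtain ⟨N, ⟨hNn, hNL, hNb⟩, hmin⟩ := (Set.toFinite {N : Subgroup G | N.Normal ∧ N ≤ L ∧ N ≠ ⊥}).exists_minimal ⟨L, inferInstance, le_rfl, hL⟩
  have hmin' : ∀ M : Subgroup G, M.Normal → M ≤ N → M = ⊥ ∨ M = N := by
    intro M hM hMN
    by_cases h : M = ⊥
    · exact Or.inl h
    · exact Or.inr (le_antisymm hMN (hmin ⟨hM, hMN.trans hNL, h⟩ hMN))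
  have hNs : Group.IsSolvable N := Group.isSolvable_of_isSolvable_injective (Subgroup.inclusion_injective hNL)
  have hcomm : ⁅N, N⁆ = ⊥ := by
    rcases hmin' ⁅N, N⁆ inferInstance (Subgroup.commutator_le_left N N) with h | h
    · exact h
    · exfalso
      have h1 : commutator N = ⊤ := by
        apply Subgroup.map_injective N.subtype_injective
        rw [Subgroup.map_subtype_commutator, h, ← MonoidHom.range_eq_map, Subgroup.range_subtype]
      have h2 : Nontrivial N := (Subgroup.nontrivial_iff_ne_bot N).2 hNb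
      exact (Group.IsSolvable.commutator_lt_top_of_nontrivial N).ne h1
  have hab : ∀ a ∈ N, ∀ b ∈ N, a * b = b * a := by
    intro a ha b hb
    have h1 : ⁅(a : G), (b : G)⁆ ∈ ⁅N, N⁆ := Subgroup.commutator_mem_commutator ha hb
    rw [hcomm, Subgroup.mem_bot, commutatorElement_eq_one_iff_mul_comm] at h1
    exact h1
  have hcard : Nat.card N ≠ 1 := by
    rw [Ne, Subgroup.card_eq_one]
    exact hNb
  obtain ⟨r, hr, hrd⟩ := Nat.exists_prime_and_dvd hcard
  haveI : Fact r.Prime := ⟨hr⟩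
  obtain ⟨x, hx⟩ := exists_prime_orderOf_dvd_card' (G := N) r hrd
  refine ⟨N, r, hNn, hNL, hNb, hr, ?_, hab, hmin'⟩
  let M : Subgroup G :=
    { carrier := {n | n ∈ N ∧ n ^ r = 1}
      one_mem' := ⟨N.one_mem, one_pow r⟩
      mul_mem' := by
        rintro a b ⟨ha, ha1⟩ ⟨hb, hb1⟩
        refine ⟨N.mul_mem ha hb, ?_⟩
        rw [(show Commute a b from hab a ha b hb).mul_pow, ha1, hb1, one_mul]
      inv_mem' := by
        rintro a ⟨ha, ha1⟩
        exact ⟨N.inv_mem ha, by rw [inv_pow, ha1, inv_one]⟩ }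
  have hMn : M.Normal := by
    constructor
    rintro n ⟨hn, hn1⟩ g
    refine ⟨hNn.conj_mem n hn g, ?_⟩
    rw [conj_pow, hn1]; group
  rcases hmin' M hMn (fun n hn => hn.1) with h | h
  · exfalso
    have h1 : (x : G) ∈ M := by
      refine ⟨x.2, ?_⟩
      rw [← Subgroup.coe_pow, ← hx, pow_orderOf_eq_one, Subgroup.coe_one]
    rw [h, Subgroup.mem_bot] at h1
    have h2 : x = 1 := Subtype.ext h1
    rw [h2, orderOf_one] at hx
    exact hr.one_lt.ne hx
  · intro n hn
    rw [← h] at hn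
    exact hn.2

/-- the key induction: a normal subgroup `U` with `U / K` a `p`-group, `K` generated by the `2`-elements,
has a normal Sylow `p`-subgroup. -/
theorem exists_normal_sylow (p : ℕ) [hp : Fact p.Prime] : ∀ (n : ℕ) (G : Type u) [Group G] [Finite G], Nat.card G = n →
    Group.IsSolvable ↥(pGen p G) → (∀ χ : IrrCharacter G, (∀ g : G, ((χ : G → ℂ) g).im = 0) → ¬ p ∣ charDegree (χ : G → ℂ)) →
    ∀ U : Subgroup G, U.Normal → (∀ u ∈ U, ∃ j, u ^ p ^ j ∈ pGen 2 G) → (∀ t : G, (∃ k, t ^ 2 ^ k = 1) → t ∈ U) →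
    ∃ R : Subgroup G, R.Normal ∧ IsPGroup p R ∧ R ≤ U ∧ ¬ p ∣ R.relIndex U := by
  intro n
  induction n using Nat.strong_induction_on with
  | _ n ih =>
  intro G _ _ hcard hsolv hreal U hU hUp h2U
  classical
  have hpn := pGen_normal p G
  haveI : (pGen p G ⊓ U).Normal := inferInstance
  by_cases hL : pGen p G ⊓ U = ⊥
  · -- `U` has no `p`-elements
    refine ⟨⊥, inferInstance, IsPGroup.of_bot, bot_le, ?_⟩
    rw [Subgroup.relIndex_bot_left]
    intro hd
    obtain ⟨x, hx⟩ := exists_prime_orderOf_dvd_card' (G := U) p hd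
    have h1 : (x : G) ∈ pGen p G ⊓ U := by
      refine ⟨mem_pGen (k := 1) ?_, x.2⟩
      rw [pow_one, ← Subgroup.coe_pow, ← hx, pow_orderOf_eq_one, Subgroup.coe_one]
    rw [hL, Subgroup.mem_bot] at h1
    have h2 : x = 1 := Subtype.ext h1
    rw [h2, orderOf_one] at hx
    exact hp.out.one_lt.ne hx
  have hLs : Group.IsSolvable ↥(pGen p G ⊓ U) :=
    Group.isSolvable_of_isSolvable_injective (Subgroup.inclusion_injective inf_le_left)
  obtain ⟨N, r, hNn, hNL, hNb, hr, hNr, hab, hmin⟩ := exists_min_abelian _ hL hLs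
  have hNU : N ≤ U := hNL.trans inf_le_right
  -- induction hypothesis for `G ⧸ N`
  have hlt : Nat.card (G ⧸ N) < n := by
    rw [← hcard, ← Subgroup.index_eq_card, ← N.card_mul_index]
    have h1 : 1 < Nat.card N := Subgroup.one_lt_card_iff_ne_bot N |>.2 hNb
    have h2 : 0 < N.index := Nat.pos_of_ne_zero Subgroup.index_ne_zero_of_finite
    nlinarith
  have hsolv' : Group.IsSolvable ↥(pGen p (G ⧸ N)) := by
    have h1 := pGen_le_map p (QuotientGroup.mk' N) (QuotientGroup.mk'_surjective N)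
    have h2 : Group.IsSolvable ↥((pGen p G).map (QuotientGroup.mk' N)) :=
      Group.isSolvable_of_surjective ((QuotientGroup.mk' N).subgroupMap_surjective (pGen p G))
    exact Group.isSolvable_of_isSolvable_injective (Subgroup.inclusion_injective h1)
  have hreal' : ∀ χ : IrrCharacter (G ⧸ N), (∀ g : G ⧸ N, ((χ : G ⧸ N → ℂ) g).im = 0) → ¬ p ∣ charDegree (χ : G ⧸ N → ℂ) := by
    intro χ hχ
    have h1 := hreal ((H75.inflateEquiv N) χ).1 (fun g => hχ g)
    exact h1
  obtain ⟨R', hR'n, hR'p, hR'U, hR'i⟩ := ih _ hlt (G ⧸ N) rfl hsolv' hreal' (U.map (QuotientGroup.mk' N))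
    (hU.map _ (QuotientGroup.mk'_surjective N)) (by
      rintro _ ⟨u, hu, rfl⟩
      obtain ⟨j, hj⟩ := hUp u hu
      refine ⟨j, ?_⟩
      rw [← map_pow]
      haveI : Fact (Nat.Prime 2) := ⟨Nat.prime_two⟩
      exact map_pGen_le 2 (QuotientGroup.mk' N) ⟨_, hj, rfl⟩) (by
      rintro t ⟨k, hk⟩
      haveI : Fact (Nat.Prime 2) := ⟨Nat.prime_two⟩
      obtain ⟨s, hs, rfl⟩ := pGen_le_map 2 (QuotientGroup.mk' N) (QuotientGroup.mk'_surjective N) (mem_pGen hk)
      refine ⟨s, ?_, rfl⟩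
      have h1 : pGen 2 G ≤ U := by
        rw [Subgroup.closure_le]
        rintro x ⟨j, hj⟩
        exact h2U x ⟨j, by rw [← hj, pow_orderOf_eq_one]⟩
      exact h1 hs)
  set R1 := R'.comap (QuotientGroup.mk' N) with hR1
  have hR1n : R1.Normal := hR'n.comap _
  have hNR1 : N ≤ R1 := by
    intro x hx
    rw [hR1, Subgroup.mem_comap]
    have : QuotientGroup.mk' N x = 1 := (QuotientGroup.eq_one_iff x).2 hx
    rw [this]; exact R'.one_mem
  have hcomapU : (U.map (QuotientGroup.mk' N)).comap (QuotientGroup.mk' N) = U := by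
    rw [Subgroup.comap_map_eq, QuotientGroup.ker_mk']
    exact sup_eq_left.2 hNU
  have hR1U : R1 ≤ U := by
    rw [← hcomapU]
    exact Subgroup.comap_mono hR'U
  have hR1i : R1.relIndex U = R'.relIndex (U.map (QuotientGroup.mk' N)) := by
    rw [hR1, Subgroup.relIndex_comap]
  have hR1el : ∀ x ∈ R1, ∃ j, x ^ p ^ j ∈ N := by
    intro x hx
    obtain ⟨j, hj⟩ := hR'p ⟨QuotientGroup.mk' N x, hx⟩
    refine ⟨j, (QuotientGroup.eq_one_iff _).1 ?_⟩
    have := congrArg Subtype.val hj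
    simpa using this
  by_cases hrp : r = p
  · -- `N` is a `p`-group
    refine ⟨R1, hR1n, ?_, hR1U, by rwa [hR1i]⟩
    rintro ⟨x, hx⟩
    obtain ⟨j, hj⟩ := hR1el x hx
    refine ⟨j + 1, Subtype.ext ?_⟩
    rw [Subgroup.coe_pow, Subgroup.coe_one, pow_succ, pow_mul]
    have := hNr _ hj
    rwa [hrp] at this
  -- `N` is a `p'`-group
  have hNcard : ∃ b, Nat.card N = r ^ b := by
    haveI : Fact r.Prime := ⟨hr⟩
    have h1 : IsPGroup r N := fun x => ⟨1, Subtype.ext (by rw [Subgroup.coe_pow, pow_one, hNr _ x.2, Subgroup.coe_one])⟩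
    exact IsPGroup.iff_card.1 h1
  have hpN : ¬ p ∣ Nat.card N := by
    obtain ⟨b, hb⟩ := hNcard
    rw [hb]
    intro h
    exact hrp ((Nat.prime_dvd_prime_iff_eq hp.out hr).1 (hp.out.dvd_of_dvd_pow h)).symm
  -- a Sylow subgroup of R1
  let P0 : Sylow p R1 := default
  set P : Subgroup G := (P0 : Subgroup R1).map R1.subtype with hP
  have hPR1 : P ≤ R1 := Subgroup.map_subtype_le _
  have hPp : IsPGroup p P := P0.isPGroup'.map _
  have hfrat : Subgroup.normalizer (P : Set G) ⊔ R1 = ⊤ := by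
    have := Sylow.normalizer_sup_eq_top (N := R1) P0
    rw [hP]
    exact this
  have hPi : ¬ p ∣ P.relIndex R1 := by
    rw [hP]
    have h1 : ((P0 : Subgroup R1).map R1.subtype).relIndex R1 = (P0 : Subgroup R1).index := by
      rw [Subgroup.relIndex, Subgroup.subgroupOf, Subgroup.comap_map_eq_self_of_injective R1.subtype_injective]
    rw [h1]
    exact P0.not_dvd_index
  have hR1sup : R1 ≤ P ⊔ N := by
    -- index of P ⊔ N in R1 is a p-power and prime to p
    have h1 : P ⊔ N ≤ R1 := sup_le hPR1 hNR1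
    have h2 : (P ⊔ N).relIndex R1 ∣ P.relIndex R1 := Subgroup.relIndex_dvd_of_le_left R1 le_sup_left
    have h3 : (P ⊔ N).relIndex R1 ∣ N.relIndex R1 := Subgroup.relIndex_dvd_of_le_left R1 le_sup_right
    have h4 : ∃ c, N.relIndex R1 = p ^ c := by
      have h5 : IsPGroup p (R1 ⧸ (N.subgroupOf R1)) := by
        intro x
        obtain ⟨y, rfl⟩ := QuotientGroup.mk_surjective x
        obtain ⟨j, hj⟩ := hR1el y y.2
        refine ⟨j, ?_⟩
        rw [← QuotientGroup.mk_pow, QuotientGroup.eq_one_iff, Subgroup.mem_subgroupOf]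
        exact hj
      obtain ⟨c, hc⟩ := IsPGroup.iff_card.1 h5
      exact ⟨c, hc⟩
    obtain ⟨c, hc⟩ := h4
    rw [hc] at h3
    obtain ⟨d, -, hd⟩ := (Nat.dvd_prime_pow hp.out).1 h3
    rw [← Subgroup.relIndex_eq_one, hd]
    rcases Nat.eq_zero_or_pos d with h0 | h0
    · rw [h0, pow_zero]
    · exfalso
      apply hPi
      rw [hd] at h2
      exact (dvd_pow_self p h0.ne').trans h2
  set H := Subgroup.normalizer (P : Set G) with hH
  have hPH : P ≤ H := Subgroup.le_normalizer
  have htop : H ⊔ N = ⊤ := by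
    rw [eq_top_iff, ← hfrat]
    refine sup_le le_sup_left (hR1sup.trans (sup_le (hPH.trans le_sup_left) le_sup_right))
  have hdec : ∀ g : G, ∃ h ∈ H, ∃ m ∈ N, g = h * m := by
    intro g
    have : g ∈ H ⊔ N := by rw [htop]; trivial
    obtain ⟨h, hh, m, hm, rfl⟩ := (Subgroup.mem_sup_of_normal_right).1 this
    exact ⟨h, hh, m, hm, rfl⟩
  -- N ⊓ H is normal
  have hnorm : (N ⊓ H).Normal := by
    constructor
    rintro x ⟨hxN, hxH⟩ g
    obtain ⟨h, hh, m, hm, rfl⟩ := hdec g
    have h1 : h * m * x * (h * m)⁻¹ = h * x * h⁻¹ := by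
      have h2 : m * x * m⁻¹ = x := by rw [hab m hm x hxN]; group
      calc h * m * x * (h * m)⁻¹ = h * (m * x * m⁻¹) * h⁻¹ := by group
        _ = _ := by rw [h2]
    rw [h1]
    exact ⟨hNn.conj_mem x hxN h, H.mul_mem (H.mul_mem hh hxH) (H.inv_mem hh)⟩
  rcases hmin _ hnorm inf_le_left with hbot | heq
  swap
  · -- P is normal
    have hNH : N ≤ H := by rw [← heq]; exact inf_le_right
    have hHtop : H = ⊤ := by rw [← htop]; exact (sup_eq_left.2 hNH).symm
    have hPn : P.Normal := Subgroup.normalizer_eq_top_iff.1 hHtop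
    refine ⟨P, hPn, hPp, hPR1.trans hR1U, ?_⟩
    rw [← Subgroup.relIndex_mul_relIndex P R1 U hPR1 hR1U, hR1i]
    intro h
    rcases (Nat.Prime.dvd_mul hp.out).1 h with h | h
    · exact hPi h
    · exact hR'i h
  exfalso
  have hmemb : ∀ x, x ∈ N → x ∈ H → x = 1 := by
    intro x h1 h2
    have : x ∈ N ⊓ H := ⟨h1, h2⟩
    rwa [hbot, Subgroup.mem_bot] at this
  -- ⁅N, P⁆ = N
  have hcn : (⁅N, P⁆ : Subgroup G).Normal := by
    constructor
    intro x hx g
    obtain ⟨h, hh, m, hm, rfl⟩ := hdec g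
    have hle : ⁅N, P⁆ ≤ N := Subgroup.commutator_le_left N P
    have hxN := hle hx
    have h1 : h * m * x * (h * m)⁻¹ = h * x * h⁻¹ := by
      have h2 : m * x * m⁻¹ = x := by rw [hab m hm x hxN]; group
      calc h * m * x * (h * m)⁻¹ = h * (m * x * m⁻¹) * h⁻¹ := by group
        _ = _ := by rw [h2]
    rw [h1]
    have h3 : (⁅N, P⁆).map (MulAut.conj h).toMonoidHom = ⁅N, P⁆ := by
      rw [Subgroup.map_commutator]
      congr 1
      · exact Subgroup.Normal.map_conj_eq N h
      · exact Subgroup.mem_normalizer_iff_map_conj_eq.1 hh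
    rw [← h3]
    exact ⟨x, hx, rfl⟩
  have hcomm : ⁅N, P⁆ = N := by
    rcases hmin _ hcn (Subgroup.commutator_le_left N P) with h | h
    · exfalso
      have hNH : N ≤ H := by
        intro m hm
        rw [hH, Subgroup.mem_normalizer_iff]
        intro x
        have h1 : ∀ y ∈ P, m * y * m⁻¹ = y := by
          intro y hy
          have h2 : ⁅(m : G), (y : G)⁆ ∈ ⁅N, P⁆ := Subgroup.commutator_mem_commutator hm hy
          rw [h, Subgroup.mem_bot, commutatorElement_eq_one_iff_mul_comm] at h2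
          rw [h2]; group
        constructor
        · intro hx
          rw [h1 x hx]; exact hx
        · intro hx
          have h3 := h1 _ hx
          have h4 : m * x * m⁻¹ = x := by
            have h5 : m * (m * x * m⁻¹) * m⁻¹ = m * x * m⁻¹ := h3
            have h6 := mul_right_cancel h5
            have h7 := mul_left_cancel h6
            exact h7
          rw [← h4]; exact hx
      apply hNb
      rw [eq_bot_iff]
      intro x hx
      exact (Subgroup.mem_bot).2 (hmemb x hx (hNH hx))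
    · exact h
  -- a nontrivial real element in N
  have hrealN : ∃ m ∈ N, m ≠ 1 ∧ IsConj m m⁻¹ := by
    obtain ⟨x0, hx0, hx01⟩ := (Subgroup.ne_bot_iff_exists_ne_one).1 hNb |> fun ⟨x, hx⟩ => (⟨x.1, x.2, fun h => hx (Subtype.ext h)⟩ : ∃ x ∈ N, x ≠ 1)
    by_cases hr2 : r = 2
    · refine ⟨x0, hx0, hx01, ?_⟩
      have h1 := hNr x0 hx0
      rw [hr2, sq] at h1
      rw [← eq_inv_of_mul_eq_one_left h1]
    by_cases hact : ∃ t : G, (∃ k, t ^ 2 ^ k = 1) ∧ ∃ n ∈ N, t * n * t⁻¹ ≠ n
    · obtain ⟨t, ⟨k, hk⟩, h⟩ := hact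
      exact exists_inverted N k t hk h
    · exfalso
      push Not at hact
      have hKC : pGen 2 G ≤ Subgroup.centralizer (N : Set G) := by
        rw [Subgroup.closure_le]
        rintro t ⟨k, hk⟩
        rw [SetLike.mem_coe, Subgroup.mem_centralizer_iff]
        intro n hn
        have := hact t ⟨k, by rw [← hk, pow_orderOf_eq_one]⟩ n hn
        rw [mul_inv_eq_iff_eq_mul] at this
        exact this.symm
      have hNK : N ≤ pGen 2 G := by
        intro x hx
        obtain ⟨j, hj⟩ := hUp x (hNU hx)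
        have h1 : Nat.Coprime (p ^ j) (orderOf x) := by
          apply Nat.Coprime.pow_left
          have h2 := orderOf_dvd_of_pow_eq_one (hNr x hx)
          exact Nat.Coprime.coprime_dvd_right h2 ((Nat.coprime_primes hp.out hr).2 (Ne.symm hrp))
        obtain ⟨c, hc⟩ := exists_pow_eq_self_of_coprime h1
        rw [← hc]
        exact Subgroup.pow_mem _ hj c
      have hKH : pGen 2 G ≤ H := by
        rw [Subgroup.closure_le]
        rintro t ⟨k, hk⟩
        obtain ⟨h, hh, m, hm, htm⟩ := hdec t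
        have ht1 : t ^ 2 ^ k = 1 := by rw [← hk, pow_orderOf_eq_one]
        have htK : t ∈ pGen 2 G := Subgroup.subset_closure ⟨k, hk⟩
        have hcom : Commute t m := by
          have := (Subgroup.mem_centralizer_iff.1 (hKC htK)) m hm
          exact this.symm
        have hhm : Commute h m := by
          have h1 : h = t * m⁻¹ := by rw [htm]; group
          rw [h1]
          exact hcom.mul_left (Commute.inv_left_iff.2 (Commute.refl m))
        have h2 : h ^ 2 ^ k * m ^ 2 ^ k = 1 := by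
          rw [← hhm.mul_pow, ← htm, ht1]
        have h3 : m ^ 2 ^ k = 1 := by
          apply hmemb _ (N.pow_mem hm _)
          rw [mul_eq_one_iff_inv_eq] at h2
          rw [← h2]
          exact H.inv_mem (H.pow_mem hh _)
        have h4 : m = 1 := by
          have h5 : orderOf m ∣ 2 ^ k := orderOf_dvd_of_pow_eq_one h3
          have h6 : orderOf m ∣ r := orderOf_dvd_of_pow_eq_one (hNr m hm)
          have h7 : Nat.Coprime (2 ^ k) r := Nat.Coprime.pow_left k ((Nat.coprime_primes Nat.prime_two hr).2 (Ne.symm hr2))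
          exact orderOf_eq_one_iff.1 (Nat.eq_one_of_dvd_coprimes h7 h5 h6)
        rw [SetLike.mem_coe, htm, h4, mul_one]
        exact hh
      exact hx01 (hmemb x0 hx0 (hKH (hNK hx0)))
  obtain ⟨m, hm, hm1, hmr⟩ := hrealN
  obtain ⟨χ, hχr, hχN⟩ := exists_real_of_classes N (by
    intro x hx
    obtain ⟨h, hh, m', hm', rfl⟩ := hdec x
    have h1 : ((h * m' : G) : G ⧸ N) = (h : G ⧸ N) := by
      rw [QuotientGroup.mk_mul, (QuotientGroup.eq_one_iff m').2 hm', mul_one]
    refine ⟨h, h1.symm, ?_⟩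
    rw [h1] at hx
    obtain ⟨c', hc'⟩ := isConj_iff.1 hx
    obtain ⟨c, rfl⟩ := QuotientGroup.mk_surjective c'
    obtain ⟨d, hd, e, he, rfl⟩ := hdec c
    have h2 : ((d * e : G) : G ⧸ N) = (d : G ⧸ N) := by
      rw [QuotientGroup.mk_mul, (QuotientGroup.eq_one_iff e).2 he, mul_one]
    rw [h2] at hc'
    rw [isConj_iff]
    refine ⟨d, ?_⟩
    have h3 : d * h * d⁻¹ * h ∈ N := by
      rw [← QuotientGroup.eq_one_iff, QuotientGroup.mk_mul, QuotientGroup.mk_mul, QuotientGroup.mk_mul, QuotientGroup.mk_inv, hc',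
        inv_mul_cancel]
    have h4 := hmemb _ h3 (H.mul_mem (H.mul_mem (H.mul_mem hd hh) (H.inv_mem hd)) hh)
    exact eq_inv_of_mul_eq_one_left h4) hm hm1 hmr
  apply hχN
  have hχp : ¬ p ∣ H75.deg χ := by
    have := hreal χ hχr
    rwa [H75.charDegree_eq_deg] at this
  refine ker_of_not_dvd (P ⊔ N) N le_sup_right ?_ χ hχp
  intro ψ hψ n hn
  -- ψ is linear
  haveI : (N.subgroupOf (P ⊔ N)).Normal := inferInstance
  have hito := H75.ito ψ (N.subgroupOf (P ⊔ N)) (by
    intro a ha b hb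
    exact Subtype.ext (hab a ha b hb))
  have hidx : (N.subgroupOf (P ⊔ N)).index ∣ Nat.card P := by
    have h1 : (N.subgroupOf (P ⊔ N)).index = N.relIndex P := by
      rw [← Subgroup.relIndex, Subgroup.relIndex_sup_right]
    rw [h1]
    exact Subgroup.relIndex_dvd_card N P
  obtain ⟨c, hc⟩ := IsPGroup.iff_card.1 hPp
  rw [hc] at hidx
  obtain ⟨d, -, hd⟩ := (Nat.dvd_prime_pow hp.out).1 (hito.trans hidx)
  have hd0 : d = 0 := by
    by_contra h
    apply hψ
    rw [hd]
    exact dvd_pow_self p h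
  rw [hd0, pow_zero] at hd
  apply mem_ker_of_comm hd
  have h1 : (n : G) ∈ ⁅N, P⁆ := by rw [hcomm]; exact hn
  have h2 : ⁅N, P⁆ ≤ (commutator ↥(P ⊔ N)).map (P ⊔ N).subtype := by
    rw [commutator_def, Subgroup.map_commutator, ← MonoidHom.range_eq_map, Subgroup.range_subtype]
    exact Subgroup.commutator_mono le_sup_right le_sup_left
  obtain ⟨y, hy, hyn⟩ := h2 h1
  have : y = n := Subtype.ext hyn
  rwa [← this]

theorem sylow_normal_of {G : Type u} [Group G] [Finite G] {p : ℕ} [Fact p.Prime] (U R : Subgroup G) [R.Normal]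
    (hRp : IsPGroup p R) (hRU : R ≤ U) (hi : ¬ p ∣ R.relIndex U) (Q : Sylow p U) : (Q : Subgroup U).Normal := by
  have h1 : IsPGroup p (R.subgroupOf U) := hRp.comap_of_injective U.subtype U.subtype_injective
  have hn : (R.subgroupOf U).Normal := inferInstance
  have hi' : ¬ p ∣ (R.subgroupOf U).index := hi
  have hn' : ((h1.toSylow hi' : Sylow p U) : Subgroup U).Normal := hn
  have huniq := Sylow.unique_of_normal (h1.toSylow hi') hn'
  have h2 : Q = h1.toSylow hi' := Subsingleton.elim _ _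
  rw [h2]
  exact hn'

/-- real irreducible characters of `p'`-degree: normal subgroups inside `P'` and inside the subgroup generated
by `2`-elements are central in the latter -/
theorem centralizes_of_le_commutator {G : Type u} [Group G] [Finite G] (p : ℕ) [Fact p.Prime] (hp : p ≠ 2)
    (hreal : ∀ χ : IrrCharacter G, (∀ g : G, ((χ : G → ℂ) g).im = 0) → ¬ p ∣ charDegree (χ : G → ℂ))
    (P : Sylow p G) (M : Subgroup G) (hM : M.Normal) (hMP : M ≤ ⁅(P : Subgroup G), (P : Subgroup G)⁆) :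
    pGen 2 G ≤ Subgroup.centralizer (M : Set G) := by
  have hMP' : M ≤ (P : Subgroup G) := hMP.trans (Subgroup.commutator_le_self _)
  have hMp : IsPGroup p M := P.isPGroup'.to_le hMP'
  have hodd : Odd (Nat.card M) := by
    obtain ⟨c, hc⟩ := IsPGroup.iff_card.1 hMp
    rw [hc]
    exact ((Fact.out : p.Prime).odd_of_ne_two hp).pow
  by_contra hcon
  have hact : ∃ t : G, (∃ k, t ^ 2 ^ k = 1) ∧ ∃ n ∈ M, t * n * t⁻¹ ≠ n := by
    by_contra hno
    push Not at hno
    apply hcon
    rw [Subgroup.closure_le]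
    rintro t ⟨k, hk⟩
    rw [SetLike.mem_coe, Subgroup.mem_centralizer_iff]
    intro n hn
    have := hno t ⟨k, by rw [← hk, pow_orderOf_eq_one]⟩ n hn
    rw [mul_inv_eq_iff_eq_mul] at this
    exact this.symm
  obtain ⟨t, ⟨k, hk⟩, h⟩ := hact
  obtain ⟨m, hm, hm1, hmr⟩ := exists_inverted M k t hk h
  obtain ⟨χ, hχr, hχN⟩ := exists_real_of_classes M (lift_real M hodd) hm hm1 hmr
  apply hχN
  have hχp : ¬ p ∣ H75.deg χ := by
    have := hreal χ hχr
    rwa [H75.charDegree_eq_deg] at this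
  refine ker_of_not_dvd (P : Subgroup G) M hMP' ?_ χ hχp
  intro ψ hψ n hn
  obtain ⟨c, hc⟩ := IsPGroup.iff_card.1 P.isPGroup'
  have h1 : H75.deg ψ ∣ p ^ c := by
    rw [← hc]
    exact H75.deg_dvd ψ
  obtain ⟨d, -, hd⟩ := (Nat.dvd_prime_pow Fact.out).1 h1
  have hd0 : d = 0 := by
    by_contra h
    apply hψ
    rw [hd]
    exact dvd_pow_self p h
  rw [hd0, pow_zero] at hd
  apply mem_ker_of_comm hd
  have h1 : (n : G) ∈ ⁅(P : Subgroup G), (P : Subgroup G)⁆ := hMP hn
  rw [← Subgroup.map_subtype_commutator] at h1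
  obtain ⟨y, hy, hyn⟩ := h1
  have : y = n := Subtype.ext hyn
  rwa [← this]

end Cfsg.Agent.H34.RealP
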