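import Cfsg.Agent.H34.RealP2
import Cfsg.Agent.Char.RelGlaub3
import Cfsg.Agent.H81.RealInv

/-! The relative Glauberman correspondence on real characters (owner: helper34). -/

set_option autoImplicit false
set_option linter.style.haveILetI false

namespace Cfsg.Agent.H34.RealP

open Cfsg Cfsg.Agent Cfsg.Agent.CharBase Cfsg.Agent.Char
open scoped ComplexConjugate commutatorElement

universe u

section mult

variable {G : Type u} [Group G] [Fintype G] (N : Subgroup G) [N.Normal] [Fintype N]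

theorem mult_one_of_real (hodd : Odd N.index) (χ : IrrCharacter G) (hχ : ∀ g, ((χ : G → ℂ) g).im = 0)
    (θ : IrrCharacter N) (hθ : ∀ n, ((θ : N → ℂ) n).im = 0) (hne : classInner (fun n : N => (χ : G → ℂ) n) (θ : N → ℂ) ≠ 0) :
    classInner (fun n : N => (χ : G → ℂ) n) (θ : N → ℂ) = 1 := by
  classical
  have hFI : Fintype (IrrCharacter G) := Fintype.ofFinite _
  have h1 := H81.fsi_eq_sum_over N hodd θ
  obtain ⟨χ0, -, hu⟩ := H81.unique_real_over N hodd θ hθ
  have h2 : ∑ ψ : IrrCharacter G, H52.fsi (ψ : G → ℂ) * classInner (fun n : N => (ψ : G → ℂ) n) (θ : N → ℂ) =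
      H52.fsi (χ : G → ℂ) * classInner (fun n : N => (χ : G → ℂ) n) (θ : N → ℂ) := by
    refine Finset.sum_eq_single χ ?_ (fun h => absurd (Finset.mem_univ _) h)
    intro ψ _ hψ
    by_cases hr : ∀ g, ((ψ : G → ℂ) g).im = 0
    · by_cases h0 : classInner (fun n : N => (ψ : G → ℂ) n) (θ : N → ℂ) = 0
      · rw [h0, mul_zero]
      · exact absurd ((hu ψ ⟨hr, h0⟩).trans (hu χ ⟨hχ, hne⟩).symm) hψ
    · push Not at hr
      rw [(H52.fsi_eq_zero_iff ψ.2).2 hr, zero_mul]
  rw [h2] at h1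
  obtain ⟨m, hm⟩ := classInner_natCast (isCharacter_restrict (irr_isCharacter χ) N) (irr_isCharacter θ)
  rw [hm] at h1 hne ⊢
  have h3 : H52.fsi (θ : N → ℂ) ≠ 0 := by
    intro h0
    obtain ⟨s, hs⟩ := (H52.fsi_eq_zero_iff θ.2).1 h0
    exact hs (hθ s)
  have h4 : (H52.fsi (θ : N → ℂ)) ^ 2 = 1 := by
    rcases H52.fsi_cases θ.2 with h | h | h
    · exact absurd h h3
    · rw [h]; ring
    · rw [h]; ring
  have h5 : (H52.fsi (χ : G → ℂ)) ^ 2 = 1 := by
    rcases H52.fsi_cases χ.2 with h | h | h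
    · obtain ⟨s, hs⟩ := (H52.fsi_eq_zero_iff χ.2).1 h
      exact absurd (hχ s) hs
    · rw [h]; ring
    · rw [h]; ring
  have h6 : ((m : ℂ)) ^ 2 = 1 := by
    have h7 : (H52.fsi (θ : N → ℂ)) ^ 2 = (H52.fsi (χ : G → ℂ)) ^ 2 * (m : ℂ) ^ 2 := by rw [h1]; ring
    rw [h4, h5, one_mul] at h7
    exact h7.symm
  have h7 : m ^ 2 = 1 := by exact_mod_cast h6
  have h8 : m = 1 := by simpa using h7
  rw [h8]; simp

theorem deg_real_over (hodd : Odd N.index) (χ : IrrCharacter G) (hχ : ∀ g, ((χ : G → ℂ) g).im = 0)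
    (θ : IrrCharacter N) (hθ : ∀ n, ((θ : N → ℂ) n).im = 0) (hne : classInner (fun n : N => (χ : G → ℂ) n) (θ : N → ℂ) ≠ 0) :
    H75.deg χ = (inertia N (θ : N → ℂ)).index * H75.deg θ := by
  have h1 := clifford_degree N χ.2 θ.2 hne
  rw [mult_one_of_real N hodd χ hχ θ hθ hne, one_mul, H75.deg_spec, H75.deg_spec] at h1
  exact_mod_cast h1

end mult

section sylow

variable {G : Type u} [Group G] [Finite G] {p : ℕ} [Fact p.Prime]

/-- a subgroup of index prime to `p` contains a conjugate of a given `p`-subgroup -/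
theorem exists_conj_le (P : Subgroup G) (hP : IsPGroup p P) (I : Subgroup G) (hI : ¬ p ∣ I.index) :
    ∃ g : G, ∀ a ∈ P, g⁻¹ * a * g ∈ I := by
  have h1 : ¬ p ∣ Nat.card (G ⧸ I) := hI
  obtain ⟨x, hx⟩ := hP.nonempty_fixed_point_of_prime_not_dvd_card (G ⧸ I) h1
  obtain ⟨g, rfl⟩ := QuotientGroup.mk_surjective x
  refine ⟨g, fun a ha => ?_⟩
  have h2 := hx ⟨a, ha⟩
  have h3 : ((a * g : G) : G ⧸ I) = (g : G ⧸ I) := h2
  have h4 := QuotientGroup.eq.1 h3.symm
  rwa [← mul_assoc] at h4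

/-- two Sylow subgroups inside `I` are conjugate in `I` -/
theorem exists_mem_normalizer (P : Sylow p G) (I : Subgroup G) (hPI : (P : Subgroup G) ≤ I) (g : G)
    (hg : ∀ a ∈ (P : Subgroup G), g * a * g⁻¹ ∈ I) :
    ∃ t ∈ I, t * g ∈ Subgroup.normalizer ((P : Subgroup G) : Set G) := by
  have h1 : ((g • P : Sylow p G) : Subgroup G) ≤ I := by
    intro x hx
    rw [Sylow.coe_subgroup_smul, Subgroup.mem_smul_pointwise_iff_exists] at hx
    obtain ⟨a, ha, rfl⟩ := hx
    exact hg a ha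
  obtain ⟨t, ht⟩ := MulAction.exists_smul_eq I ((g • P).subtype h1) (P.subtype hPI)
  rw [Sylow.smul_subtype] at ht
  have h2 := Sylow.subtype_injective ht
  refine ⟨t, t.2, ?_⟩
  refine Sylow.smul_eq_iff_mem_normalizer.1 ?_
  rw [mul_smul]
  exact h2

/-- number of cosets mod `p` -/
theorem index_modEq (P : Sylow p G) (I : Subgroup G) (hPI : (P : Subgroup G) ≤ I) :
    I.index ≡ (I.subgroupOf (Subgroup.normalizer ((P : Subgroup G) : Set G))).index [MOD p] := by
  classical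
  set N := Subgroup.normalizer ((P : Subgroup G) : Set G) with hN
  have h1 := P.isPGroup'.card_modEq_card_fixedPoints (G ⧸ I)
  have h2 : Nat.card (MulAction.fixedPoints (P : Subgroup G) (G ⧸ I)) = Nat.card (N ⧸ I.subgroupOf N) := by
    symm
    let f : N ⧸ I.subgroupOf N → G ⧸ I := Quotient.lift (fun n : N => ((n : G) : G ⧸ I)) (by
      intro a b hab
      have h3 := QuotientGroup.leftRel_apply.1 hab
      exact QuotientGroup.eq.2 h3)
    have hf : ∀ n : N, f (QuotientGroup.mk n) = ((n : G) : G ⧸ I) := fun n => rfl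
    refine Nat.card_congr (Equiv.ofBijective (fun x => (⟨f x, ?_⟩ : MulAction.fixedPoints (P : Subgroup G) (G ⧸ I))) ⟨?_, ?_⟩)
    · obtain ⟨n, rfl⟩ := QuotientGroup.mk_surjective x
      rintro ⟨a, ha⟩
      rw [hf]
      show ((a * n : G) : G ⧸ I) = ((n : G) : G ⧸ I)
      symm
      rw [QuotientGroup.eq, ← mul_assoc]
      apply hPI
      have h3 := (Subgroup.mem_normalizer_iff''.1 n.2 a).1 ha
      exact h3
    · intro x y hxy
      obtain ⟨a, rfl⟩ := QuotientGroup.mk_surjective x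
      obtain ⟨b, rfl⟩ := QuotientGroup.mk_surjective y
      have h3 : ((a : G) : G ⧸ I) = ((b : G) : G ⧸ I) := congrArg Subtype.val hxy
      rw [QuotientGroup.eq] at h3 ⊢
      exact h3
    · rintro ⟨x, hx⟩
      obtain ⟨g, rfl⟩ := QuotientGroup.mk_surjective x
      have h3 : ∀ a ∈ (P : Subgroup G), g⁻¹ * a * g⁻¹⁻¹ ∈ I := by
        intro a ha
        have h2 := hx ⟨a, ha⟩
        have h3 : ((a * g : G) : G ⧸ I) = (g : G ⧸ I) := h2
        have h4 := QuotientGroup.eq.1 h3.symm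
        rwa [← mul_assoc, ← inv_inv g, inv_inv g⁻¹] at h4
      obtain ⟨t, ht, htg⟩ := exists_mem_normalizer P I hPI g⁻¹ h3
      refine ⟨QuotientGroup.mk ⟨(t * g⁻¹)⁻¹, N.inv_mem htg⟩, Subtype.ext ?_⟩
      show (((t * g⁻¹)⁻¹ : G) : G ⧸ I) = (g : G ⧸ I)
      rw [QuotientGroup.eq]
      have h5 : (t * g⁻¹)⁻¹⁻¹ * g = t := by group
      rw [h5]; exact ht
  rw [h2] at h1
  exact h1

end sylow

end Cfsg.Agent.H34.RealP
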