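import Cfsg.Agent.H34.RealP3

/-! The relative Glauberman correspondence for `K` normal in `G` and `N_K(P)` (owner: helper34). -/

set_option autoImplicit false
set_option linter.style.haveILetI false

namespace Cfsg.Agent.H34.RealP

open Cfsg Cfsg.Agent Cfsg.Agent.CharBase Cfsg.Agent.Char
open Cfsg.Agent.Glaub (Inv)
open scoped ComplexConjugate commutatorElement

universe u

section setup

variable {G : Type u} [Group G] {p : ℕ} (P : Sylow p G) (K : Subgroup G) [hK : K.Normal] (R : Subgroup G) [hR : R.Normal]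

/-- the normalizer of the Sylow subgroup -/
abbrev NN : Subgroup G := Subgroup.normalizer ((P : Subgroup G) : Set G)

/-- `N_K(P)` as a subgroup of `N_G(P)` -/
abbrev DD : Subgroup (NN P) := K.subgroupOf (NN P)

/-- the embedding `N_K(P) → K` -/
def iota : DD P K →* K where
  toFun d := ⟨((d : NN P) : G), d.2⟩
  map_one' := rfl
  map_mul' _ _ := rfl

@[simp] theorem iota_coe (d : DD P K) : ((iota P K d : K) : G) = ((d : NN P) : G) := rfl

theorem iota_injective : Function.Injective (iota P K) := by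
  intro a b h
  have h1 : ((a : NN P) : G) = ((b : NN P) : G) := congrArg (fun z : K => (z : G)) h
  exact Subtype.ext (Subtype.ext h1)

/-- `P` acting on `K` -/
noncomputable def actK : (P : Subgroup G) →* MulAut K := MulAut.conjNormal.comp (P : Subgroup G).subtype

/-- `P` acting on `N_K(P)` -/
noncomputable def actD : (P : Subgroup G) →* MulAut (DD P K) :=
  MulAut.conjNormal.comp (Subgroup.inclusion (Subgroup.le_normalizer : (P : Subgroup G) ≤ NN P))

theorem actK_coe (a : (P : Subgroup G)) (k : K) : ((actK P K a k : K) : G) = a * k * (a : G)⁻¹ := rfl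

theorem actD_coe (a : (P : Subgroup G)) (d : DD P K) : (((actD P K a d : DD P K) : NN P) : G) = a * ((d : NN P) : G) * (a : G)⁻¹ := rfl

theorem iota_actD (a : (P : Subgroup G)) (d : DD P K) : iota P K (actD P K a d) = actK P K a (iota P K d) := by
  apply Subtype.ext
  rw [iota_coe, actD_coe, actK_coe, iota_coe]

theorem actK_mem (a : (P : Subgroup G)) (q : K) (hq : q ∈ R.subgroupOf K) : actK P K a q ∈ R.subgroupOf K := by
  rw [Subgroup.mem_subgroupOf] at hq ⊢
  rw [actK_coe]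
  exact hR.conj_mem _ hq _

variable {P K R} [Fact p.Prime] [Finite G]

theorem R_le_P (hRp : IsPGroup p R) : R ≤ (P : Subgroup G) := by
  obtain ⟨Q, hQ⟩ := hRp.exists_le_sylow
  obtain ⟨g, hg⟩ := MulAction.exists_smul_eq G Q P
  intro x hx
  rw [← hg, Sylow.coe_subgroup_smul, Subgroup.mem_pointwise_smul_iff_inv_smul_mem]
  apply hQ
  rw [← map_inv, MulAut.smul_def, MulAut.conj_apply]
  exact hR.conj_mem _ hx _

theorem mem_R {x : G} (hxP : x ∈ (P : Subgroup G)) (hxK : x ∈ K) (hRi : ¬ p ∣ R.relIndex K) : x ∈ R := by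
  obtain ⟨j, hj⟩ := P.isPGroup' ⟨x, hxP⟩
  have h1 : x ^ p ^ j = 1 := congrArg Subtype.val hj
  have h2 : x ^ R.relIndex K ∈ R := Subgroup.pow_index_mem (R.subgroupOf K) ⟨x, hxK⟩
  have h3 : Nat.Coprime (p ^ j) (R.relIndex K) := Nat.Coprime.pow_left j ((Nat.Prime.coprime_iff_not_dvd Fact.out).2 hRi)
  have h4 : Nat.Coprime (R.relIndex K) (orderOf x) := Nat.Coprime.coprime_dvd_right (orderOf_dvd_of_pow_eq_one h1) h3.symm
  obtain ⟨c, hc⟩ := exists_pow_eq_self_of_coprime h4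
  rw [← hc]
  exact R.pow_mem h2 c

variable (P K R) in
theorem R_le_range (hRp : IsPGroup p R) : R.subgroupOf K ≤ (iota P K).range := by
  intro q hq
  have h1 : (q : G) ∈ (P : Subgroup G) := R_le_P hRp hq
  exact ⟨⟨⟨q, Subgroup.le_normalizer h1⟩, q.2⟩, rfl⟩

variable (P K R) in
theorem fix_iff (hRp : IsPGroup p R) (hRi : ¬ p ∣ R.relIndex K) (k : K) :
    (∀ a, actK P K a k * k⁻¹ ∈ R.subgroupOf K) ↔ k ∈ (iota P K).range := by
  have hRP : R ≤ (P : Subgroup G) := R_le_P hRp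
  constructor
  · intro h
    have h1 : (k : G) ∈ NN P := by
      refine Subgroup.mem_normalizer_fintype ?_
      intro a ha
      have h2 := h ⟨a, ha⟩⁻¹
      rw [Subgroup.mem_subgroupOf, Subgroup.coe_mul, actK_coe] at h2
      have h3 := hRP h2
      have h4 : (k : G) * a * (k : G)⁻¹ = (a : G) * ((a : G)⁻¹ * k * a * (k : G)⁻¹) := by group
      rw [h4]
      refine (P : Subgroup G).mul_mem ha ?_
      simpa using h3
    exact ⟨⟨⟨k, h1⟩, k.2⟩, rfl⟩
  · rintro ⟨d, rfl⟩ a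
    rw [Subgroup.mem_subgroupOf, Subgroup.coe_mul, actK_coe]
    refine mem_R (P := P) (K := K) ?_ ?_ hRi
    · rw [mul_assoc, mul_assoc, ← mul_assoc ((iota P K d : K) : G)]
      refine (P : Subgroup G).mul_mem a.2 ?_
      exact (Subgroup.mem_normalizer_iff.1 (d : NN P).2 _).1 ((P : Subgroup G).inv_mem a.2)
    · exact K.mul_mem (hK.conj_mem _ (iota P K d).2 _) (iota P K d)⁻¹.2

end setup

section rel

variable {G : Type u} [Group G] [Fintype G] {p : ℕ} [hp : Fact p.Prime] (P : Sylow p G) (K : Subgroup G) [hK : K.Normal]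
  [Fintype K] [Fintype (DD P K)]

/-- related characters -/
def Rel (θ : K → ℂ) (η : DD P K → ℂ) : Prop :=
  IsIrrCharacter K θ ∧ IsIrrCharacter (DD P K) η ∧ Inv (actK P K) θ ∧ Inv (actD P K) η ∧
    ∃ m : ℕ, classInner (fun d => θ (iota P K d)) η = m ∧ ¬ p ∣ m

variable {P K} (R : Subgroup G) [hR : R.Normal] (hRp : IsPGroup p R) (hRi : ¬ p ∣ R.relIndex K)

theorem card_Q (K : Subgroup G) (hRp : IsPGroup p R) : ∃ a, Nat.card (R.subgroupOf K) = p ^ a := by
  have h1 : IsPGroup p (R.subgroupOf K) := hRp.comap_of_injective K.subtype K.subtype_injective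
  exact IsPGroup.iff_card.1 h1

include hRp hRi

theorem rel_exists {θ : K → ℂ} (hθ : IsIrrCharacter K θ) (hinv : Inv (actK P K) θ) : ∃ η, Rel P K θ η := by
  obtain ⟨ξ, h1, h2, m, h3, h4, -⟩ := RG.main_below (actK P K) (actD P K) (R.subgroupOf K) (fun a q hq => actK_mem P K R a q hq)
    (iota P K) (iota_injective P K) (R_le_range P K R hRp) (fix_iff P K R hRp hRi) (iota_actD P K) hp.out P.isPGroup'
    (card_Q R K hRp) hRi hθ hinv
  exact ⟨ξ, hθ, h1, hinv, h2, m, h3, h4⟩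

theorem rel_exists' {η : DD P K → ℂ} (hη : IsIrrCharacter (DD P K) η) (hinv : Inv (actD P K) η) : ∃ θ, Rel P K θ η := by
  obtain ⟨θ, h1, h2, m, h3, h4⟩ := RG.main_above (actK P K) (actD P K) (R.subgroupOf K) (fun a q hq => actK_mem P K R a q hq)
    (iota P K) (iota_injective P K) (R_le_range P K R hRp) (fix_iff P K R hRp hRi) (iota_actD P K) hp.out P.isPGroup'
    (card_Q R K hRp) hRi hη hinv
  exact ⟨θ, h1, hη, h2, hinv, m, h3, h4⟩

theorem rel_left {θ θ' : K → ℂ} {η : DD P K → ℂ} (h : Rel P K θ η) (h' : Rel P K θ' η) : θ = θ' := by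
  obtain ⟨h1, h2, h3, h4, m, h5, h6⟩ := h
  obtain ⟨h1', h2', h3', h4', m', h5', h6'⟩ := h'
  exact RG.main_unique (actK P K) (actD P K) (R.subgroupOf K) (fun a q hq => actK_mem P K R a q hq)
    (iota P K) (iota_injective P K) (R_le_range P K R hRp) (fix_iff P K R hRp hRi) (iota_actD P K) hp.out P.isPGroup'
    (card_Q R K hRp) hRi h1 h3 h1' h3' h2 h4 h5 h6 h5' h6'

theorem rel_right {θ : K → ℂ} {η η' : DD P K → ℂ} (h : Rel P K θ η) (h' : Rel P K θ η') : η = η' := by
  obtain ⟨h1, h2, h3, h4, m, h5, h6⟩ := h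
  obtain ⟨h1', h2', h3', h4', m', h5', h6'⟩ := h'
  obtain ⟨ξ, g1, g2, m0, g3, g4, g5, g6⟩ := RG.main_below (actK P K) (actD P K) (R.subgroupOf K) (fun a q hq => actK_mem P K R a q hq)
    (iota P K) (iota_injective P K) (R_le_range P K R hRp) (fix_iff P K R hRp hRi) (iota_actD P K) hp.out P.isPGroup'
    (card_Q R K hRp) hRi h1 h3
  have e1 : η = ξ := by
    by_contra hne
    exact h6 (g6 η h2 h4 hne m h5)
  have e2 : η' = ξ := by
    by_contra hne
    exact h6' (g6 η' h2' h4' hne m' h5')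
  rw [e1, e2]

theorem rel_deg {θ : K → ℂ} {η : DD P K → ℂ} (h : Rel P K θ η) {a b : ℕ} (ha : θ 1 = a) (hb : η 1 = b) :
    ((b : ZMod p) = (a : ZMod p)) ∨ ((b : ZMod p) = - (a : ZMod p)) := by
  obtain ⟨h1, h2, h3, h4, m, h5, h6⟩ := h
  obtain ⟨ξ, g1, g2, m0, g3, g4, g5, g6⟩ := RG.main_below (actK P K) (actD P K) (R.subgroupOf K) (fun a q hq => actK_mem P K R a q hq)
    (iota P K) (iota_injective P K) (R_le_range P K R hRp) (fix_iff P K R hRp hRi) (iota_actD P K) hp.out P.isPGroup'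
    (card_Q R K hRp) hRi h1 h3
  have e1 : η = ξ := by
    by_contra hne
    exact h6 (g6 η h2 h4 hne m h5)
  subst e1
  have hc : IsCharacter (DD P K) (fun d => θ (iota P K d)) := isCharacter_comp (isCharacter_of_isIrr h1) (iota P K)
  have hci : Inv (actD P K) (fun d => θ (iota P K d)) := by
    intro a d
    show θ (iota P K (actD P K a d)) = θ (iota P K d)
    rw [iota_actD, h3]
  have h7 := RG.degree_congr (actD P K) hp.out P.isPGroup' hc hci h2 h4 g3 g6 (N := a) (d := b) (by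
    show θ (iota P K 1) = a
    rw [map_one, ha]) hb
  have h8 : ((a : ZMod p)) = (m0 : ZMod p) * (b : ZMod p) := by
    have := (ZMod.intCast_zmod_eq_zero_iff_dvd _ p).2 h7
    push_cast at this
    exact sub_eq_zero.1 this
  have h9 : (m0 : ZMod p) ^ 2 = 1 := by
    have := (ZMod.intCast_zmod_eq_zero_iff_dvd _ p).2 g5
    push_cast at this
    exact sub_eq_zero.1 this
  rcases sq_eq_one_iff_of_ne_zero' h9 with h | h
  · left; rw [h8, h, one_mul]
  · right; rw [h8, h, neg_one_mul, neg_neg]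
where
  sq_eq_one_iff_of_ne_zero' {x : ZMod p} (h : x ^ 2 = 1) : x = 1 ∨ x = -1 := sq_eq_one_iff_of_ne_zero'' h
  sq_eq_one_iff_of_ne_zero'' {x : ZMod p} (h : x ^ 2 = 1) : x = 1 ∨ x = -1 := by
    have h1 : (x - 1) * (x + 1) = 0 := by
      have : (x - 1) * (x + 1) = x ^ 2 - 1 := by ring
      rw [this, h, sub_self]
    rcases mul_eq_zero.1 h1 with h | h
    · left; exact sub_eq_zero.1 h
    · right; exact eq_neg_of_add_eq_zero_left h

omit hRp hRi hR

theorem inv_cj {θ : K → ℂ} (n : NN P) (h : Inv (actK P K) θ) : Inv (actK P K) (cj K (n : G) θ) := by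
  intro a k
  have h1 : (n : G) * a * (n : G)⁻¹ ∈ (P : Subgroup G) := (Subgroup.mem_normalizer_iff.1 n.2 a).1 a.2
  have h2 := h ⟨_, h1⟩ ⟨(n : G) * k * (n : G)⁻¹, hK.conj_mem _ k.2 _⟩
  rw [cj_apply, cj_apply, ← h2]
  congr 1
  apply Subtype.ext
  show (n : G) * ((a : G) * k * (a : G)⁻¹) * (n : G)⁻¹ = ((n : G) * a * (n : G)⁻¹) * ((n : G) * k * (n : G)⁻¹) * ((n : G) * a * (n : G)⁻¹)⁻¹
  group

theorem invD_cj {η : DD P K → ℂ} (n : NN P) (h : Inv (actD P K) η) : Inv (actD P K) (cj (DD P K) n η) := by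
  intro a k
  have h1 : (n : G) * a * (n : G)⁻¹ ∈ (P : Subgroup G) := (Subgroup.mem_normalizer_iff.1 n.2 a).1 a.2
  have h2 := h ⟨_, h1⟩ ⟨n * k * n⁻¹, Subgroup.Normal.conj_mem inferInstance _ k.2 _⟩
  rw [cj_apply, cj_apply, ← h2]
  congr 1
  apply Subtype.ext
  apply Subtype.ext
  rw [actD_coe]
  show (n : G) * (((actD P K a k : DD P K) : NN P) : G) * (n : G)⁻¹ = _
  rw [actD_coe]
  show _ = _ * ((n : G) * ((k : NN P) : G) * (n : G)⁻¹) * _
  group

theorem rel_cj {θ : K → ℂ} {η : DD P K → ℂ} (h : Rel P K θ η) (n : NN P) : Rel P K (cj K (n : G) θ) (cj (DD P K) n η) := by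
  obtain ⟨h1, h2, h3, h4, m, h5, h6⟩ := h
  refine ⟨isIrrCharacter_cj K _ h1, isIrrCharacter_cj _ _ h2, inv_cj n h3, invD_cj n h4, m, ?_, h6⟩
  have e1 : (fun d => cj K (n : G) θ (iota P K d)) = cj (DD P K) n (fun d => θ (iota P K d)) := by
    funext d
    rw [cj_apply, cj_apply]
    rfl
  rw [e1, classInner_cj, h5]

theorem rel_conj {θ : K → ℂ} {η : DD P K → ℂ} (h : Rel P K θ η) : Rel P K (fun k => conj (θ k)) (fun d => conj (η d)) := by
  obtain ⟨h1, h2, h3, h4, m, h5, h6⟩ := h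
  refine ⟨isIrrCharacter_conj h1, isIrrCharacter_conj h2, fun a k => congrArg conj (h3 a k), fun a k => congrArg conj (h4 a k), m, ?_, h6⟩
  exact H81.classInner_conj_conj _ _ h5

end rel

end Cfsg.Agent.H34.RealP
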