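import Cfsg.Agent.H34.RealP4

/-! The bijection of real characters with those of the Sylow normalizer (owner: helper34). -/

set_option autoImplicit false
set_option linter.style.haveILetI false

namespace Cfsg.Agent.H34.RealP

open Cfsg Cfsg.Agent Cfsg.Agent.CharBase Cfsg.Agent.Char
open Cfsg.Agent.Glaub (Inv)
open scoped ComplexConjugate commutatorElement

universe u

variable {G : Type u} [Group G] [Fintype G] {p : ℕ} [hp : Fact p.Prime] (P : Sylow p G) (K : Subgroup G) [hK : K.Normal]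
  [Fintype K] [Fintype (NN P)] [Fintype (DD P K)]

/-- corresponding characters -/
def Corr (χ : IrrCharacter G) (ξ : IrrCharacter (NN P)) : Prop :=
  ∃ (θ : K → ℂ) (η : DD P K → ℂ), Rel P K θ η ∧ classInner (fun n : K => (χ : G → ℂ) n) θ ≠ 0 ∧
    classInner (fun n : DD P K => (ξ : NN P → ℂ) n) η ≠ 0

variable {P K} (R : Subgroup G) [hR : R.Normal] (hRp : IsPGroup p R) (hRi : ¬ p ∣ R.relIndex K) (hodd : Odd K.index)

omit [Fintype G] hp [Fintype K] [Fintype (NN P)] [Fintype (DD P K)] in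
theorem odd_DD (hodd : Odd K.index) : Odd (DD P K).index := by
  have h1 : (DD P K).index ∣ K.index := Subgroup.relIndex_dvd_index_of_normal K (NN P)
  exact Odd.of_dvd_nat hodd h1

omit [Fintype K] hp [Fintype (NN P)] [Fintype (DD P K)] in
theorem inertia_of_inv {θ : K → ℂ} (h : Inv (actK P K) θ) : (P : Subgroup G) ≤ inertia K θ := by
  intro a ha
  rw [mem_inertia]
  funext n
  exact h ⟨a, ha⟩ n

omit [Fintype K] hp [Fintype (NN P)] [Fintype (DD P K)] in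
theorem inv_of_inertia {θ : K → ℂ} (h : (P : Subgroup G) ≤ inertia K θ) : Inv (actK P K) θ := by
  intro a n
  exact congrFun ((mem_inertia K).1 (h a.2)) n

/-- invariant constituents are conjugate under the normalizer -/
theorem conj_of_constituents {χ : IrrCharacter G} {θ θ' : K → ℂ} (hθ : IsIrrCharacter K θ) (hθ' : IsIrrCharacter K θ')
    (h : Inv (actK P K) θ) (h' : Inv (actK P K) θ') (hc : classInner (fun n : K => (χ : G → ℂ) n) θ ≠ 0)
    (hc' : classInner (fun n : K => (χ : G → ℂ) n) θ' ≠ 0) : ∃ n : NN P, cj K (n : G) θ = θ' := by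
  obtain ⟨g, hg⟩ := exists_conj_of_constituents K χ.2 hθ hθ' hc hc'
  have h1 := inertia_of_inv h
  have h2 := inertia_of_inv h'
  obtain ⟨t, ht, htg⟩ := exists_mem_normalizer P (inertia K θ) h1 g (by
    intro a ha
    have h3 := (mem_inertia K).1 (h2 ha)
    rw [← hg, ← cj_mul, cj_eq_cj_iff] at h3
    exact h3)
  refine ⟨⟨t * g, htg⟩, ?_⟩
  show cj K (t * g) θ = θ'
  rw [cj_mul, (mem_inertia K).1 ht, hg]

include hRp hRi hodd

theorem corr_right {χ : IrrCharacter G} {ξ ξ' : IrrCharacter (NN P)} (hξ : ∀ g, ((ξ : NN P → ℂ) g).im = 0)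
    (hξ' : ∀ g, ((ξ' : NN P → ℂ) g).im = 0) (h : Corr P K χ ξ) (h' : Corr P K χ ξ') : ξ = ξ' := by
  obtain ⟨θ, η, hrel, h1, h2⟩ := h
  obtain ⟨θ', η', hrel', h1', h2'⟩ := h'
  obtain ⟨n, hn⟩ := conj_of_constituents hrel.1 hrel'.1 hrel.2.2.1 hrel'.2.2.1 h1 h1'
  have hrel2 := rel_cj hrel n
  rw [hn] at hrel2
  have he := rel_right R hRp hRi hrel2 hrel'
  have hreal : ∀ d, (η' d).im = 0 := H81.real_of_constituent (DD P K) (odd_DD hodd) ξ'.2 hξ' hrel'.2.1 h2'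
  have h3 : classInner (fun n : DD P K => (ξ : NN P → ℂ) n) η' ≠ 0 := by
    rw [← he, classInner_restrict_cj (DD P K) (isClassFunction_of_isCharacter (irr_isCharacter ξ))]
    exact h2
  obtain ⟨ψ, -, hu⟩ := H81.unique_real_over (DD P K) (odd_DD hodd) ⟨η', hrel'.2.1⟩ hreal
  rw [hu ξ ⟨hξ, h3⟩, hu ξ' ⟨hξ', h2'⟩]

theorem corr_left {χ χ' : IrrCharacter G} {ξ : IrrCharacter (NN P)} (hχ : ∀ g, ((χ : G → ℂ) g).im = 0)
    (hχ' : ∀ g, ((χ' : G → ℂ) g).im = 0) (h : Corr P K χ ξ) (h' : Corr P K χ' ξ) : χ = χ' := by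
  obtain ⟨θ, η, hrel, h1, h2⟩ := h
  obtain ⟨θ', η', hrel', h1', h2'⟩ := h'
  obtain ⟨n, hn⟩ := exists_conj_of_constituents (DD P K) ξ.2 hrel.2.1 hrel'.2.1 h2 h2'
  have hrel2 := rel_cj hrel n
  rw [hn] at hrel2
  have he := rel_left R hRp hRi hrel2 hrel'
  have hreal : ∀ d, (θ' d).im = 0 := H81.real_of_constituent K hodd χ'.2 hχ' hrel'.1 h1'
  have h3 : classInner (fun n : K => (χ : G → ℂ) n) θ' ≠ 0 := by
    rw [← he, classInner_restrict_cj K (isClassFunction_of_isCharacter (irr_isCharacter χ))]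
    exact h1
  obtain ⟨ψ, -, hu⟩ := H81.unique_real_over K hodd ⟨θ', hrel'.1⟩ hreal
  rw [hu χ ⟨hχ, h3⟩, hu χ' ⟨hχ', h1'⟩]

omit hodd in
theorem real_iff_right {θ : K → ℂ} {η : DD P K → ℂ} (h : Rel P K θ η) (hθ : ∀ k, (θ k).im = 0) (d : DD P K) : (η d).im = 0 := by
  have h1 := rel_conj h
  have e1 : (fun k => conj (θ k)) = θ := by
    funext k
    exact Complex.conj_eq_iff_im.2 (hθ k)
  rw [e1] at h1
  have h2 := rel_right R hRp hRi h1 h
  exact Complex.conj_eq_iff_im.1 (congrFun h2 d)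

omit hodd in
theorem real_iff_left {θ : K → ℂ} {η : DD P K → ℂ} (h : Rel P K θ η) (hη : ∀ k, (η k).im = 0) (d : K) : (θ d).im = 0 := by
  have h1 := rel_conj h
  have e1 : (fun k => conj (η k)) = η := by
    funext k
    exact Complex.conj_eq_iff_im.2 (hη k)
  rw [e1] at h1
  have h2 := rel_left R hRp hRi h1 h
  exact Complex.conj_eq_iff_im.1 (congrFun h2 d)

/-- degrees of corresponding real characters -/
theorem corr_deg {χ : IrrCharacter G} {ξ : IrrCharacter (NN P)} (hχ : ∀ g, ((χ : G → ℂ) g).im = 0)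
    (hξ : ∀ g, ((ξ : NN P → ℂ) g).im = 0) (h : Corr P K χ ξ) :
    ((H75.deg ξ : ZMod p) = (H75.deg χ : ZMod p)) ∨ ((H75.deg ξ : ZMod p) = - (H75.deg χ : ZMod p)) := by
  obtain ⟨θ, η, hrel, h1, h2⟩ := h
  have hθr : ∀ d, (θ d).im = 0 := H81.real_of_constituent K hodd χ.2 hχ hrel.1 h1
  have hηr : ∀ d, (η d).im = 0 := H81.real_of_constituent (DD P K) (odd_DD hodd) ξ.2 hξ hrel.2.1 h2
  have d1 := deg_real_over K hodd χ hχ ⟨θ, hrel.1⟩ hθr h1
  have d2 := deg_real_over (DD P K) (odd_DD hodd) ξ hξ ⟨η, hrel.2.1⟩ hηr h2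
  have d3 := rel_deg R hRp hRi hrel (a := H75.deg (⟨θ, hrel.1⟩ : IrrCharacter K)) (b := H75.deg (⟨η, hrel.2.1⟩ : IrrCharacter (DD P K)))
    (H75.deg_spec ⟨θ, hrel.1⟩) (H75.deg_spec ⟨η, hrel.2.1⟩)
  have hI : inertia (DD P K) η = (inertia K θ).subgroupOf (NN P) := by
    ext n
    rw [mem_inertia, Subgroup.mem_subgroupOf, mem_inertia]
    constructor
    · intro hn
      have h3 := rel_cj hrel n
      rw [hn] at h3
      exact rel_left R hRp hRi h3 hrel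
    · intro hn
      have h3 := rel_cj hrel n
      rw [hn] at h3
      exact rel_right R hRp hRi h3 hrel
  have d4 := index_modEq P (inertia K θ) (inertia_of_inv hrel.2.2.1)
  rw [← hI] at d4
  have d5 : (((inertia (DD P K) η).index : ℕ) : ZMod p) = (((inertia K θ).index : ℕ) : ZMod p) :=
    ((ZMod.natCast_eq_natCast_iff _ _ p).2 d4).symm
  rw [d1, d2]
  push_cast
  have d6 : (((inertia (DD P K) ((⟨η, hrel.2.1⟩ : IrrCharacter (DD P K)) : DD P K → ℂ)).index : ℕ) : ZMod p) =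
    (((inertia K ((⟨θ, hrel.1⟩ : IrrCharacter K) : K → ℂ)).index : ℕ) : ZMod p) := d5
  rw [d6]
  rcases d3 with d3 | d3
  · left; rw [d3]
  · right; rw [d3, mul_neg]

theorem exists_right {χ : IrrCharacter G} (hχ : ∀ g, ((χ : G → ℂ) g).im = 0) (hχp : ¬ p ∣ H75.deg χ) :
    ∃ ξ : IrrCharacter (NN P), (∀ g, ((ξ : NN P → ℂ) g).im = 0) ∧ Corr P K χ ξ := by
  obtain ⟨θ0, hθ0, hc0⟩ := exists_constituent_restrict K (irr_isCharacter χ) (irr_one_ne_zero χ.2)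
  have hθ0r : ∀ d, (θ0 d).im = 0 := H81.real_of_constituent K hodd χ.2 hχ hθ0 hc0
  have d1 := deg_real_over K hodd χ hχ ⟨θ0, hθ0⟩ hθ0r hc0
  have hI : ¬ p ∣ (inertia K θ0).index := fun h => hχp (by rw [d1]; exact h.mul_right _)
  obtain ⟨g, hg⟩ := exists_conj_le (P : Subgroup G) P.isPGroup' _ hI
  have hinv : Inv (actK P K) (cj K g⁻¹ θ0) := by
    apply inv_of_inertia
    intro a ha
    rw [mem_inertia, ← cj_mul, cj_eq_cj_iff, inv_inv]
    exact hg a ha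
  obtain ⟨η, hrel⟩ := rel_exists R hRp hRi (isIrrCharacter_cj K g⁻¹ hθ0) hinv
  have hc : classInner (fun n : K => (χ : G → ℂ) n) (cj K g⁻¹ θ0) ≠ 0 := by
    rw [classInner_restrict_cj K (isClassFunction_of_isCharacter (irr_isCharacter χ))]
    exact hc0
  have hθr : ∀ d, (cj K g⁻¹ θ0 d).im = 0 := H81.real_of_constituent K hodd χ.2 hχ hrel.1 hc
  have hηr := real_iff_right R hRp hRi hrel hθr
  obtain ⟨ξ, ⟨h1, h2⟩, -⟩ := H81.unique_real_over (DD P K) (odd_DD hodd) ⟨η, hrel.2.1⟩ hηr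
  exact ⟨ξ, h1, _, η, hrel, hc, h2⟩

theorem exists_left {ξ : IrrCharacter (NN P)} (hξ : ∀ g, ((ξ : NN P → ℂ) g).im = 0) (hξp : ¬ p ∣ H75.deg ξ) :
    ∃ χ : IrrCharacter G, (∀ g, ((χ : G → ℂ) g).im = 0) ∧ Corr P K χ ξ := by
  obtain ⟨η, hη, hc⟩ := exists_constituent_restrict (DD P K) (irr_isCharacter ξ) (irr_one_ne_zero ξ.2)
  have hηr : ∀ d, (η d).im = 0 := H81.real_of_constituent (DD P K) (odd_DD hodd) ξ.2 hξ hη hc
  have d1 := deg_real_over (DD P K) (odd_DD hodd) ξ hξ ⟨η, hη⟩ hηr hc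
  have hI : ¬ p ∣ (inertia (DD P K) η).index := fun h => hξp (by rw [d1]; exact h.mul_right _)
  have hPN : (P : Subgroup G) ≤ NN P := Subgroup.le_normalizer
  have hPp : IsPGroup p ((P : Subgroup G).subgroupOf (NN P)) := P.isPGroup'.comap_of_injective (NN P).subtype (NN P).subtype_injective
  obtain ⟨g, hg⟩ := exists_conj_le ((P : Subgroup G).subgroupOf (NN P)) hPp _ hI
  have hinv : Inv (actD P K) η := by
    intro a d
    have h1 : (g : G) * a * (g : G)⁻¹ ∈ (P : Subgroup G) := (Subgroup.mem_normalizer_iff.1 g.2 a).1 a.2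
    have h2 := hg ⟨_, hPN h1⟩ h1
    have h3 : g⁻¹ * (⟨(g : G) * a * (g : G)⁻¹, hPN h1⟩ : NN P) * g = ⟨a, hPN a.2⟩ := by
      apply Subtype.ext
      show (g : G)⁻¹ * ((g : G) * a * (g : G)⁻¹) * (g : G) = a
      group
    rw [h3, mem_inertia] at h2
    exact congrFun h2 d
  obtain ⟨θ, hrel⟩ := rel_exists' R hRp hRi hη hinv
  have hθr := real_iff_left R hRp hRi hrel hηr
  obtain ⟨χ, ⟨h1, h2⟩, -⟩ := H81.unique_real_over K hodd ⟨θ, hrel.1⟩ hθr
  exact ⟨χ, h1, θ, η, hrel, h2, hc⟩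

/-- the bijection -/
theorem exists_bijection (hreal : ∀ χ : IrrCharacter G, (∀ g : G, ((χ : G → ℂ) g).im = 0) → ¬ p ∣ H75.deg χ) :
    ∃ f : {χ : IrrCharacter G // ∀ g : G, ((χ : G → ℂ) g).im = 0} →
      {ξ : IrrCharacter (NN P) // (∀ n, ((ξ : NN P → ℂ) n).im = 0) ∧ ¬ p ∣ H75.deg ξ}, Function.Bijective f ∧
      ∀ χ, ((H75.deg (f χ).1 : ZMod p) = (H75.deg χ.1 : ZMod p)) ∨ ((H75.deg (f χ).1 : ZMod p) = - (H75.deg χ.1 : ZMod p)) := by
  have hex : ∀ χ : {χ : IrrCharacter G // ∀ g : G, ((χ : G → ℂ) g).im = 0},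
      ∃ ξ : {ξ : IrrCharacter (NN P) // (∀ n, ((ξ : NN P → ℂ) n).im = 0) ∧ ¬ p ∣ H75.deg ξ}, Corr P K χ.1 ξ.1 := by
    rintro ⟨χ, hχ⟩
    obtain ⟨ξ, h1, h2⟩ := exists_right (P := P) (K := K) R hRp hRi hodd hχ (hreal χ hχ)
    refine ⟨⟨ξ, h1, ?_⟩, h2⟩
    intro hd
    have h3 := corr_deg R hRp hRi hodd hχ h1 h2
    have h4 : (H75.deg ξ : ZMod p) = 0 := (ZMod.natCast_eq_zero_iff _ _).2 hd
    have h5 : (H75.deg χ : ZMod p) = 0 := by
      rcases h3 with h3 | h3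
      · rw [← h3, h4]
      · rw [h4] at h3
        exact neg_eq_zero.1 h3.symm
    exact hreal χ hχ ((ZMod.natCast_eq_zero_iff _ _).1 h5)
  choose f hf using hex
  refine ⟨f, ⟨?_, ?_⟩, ?_⟩
  · intro χ χ' he
    have h1 := hf χ
    have h2 := hf χ'
    rw [← he] at h2
    exact Subtype.ext (corr_left R hRp hRi hodd χ.2 χ'.2 h1 h2)
  · intro ξ
    obtain ⟨χ, h1, h2⟩ := exists_left R hRp hRi hodd ξ.2.1 ξ.2.2
    refine ⟨⟨χ, h1⟩, Subtype.ext ?_⟩
    exact corr_right R hRp hRi hodd (f ⟨χ, h1⟩).2.1 ξ.2.1 (hf ⟨χ, h1⟩) h2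
  · intro χ
    exact corr_deg R hRp hRi hodd χ.2 (f χ).2.1 (hf χ)

end Cfsg.Agent.H34.RealP
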