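import Cfsg.Agent.H34.RealP5

/-! Real classes meet the Sylow normalizer (owner: helper34). -/

set_option autoImplicit false
set_option linter.style.haveILetI false

namespace Cfsg.Agent.H34.RealP

open Cfsg Cfsg.Agent Cfsg.Agent.CharBase Cfsg.Agent.Char
open Cfsg.Agent.Glaub (Inv)
open scoped ComplexConjugate commutatorElement

universe u

theorem odd_index_pGen (G : Type u) [Group G] [Finite G] : Odd (pGen 2 G).index := by
  haveI : Fact (Nat.Prime 2) := ⟨Nat.prime_two⟩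
  haveI := pGen_normal 2 G
  rw [← Nat.not_even_iff_odd, even_iff_two_dvd]
  intro hd
  obtain ⟨x, hx⟩ := exists_prime_orderOf_dvd_card' (G := G ⧸ pGen 2 G) 2 hd
  have h1 : x ∈ pGen 2 (G ⧸ pGen 2 G) := mem_pGen (k := 1) (by
    rw [pow_one]; exact (orderOf_dvd_iff_pow_eq_one.1 (dvd_of_eq hx)))
  obtain ⟨y, hy, rfl⟩ := pGen_le_map 2 (QuotientGroup.mk' (pGen 2 G)) (QuotientGroup.mk'_surjective _) h1
  have h2 : QuotientGroup.mk' (pGen 2 G) y = 1 := (QuotientGroup.eq_one_iff y).2 hy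
  rw [h2, orderOf_one] at hx
  exact absurd hx (by norm_num)

theorem isConj_inv_of {G : Type u} [Group G] {x y : G} (h : IsConj x y) (hx : IsConj x⁻¹ x) : IsConj y⁻¹ y := by
  obtain ⟨c, hc⟩ := isConj_iff.1 h
  have h5 : IsConj x⁻¹ y⁻¹ := isConj_iff.2 ⟨c, by rw [← hc]; group⟩
  exact (h5.symm.trans hx).trans h

/-- the case where `K` is a `p'`-group -/
theorem meets_of_coprime {G : Type u} [Group G] [Finite G] {p : ℕ} [hp : Fact p.Prime] (P : Sylow p G) (K : Subgroup G)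
    [hK : K.Normal] (hodd : Odd K.index) (hpK : ¬ p ∣ Nat.card K)
    (hreal : ∀ χ : IrrCharacter G, (∀ g : G, ((χ : G → ℂ) g).im = 0) → ¬ p ∣ H75.deg χ) (x : G) (hx : IsConj x x⁻¹) :
    ∃ y ∈ NN P, IsConj x y := by
  classical
  have := Fintype.ofFinite G
  have := Fintype.ofFinite K
  have := Fintype.ofFinite (NN P)
  have := Fintype.ofFinite (DD P K)
  obtain ⟨f, hf, -⟩ := exists_bijection (P := P) (K := K) ⊥ IsPGroup.of_bot (by rwa [Subgroup.relIndex_bot_left]) hodd hreal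
  have h1 : Nat.card (H81.RealIrr G) ≤ Nat.card (H81.RealIrr (NN P)) := by
    refine Nat.card_le_card_of_injective (fun χ : H81.RealIrr G => (⟨(f χ).1, (f χ).2.1⟩ : H81.RealIrr (NN P))) ?_
    intro a b hab
    apply hf.1
    apply Subtype.ext
    have h2 : (f a).1 = (f b).1 := congrArg (fun z : H81.RealIrr (NN P) => z.1) hab
    exact h2
  rw [H81.card_real_irr, H81.card_real_irr] at h1
  let F : {C : ConjClasses (NN P) // ∀ g, ConjClasses.mk g = C → IsConj g⁻¹ g} →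
      {C : ConjClasses G // ∀ g, ConjClasses.mk g = C → IsConj g⁻¹ g} := fun C =>
    ⟨ConjClasses.map (NN P).subtype C.1, by
      obtain ⟨C, hC⟩ := C
      obtain ⟨n, rfl⟩ := ConjClasses.exists_rep C
      intro g hg
      have h2 : IsConj ((NN P).subtype n) g := (ConjClasses.mk_eq_mk_iff_isConj.1 hg).symm
      have h3 := MonoidHom.map_isConj (NN P).subtype (hC n rfl)
      rw [map_inv] at h3
      exact isConj_inv_of h2 h3⟩
  have hinj : Function.Injective F := by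
    rintro ⟨C, hC⟩ ⟨C', hC'⟩ he
    obtain ⟨c, rfl⟩ := ConjClasses.exists_rep C
    obtain ⟨c', rfl⟩ := ConjClasses.exists_rep C'
    have h2 : ConjClasses.mk (c : G) = ConjClasses.mk (c' : G) := congrArg Subtype.val he
    obtain ⟨g, hg⟩ := isConj_iff.1 (ConjClasses.mk_eq_mk_iff_isConj.1 h2)
    have key : ∀ d : NN P, IsConj d⁻¹ d → ∀ a ∈ (P : Subgroup G), (d : G) * a * (d : G)⁻¹ = a := by
      intro d hd a ha
      obtain ⟨hdD, -⟩ := H81.real_mem_of_odd (DD P K) (odd_DD hodd) hd.symm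
      have hdK : (d : G) ∈ K := hdD
      have h3 : (d : G) * a * (d : G)⁻¹ ∈ (P : Subgroup G) := (Subgroup.mem_normalizer_iff.1 d.2 a).1 ha
      have h4 : (d : G) * a * (d : G)⁻¹ * a⁻¹ ∈ (P : Subgroup G) := (P : Subgroup G).mul_mem h3 ((P : Subgroup G).inv_mem ha)
      have h5 : (d : G) * a * (d : G)⁻¹ * a⁻¹ ∈ K := by
        have : (d : G) * a * (d : G)⁻¹ * a⁻¹ = (d : G) * (a * (d : G)⁻¹ * a⁻¹) := by group
        rw [this]
        exact K.mul_mem hdK (hK.conj_mem _ (K.inv_mem hdK) a)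
      have h6 := mem_R (P := P) (K := K) (R := ⊥) h4 h5 (by rwa [Subgroup.relIndex_bot_left])
      rw [Subgroup.mem_bot, mul_inv_eq_one] at h6
      exact h6
    have hc := key c (hC c rfl)
    have hc' := key c' (hC' c' rfl)
    obtain ⟨t, ht, htg⟩ := exists_mem_normalizer P (Subgroup.centralizer {(c' : G)}) (by
      intro a ha
      rw [Subgroup.mem_centralizer_singleton_iff]
      have := hc' a ha
      rw [mul_inv_eq_iff_eq_mul] at this
      exact this.symm) g (by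
      intro a ha
      rw [Subgroup.mem_centralizer_singleton_iff, ← hg]
      have h7 := hc a ha
      rw [mul_inv_eq_iff_eq_mul] at h7
      calc g * a * g⁻¹ * (g * c * g⁻¹) = g * (a * c) * g⁻¹ := by group
        _ = g * (c * a) * g⁻¹ := by rw [h7]
        _ = _ := by group)
    rw [Subgroup.mem_centralizer_singleton_iff] at ht
    apply Subtype.ext
    show ConjClasses.mk c = ConjClasses.mk c'
    rw [ConjClasses.mk_eq_mk_iff_isConj, isConj_iff]
    refine ⟨⟨t * g, htg⟩, Subtype.ext ?_⟩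
    show t * g * (c : G) * (t * g)⁻¹ = c'
    have h8 : t * g * (c : G) * (t * g)⁻¹ = t * (g * c * g⁻¹) * t⁻¹ := by group
    rw [h8, hg, ht]
    group
  have hfin1 : Finite (ConjClasses G) := Quotient.finite _
  have hfin2 : Finite (ConjClasses (NN P)) := Quotient.finite _
  have hsurj : Function.Surjective F := (hinj.bijective_of_nat_card_le h1).2
  have hxr : ∀ g : G, ConjClasses.mk g = ConjClasses.mk x → IsConj g⁻¹ g := by
    intro g hg
    exact isConj_inv_of (ConjClasses.mk_eq_mk_iff_isConj.1 hg).symm hx.symm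
  obtain ⟨⟨C, hC⟩, hCx⟩ := hsurj ⟨ConjClasses.mk x, hxr⟩
  obtain ⟨c, rfl⟩ := ConjClasses.exists_rep C
  have h9 : ConjClasses.mk (c : G) = ConjClasses.mk x := congrArg Subtype.val hCx
  exact ⟨c, c.2, (ConjClasses.mk_eq_mk_iff_isConj.1 h9).symm⟩

/-- the general case -/
theorem meets {G : Type u} [Group G] [Finite G] (p : ℕ) [hp : Fact p.Prime]
    (hsolv : Group.IsSolvable ↥(pGen p G)) (hreal : ∀ χ : IrrCharacter G, (∀ g : G, ((χ : G → ℂ) g).im = 0) → ¬ p ∣ charDegree (χ : G → ℂ))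
    (P : Sylow p G) (x : G) (hx : IsConj x x⁻¹) : ∃ y ∈ NN P, IsConj x y := by
  classical
  haveI : Fact (Nat.Prime 2) := ⟨Nat.prime_two⟩
  have hKn := pGen_normal 2 G
  obtain ⟨R, hRn, hRp, hRU, hi⟩ := exists_normal_sylow p (Nat.card G) G rfl hsolv hreal
    (pGen 2 G) hKn (fun u hu => ⟨0, by rw [pow_zero, pow_one]; exact hu⟩) (fun t ⟨k, hk⟩ => mem_pGen hk)
  have hRP : R ≤ (P : Subgroup G) := R_le_P hRp
  have hsurj := QuotientGroup.mk'_surjective R
  let P' : Sylow p (G ⧸ R) := P.mapSurjective hsurj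
  have hP' : (P' : Subgroup (G ⧸ R)) = (P : Subgroup G).map (QuotientGroup.mk' R) := rfl
  haveI hKn' := pGen_normal 2 (G ⧸ R)
  have hmap : pGen 2 (G ⧸ R) = (pGen 2 G).map (QuotientGroup.mk' R) :=
    le_antisymm (pGen_le_map 2 _ hsurj) (map_pGen_le 2 _)
  have hcard : ¬ p ∣ Nat.card (pGen 2 (G ⧸ R)) := by
    rw [hmap]
    have h1 : Nat.card ((pGen 2 G).map (QuotientGroup.mk' R)) = R.relIndex (pGen 2 G) := by
      have h2 := Subgroup.relIndex_ker (K := pGen 2 G) (QuotientGroup.mk' R)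
      rw [QuotientGroup.ker_mk'] at h2
      exact h2.symm
    rw [h1]
    exact hi
  have hreal' : ∀ χ : IrrCharacter (G ⧸ R), (∀ g : G ⧸ R, ((χ : G ⧸ R → ℂ) g).im = 0) → ¬ p ∣ H75.deg χ := by
    intro χ hχ
    have h1 := hreal ((H75.inflateEquiv R) χ).1 (fun g => hχ g)
    rw [← H75.charDegree_eq_deg]
    exact h1
  have hx' : IsConj (QuotientGroup.mk' R x) (QuotientGroup.mk' R x)⁻¹ := by
    have := MonoidHom.map_isConj (QuotientGroup.mk' R) hx
    rwa [map_inv] at this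
  obtain ⟨y', hy', hxy⟩ := meets_of_coprime P' (pGen 2 (G ⧸ R)) (odd_index_pGen _) hcard hreal' _ hx'
  obtain ⟨c', hc'⟩ := isConj_iff.1 hxy
  obtain ⟨c, rfl⟩ := hsurj c'
  refine ⟨c * x * c⁻¹, ?_, isConj_iff.2 ⟨c, rfl⟩⟩
  refine Subgroup.mem_normalizer_fintype ?_
  intro a ha
  have h1 : QuotientGroup.mk' R (c * x * c⁻¹) = y' := by rw [map_mul, map_mul, map_inv]; exact hc'
  have h2 : y' * QuotientGroup.mk' R a * y'⁻¹ ∈ (P' : Subgroup (G ⧸ R)) :=
    (Subgroup.mem_normalizer_iff.1 hy' _).1 ⟨a, ha, rfl⟩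
  rw [← h1, ← map_mul, ← map_inv, ← map_mul, hP'] at h2
  obtain ⟨b, hb, hbe⟩ := h2
  have h3 : b⁻¹ * (c * x * c⁻¹ * a * (c * x * c⁻¹)⁻¹) ∈ R := QuotientGroup.eq.1 hbe
  have h4 := (P : Subgroup G).mul_mem hb (hRP h3)
  rwa [mul_inv_cancel_left] at h4

end Cfsg.Agent.H34.RealP
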