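import Mathlib

set_option autoImplicit false
set_option linter.all false

/-! Orbit sums of quadratic operators on abelian p-groups, p odd (helper34, for S1945). -/

namespace Cfsg.Agent.H34.WC

open Finset

section orb

variable {V : Type*} [CommGroup V]

open Classical in
theorem prod_subgroup_odd [Fintype V] (L : Subgroup V) (hodd : Odd (Nat.card L)) :
    ∏ l ∈ univ.filter (fun v => v ∈ L), l = 1 := by
  set P := ∏ l ∈ univ.filter (fun v => v ∈ L), l with hP
  have hPL : P ∈ L := Subgroup.prod_mem L fun l hl => (mem_filter.1 hl).2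
  have hinv : P⁻¹ = P := by
    rw [hP, ← Finset.prod_inv_distrib]
    refine Finset.prod_nbij' (fun x => x⁻¹) (fun x => x⁻¹) ?_ ?_ ?_ ?_ ?_
    · intro x hx; exact mem_filter.2 ⟨mem_univ _, inv_mem (mem_filter.1 hx).2⟩
    · intro x hx; exact mem_filter.2 ⟨mem_univ _, inv_mem (mem_filter.1 hx).2⟩
    · intro x _; simp
    · intro x _; simp
    · intro x _; rfl
  have h2 : P ^ 2 = 1 := by rw [pow_two]; nth_rw 1 [← hinv]; exact inv_mul_cancel P
  have h3 : orderOf P ∣ Nat.card L := by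
    have := orderOf_dvd_natCard (⟨P, hPL⟩ : L)
    rwa [Subgroup.orderOf_mk] at this
  have h4 : orderOf P ∣ 2 := orderOf_dvd_of_pow_eq_one h2
  have h5 : orderOf P ∣ 1 := by
    have := Nat.dvd_gcd h3 h4
    have h6 : Nat.gcd (Nat.card L) 2 = 1 := (Nat.coprime_two_left.2 hodd).symm
    rwa [h6] at this
  exact orderOf_eq_one_iff.1 (Nat.dvd_one.1 h5)

variable {A : Type*} [Group A] (φ : A →* MulAut V)

/-- conjugation by `A`-elements as an equivalence relation -/
def oS : Setoid V where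
  r u v := ∃ a, φ a u = v
  iseqv := ⟨fun u => ⟨1, by simp⟩, fun {u v} ⟨a, h⟩ => ⟨a⁻¹, by rw [← h, ← MulAut.mul_apply, ← map_mul]; simp⟩,
    fun {u v w} ⟨a, h⟩ ⟨b, h'⟩ => ⟨b * a, by rw [map_mul, MulAut.mul_apply, h, h']⟩⟩

open Classical in
theorem orb_prod {p : ℕ} [Fact p.Prime] (hp : p ≠ 2) [Fintype V] (hV : IsPGroup p V)
    (hq : ∀ a b : A, ∀ u : V, φ a (u⁻¹ * φ b u) = u⁻¹ * φ b u)
    (c : V) (Ω : Finset V) (hΩ : ∀ u ∈ Ω, ∀ a, φ a u ∈ Ω) (hc : ∀ u ∈ Ω, u ^ p = c) :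
    (∏ u ∈ Ω, u) * (∏ u ∈ Ω.filter (fun u => ∀ a, φ a u = u), u)⁻¹ ∈ Subgroup.zpowers c := by
  have h0 : (∏ u ∈ Ω, u) * (∏ u ∈ Ω.filter (fun u => ∀ a, φ a u = u), u)⁻¹ =
      ∏ u ∈ Ω.filter (fun u => ¬ ∀ a, φ a u = u), u := by
    rw [← Finset.prod_filter_mul_prod_filter_not Ω (fun u => ∀ a, φ a u = u)]
    rw [mul_comm (∏ u ∈ Ω.filter (fun u => ∀ a, φ a u = u), u), mul_inv_cancel_right]
  rw [h0, Finset.prod_partition (oS φ)]
  refine Subgroup.prod_mem _ fun x hx => ?_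
  obtain ⟨u, hu, rfl⟩ := mem_image.1 hx
  obtain ⟨huΩ, hun⟩ := mem_filter.1 hu
  -- the homomorphism `a ↦ u⁻¹ φ a u`
  let f : A →* V :=
    { toFun := fun a => u⁻¹ * φ a u
      map_one' := by simp
      map_mul' := fun a b => by
        have h1 : φ (a * b) u = φ a u * φ a (u⁻¹ * φ b u) := by
          rw [map_mul, MulAut.mul_apply, ← map_mul, mul_inv_cancel_left]
        rw [h1, hq, mul_assoc] }
  have hf : ∀ a, f a = u⁻¹ * φ a u := fun a => rfl
  have hset : (Ω.filter (fun u => ¬ ∀ a, φ a u = u)).filter (fun y => (Quotient.mk (oS φ) y) = Quotient.mk (oS φ) u)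
      = (univ.filter (fun v => v ∈ f.range)).image (fun l => u * l) := by
    ext y
    simp only [mem_filter, mem_image, mem_univ, true_and]
    constructor
    · rintro ⟨⟨hy, hyn⟩, hyu⟩
      obtain ⟨a, ha⟩ : ∃ a, φ a u = y := Quotient.exact hyu.symm
      exact ⟨f a, ⟨a, rfl⟩, by rw [hf, mul_inv_cancel_left, ha]⟩
    · rintro ⟨_, ⟨a, rfl⟩, rfl⟩
      rw [hf, mul_inv_cancel_left]
      refine ⟨⟨hΩ u huΩ a, ?_⟩, Quotient.sound ⟨a⁻¹, by rw [← MulAut.mul_apply, ← map_mul]; simp⟩⟩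
      intro hall
      apply hun
      intro b
      have h1 := hall (a * b * a⁻¹)
      rw [← MulAut.mul_apply, ← map_mul, inv_mul_cancel_right, map_mul, MulAut.mul_apply] at h1
      exact (φ a).injective h1
  have hLp : IsPGroup p f.range := hV.to_subgroup _
  obtain ⟨j, hj⟩ := IsPGroup.iff_card.1 hLp
  have hodd : Odd (Nat.card f.range) := by
    rw [hj]; exact ((Fact.out : p.Prime).odd_of_ne_two hp).pow
  have hj0 : j ≠ 0 := by
    rintro rfl
    rw [pow_zero] at hj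
    have hb : f.range = ⊥ := Subgroup.card_eq_one.1 hj
    apply hun
    intro a
    have h1 : f a ∈ f.range := ⟨a, rfl⟩
    rw [hb, Subgroup.mem_bot, hf, inv_mul_eq_one] at h1
    exact h1.symm
  change ∏ y ∈ (Ω.filter (fun u => ¬ ∀ a, φ a u = u)).filter (fun y => (Quotient.mk (oS φ) y) = Quotient.mk (oS φ) u), y ∈ _
  rw [hset, Finset.prod_image (fun x _ y _ h => mul_left_cancel h), Finset.prod_mul_distrib,
    prod_subgroup_odd f.range hodd, mul_one, Finset.prod_const]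
  have hcard : (univ.filter (fun v => v ∈ f.range)).card = p ^ j := by
    rw [← hj, Nat.card_eq_fintype_card, Fintype.card_subtype]
  rw [hcard]
  obtain ⟨i, rfl⟩ := Nat.exists_eq_succ_of_ne_zero hj0
  rw [pow_succ', pow_mul, hc u huΩ]
  exact Subgroup.npow_mem_zpowers c _

end orb

end Cfsg.Agent.H34.WC
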