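import Cfsg.Agent.H34.WC1

set_option autoImplicit false
set_option linter.all false

/-! Orbit sums for a p-group generated by quadratic subgroups (helper34, for S1945). -/

namespace Cfsg.Agent.H34.WC

open Finset

open Classical in
theorem chain_prod {V T : Type*} [CommGroup V] [Fintype V] [Group T] [Finite T] (φ : T →* MulAut V)
    {p : ℕ} [Fact p.Prime] (hp : p ≠ 2) (hV : IsPGroup p V) (hT : IsPGroup p T)
    (𝓕 : Set (Subgroup T)) (hconj : ∀ A ∈ 𝓕, ∀ t : T, A.map (MulAut.conj t).toMonoidHom ∈ 𝓕)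
    (hq : ∀ A ∈ 𝓕, ∀ a ∈ A, ∀ b ∈ A, ∀ u : V, φ a (u⁻¹ * φ b u) = u⁻¹ * φ b u)
    (c : V) (Ω : Finset V) (hΩ : ∀ u ∈ Ω, ∀ a, φ a u ∈ Ω) (hc : ∀ u ∈ Ω, u ^ p = c) :
    (∏ u ∈ Ω, u) * (∏ u ∈ Ω.filter (fun u => ∀ A ∈ 𝓕, ∀ a ∈ A, φ a u = u), u)⁻¹ ∈ Subgroup.zpowers c := by
  let P : Subgroup T → Prop := fun B =>
    (∏ u ∈ Ω, u) * (∏ u ∈ Ω.filter (fun u => ∀ b ∈ B, φ b u = u), u)⁻¹ ∈ Subgroup.zpowers c
  let gen : Subgroup T → Prop := fun B => B ≤ sSup {A | A ∈ 𝓕 ∧ A ≤ B}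
  have hbot : P ⊥ ∧ gen ⊥ := by
    refine ⟨?_, bot_le⟩
    have h1 : Ω.filter (fun u => ∀ b ∈ (⊥ : Subgroup T), φ b u = u) = Ω := by
      rw [Finset.filter_eq_self]
      intro u _ b hb
      rw [Subgroup.mem_bot.1 hb]; simp
    show (∏ u ∈ Ω, u) * (∏ u ∈ Ω.filter (fun u => ∀ b ∈ (⊥ : Subgroup T), φ b u = u), u)⁻¹ ∈ _
    rw [h1, mul_inv_cancel]
    exact one_mem _
  obtain ⟨B, ⟨hPB, hgB⟩, hmax⟩ := Set.exists_max_image {B : Subgroup T | P B ∧ gen B} (fun B => Nat.card B)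
    (Set.toFinite _) ⟨⊥, hbot⟩
  -- all members of `𝓕` normalising `B` are contained in `B`
  have hstep : ∀ A ∈ 𝓕, A ≤ Subgroup.normalizer (B : Set T) → A ≤ B := by
    intro A hA hAB
    by_contra hn
    have hlt : B < B ⊔ A := lt_of_le_of_ne le_sup_left (fun h => hn (h ▸ le_sup_right))
    have hcard : Nat.card B < Nat.card ↥(B ⊔ A) := by
      refine lt_of_le_of_ne (Subgroup.card_le_of_le hlt.le) fun h => hlt.ne ?_
      exact Subgroup.eq_of_le_of_card_ge hlt.le h.ge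
    refine absurd (hmax (B ⊔ A) ⟨?_, ?_⟩) (not_le.2 hcard)
    · -- P (B ⊔ A)
      have hst : ∀ u ∈ Ω.filter (fun u => ∀ b ∈ B, φ b u = u), ∀ a : A,
          (φ.comp A.subtype) a u ∈ Ω.filter (fun u => ∀ b ∈ B, φ b u = u) := by
        intro u hu a
        obtain ⟨h1, h2⟩ := mem_filter.1 hu
        refine mem_filter.2 ⟨hΩ u h1 a, fun b hb => ?_⟩
        have h3 : (a : T)⁻¹ * b * (a : T) ∈ B := by
          have h4 := hAB a.2
          rw [Subgroup.mem_normalizer_iff''] at h4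
          exact (h4 b).1 hb
        have h5 := h2 _ h3
        show φ b (φ (a : T) u) = φ (a : T) u
        rw [← MulAut.mul_apply, ← map_mul]
        have h6 : b * (a : T) = (a : T) * ((a : T)⁻¹ * b * (a : T)) := by group
        rw [h6, map_mul, MulAut.mul_apply, h5]
      have h1 := orb_prod (φ.comp A.subtype) hp hV (fun a b u => hq A hA a a.2 b b.2 u) c
        (Ω.filter (fun u => ∀ b ∈ B, φ b u = u)) hst (fun u hu => hc u (mem_filter.1 hu).1)
      have h2 : (Ω.filter (fun u => ∀ b ∈ B, φ b u = u)).filter (fun u => ∀ a : A, (φ.comp A.subtype) a u = u)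
          = Ω.filter (fun u => ∀ b ∈ B ⊔ A, φ b u = u) := by
        ext u
        simp only [mem_filter]
        constructor
        · rintro ⟨⟨h3, h4⟩, h5⟩
          refine ⟨h3, ?_⟩
          have h6 : B ⊔ A ≤ (MulAction.stabilizer (MulAut V) u).comap φ := by
            refine sup_le (fun b hb => ?_) (fun a ha => ?_)
            · exact h4 b hb
            · exact h5 ⟨a, ha⟩
          intro b hb
          exact h6 hb
        · rintro ⟨h3, h4⟩
          exact ⟨⟨h3, fun b hb => h4 b (Subgroup.mem_sup_left hb)⟩, fun a => h4 a (Subgroup.mem_sup_right a.2)⟩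
      rw [h2] at h1
      have h3 := mul_mem hPB h1
      show (∏ u ∈ Ω, u) * (∏ u ∈ Ω.filter (fun u => ∀ b ∈ B ⊔ A, φ b u = u), u)⁻¹ ∈ _
      convert h3 using 1
      group
    · show B ⊔ A ≤ sSup {A' | A' ∈ 𝓕 ∧ A' ≤ B ⊔ A}
      refine sup_le ?_ (le_sSup ⟨hA, le_sup_right⟩)
      exact hgB.trans (sSup_le_sSup fun A' hA' => ⟨hA'.1, hA'.2.trans le_sup_left⟩)
  -- `B` is normal
  have hBn : Subgroup.normalizer (B : Set T) = ⊤ := by
    by_contra hne
    haveI : Group.IsNilpotent T := hT.isNilpotent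
    have hlt : Subgroup.normalizer (B : Set T) < ⊤ := lt_top_iff_ne_top.2 hne
    have h1 := Group.normalizerCondition_of_isNilpotent _ hlt
    obtain ⟨x, hx1, hx2⟩ := SetLike.exists_of_lt h1
    -- B^x ≤ N(B)
    have h2 : B.map (MulAut.conj x).toMonoidHom ≤ B := by
      have h3 : B.map (MulAut.conj x).toMonoidHom ≤ sSup {A | A ∈ 𝓕 ∧ A ≤ B.map (MulAut.conj x).toMonoidHom} := by
        have h4 := Subgroup.map_mono (f := (MulAut.conj x).toMonoidHom) hgB
        refine h4.trans ?_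
        rw [sSup_eq_iSup, Subgroup.map_iSup]
        refine iSup_le fun A => ?_
        rw [Subgroup.map_iSup]
        refine iSup_le fun hA => ?_
        exact le_sSup ⟨hconj A hA.1 x, Subgroup.map_mono hA.2⟩
      refine h3.trans (sSup_le fun A hA => hstep A hA.1 ?_)
      refine hA.2.trans ?_
      rintro _ ⟨b, hb, rfl⟩
      show x * b * x⁻¹ ∈ _
      exact (Subgroup.mem_normalizer_iff.1 hx1 b).1 (Subgroup.le_normalizer hb)
    apply hx2
    have h3 : B.map (MulAut.conj x).toMonoidHom = B :=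
      Subgroup.eq_of_le_of_card_ge h2 (Nat.card_congr (B.equivMapOfInjective _ (MulAut.conj x).injective).toEquiv).le
    rw [Subgroup.mem_normalizer_iff]
    intro b
    constructor
    · intro hb
      rw [← h3]
      exact ⟨b, hb, rfl⟩
    · intro hb
      rw [← h3] at hb
      obtain ⟨b', hb', hbb⟩ := hb
      have : b' = b := (MulAut.conj x).injective hbb
      rwa [← this]
  have hfin : Ω.filter (fun u => ∀ A ∈ 𝓕, ∀ a ∈ A, φ a u = u) = Ω.filter (fun u => ∀ b ∈ B, φ b u = u) := by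
    ext u
    simp only [mem_filter]
    constructor
    · rintro ⟨h1, h2⟩
      refine ⟨h1, ?_⟩
      have h6 : sSup {A | A ∈ 𝓕 ∧ A ≤ B} ≤ (MulAction.stabilizer (MulAut V) u).comap φ :=
        sSup_le fun A hA a ha => h2 A hA.1 a ha
      intro b hb
      exact h6 (hgB hb)
    · rintro ⟨h1, h2⟩
      exact ⟨h1, fun A hA a ha => h2 a (hstep A hA (by rw [hBn]; exact le_top) ha)⟩
  rw [hfin]
  exact hPB

end Cfsg.Agent.H34.WC
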