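import Mathlib
import Cfsg.Agent.SigF.Coprime

set_option autoImplicit false
set_option linter.all false

/-! An elementary form of Alperin's theorem for a central element of a Sylow subgroup (helper34, for S1945). -/

namespace Cfsg.Agent.H34.WC

open Cfsg.Agent.SigF

variable {G : Type*} [Group G] [Finite G] {p : ℕ} [Fact p.Prime]

theorem exists_mem_norm {P D : Subgroup G} (hP : IsPGroup p P) (h : D < P) :
    D < Subgroup.normalizer (D : Set G) ⊓ P := by
  refine lt_of_le_of_ne (le_inf Subgroup.le_normalizer h.le) fun heq => ?_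
  haveI : Group.IsNilpotent P := hP.isNilpotent
  have h1 : D.subgroupOf P < ⊤ := by
    rw [lt_top_iff_ne_top, Ne, Subgroup.subgroupOf_eq_top]
    exact not_le_of_gt h
  obtain ⟨x, hx1, hx2⟩ := SetLike.exists_of_lt (Group.normalizerCondition_of_isNilpotent _ h1)
  apply hx2
  rw [Subgroup.mem_subgroupOf, heq]
  refine ⟨?_, x.2⟩
  rw [Subgroup.mem_normalizer_iff] at hx1
  show (x : G) ∈ Subgroup.normalizer (D : Set G)
  rw [Subgroup.mem_normalizer_iff]
  intro y
  constructor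
  · intro hy
    exact (hx1 ⟨y, h.le hy⟩).1 hy
  · intro hy
    have hyP : y ∈ P := by
      have h3 := P.mul_mem (P.mul_mem (P.inv_mem x.2) (h.le hy)) x.2
      have h4 : (x : G)⁻¹ * ((x : G) * y * (x : G)⁻¹) * x = y := by group
      rwa [h4] at h3
    exact (hx1 ⟨y, hyP⟩).2 hy

/-- `S` a Sylow subgroup of `G` contained in `C`; Sylow subgroups of `C` are Sylow in `G`. -/
theorem isSyl_top_of {S C P : Subgroup G} (hS : IsSyl p S ⊤) (hSC : S ≤ C) (hP : IsSyl p P C) : IsSyl p P ⊤ := by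
  obtain ⟨k, _, rfl⟩ := (hS.of_le hSC le_top).exists_cj hP
  have := hS.cj k
  rwa [show SigF.cj k (⊤ : Subgroup G) = ⊤ by ext x; simp [mem_cj]] at this

theorem ea {S : Subgroup G} (hS : IsSyl p S ⊤) {z : G} (hzS : z ∈ S) (hzc : S ≤ Subgroup.centralizer {z})
    (h : ∀ R : Subgroup G, IsPGroup p R → z ∈ R → R ≤ Subgroup.centralizer {z} →
      Subgroup.normalizer (R : Set G) ≤ Subgroup.centralizer {z}) {g : G} (hg : g * z * g⁻¹ ∈ S) :
    g * z * g⁻¹ = z := by
  set z' := g * z * g⁻¹ with hz'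
  set C := Subgroup.centralizer ({z} : Set G) with hC
  set C' := Subgroup.centralizer ({z'} : Set G) with hC'
  have hCC : cj g C = C' := by
    rw [hC, cj_centralizer, Set.image_singleton]
  have hS' : cj g S ≤ C' := hCC ▸ cj_mono hzc
  have hStop : IsSyl p (cj g S) ⊤ := by
    have := hS.cj g
    rwa [show SigF.cj g (⊤ : Subgroup G) = ⊤ by ext x; simp [mem_cj]] at this
  have h' : ∀ R : Subgroup G, IsPGroup p R → z' ∈ R → R ≤ C' → Subgroup.normalizer (R : Set G) ≤ C' := by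
    intro R hR hz hRC x hx
    have h1 := h (cj g⁻¹ R) (isPGroup_cj hR) (by rw [mem_cj]; simpa [hz', mul_assoc] using hz)
      (by rw [← cj_le_cj (g := g), cj_cj_inv, hCC]; exact hRC)
    have h2 : g⁻¹ * x * g ∈ Subgroup.normalizer ((cj g⁻¹ R : Subgroup G) : Set G) := by
      rw [mem_normalizer_iff_cj, ← cj_mul]
      have : g⁻¹ * x * g * g⁻¹ = g⁻¹ * x := by group
      rw [this, cj_mul, mem_normalizer_iff_cj.1 hx]
    rw [← hCC, mem_cj]
    exact h1 h2
  have hmem : ∀ P : Subgroup G, IsSyl p P C → z ∈ P := by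
    intro P hP
    obtain ⟨k, hk, rfl⟩ := (hS.of_le hzc le_top).exists_cj hP
    rw [mem_cj]
    have : k⁻¹ * z * k = z := by
      have := Subgroup.mem_centralizer_singleton_iff.1 hk
      rw [mul_assoc, ← this, inv_mul_cancel_left]
    rwa [this]
  have hmem' : ∀ P : Subgroup G, IsSyl p P C' → z' ∈ P := by
    intro P hP
    obtain ⟨k, hk, rfl⟩ := (hStop.of_le hS' le_top).exists_cj hP
    rw [mem_cj]
    have : k⁻¹ * z' * k = z' := by
      have := Subgroup.mem_centralizer_singleton_iff.1 hk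
      rw [mul_assoc, ← this, inv_mul_cancel_left]
    rw [this, mem_cj]
    simpa [hz', mul_assoc] using hzS
  -- pairs
  have hne : ∃ q : Subgroup G × Subgroup G, (IsSyl p q.1 C ∧ IsSyl p q.2 C') ∧ z' ∈ q.1 ∧ z ∈ q.2 := by
    have h1 : IsPGroup p (Subgroup.zpowers z) :=
      hS.isPGroup.to_le (Subgroup.zpowers_le.2 hzS)
    have h2 : z ∈ C' := by
      rw [hC', Subgroup.mem_centralizer_singleton_iff]
      have := Subgroup.mem_centralizer_singleton_iff.1 (hzc hg)
      exact this.symm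
    obtain ⟨Q, hQ, hQ'⟩ := exists_isSyl_ge h1 (Subgroup.zpowers_le.2 h2)
    exact ⟨(S, Q), ⟨hS.of_le hzc le_top, hQ⟩, hg, hQ' (Subgroup.mem_zpowers z)⟩
  obtain ⟨⟨P, P'⟩, ⟨⟨hP, hP'⟩, hz'P, hzP'⟩, hmax⟩ := Set.exists_max_image
    {q : Subgroup G × Subgroup G | (IsSyl p q.1 C ∧ IsSyl p q.2 C') ∧ z' ∈ q.1 ∧ z ∈ q.2}
    (fun q => Nat.card ↥(q.1 ⊓ q.2)) (Set.toFinite _) hne
  have hzP := hmem P hP
  have hz'P' := hmem' P' hP'
  rcases eq_or_lt_of_le (inf_le_left : P ⊓ P' ≤ P) with heq | hlt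
  · -- P ≤ P'
    have hPP' : P ≤ P' := inf_eq_left.1 heq
    have hPtop : IsSyl p P ⊤ := isSyl_top_of hS hzc hP
    have hP'P : P' = P := hPtop.eq_of_le hP'.isPGroup le_top hPP'
    subst hP'P
    have h1 : IsSyl p (cj g P') C' := by
      rw [← hCC]; exact hP.cj g
    obtain ⟨k, hk, hkP⟩ := h1.exists_cj hP'
    rw [← cj_mul] at hkP
    have h2 := h P' hP'.isPGroup hzP hP.le (mem_normalizer_iff_cj.2 hkP)
    have h3 := Subgroup.mem_centralizer_singleton_iff.1 h2
    have h4 := Subgroup.mem_centralizer_singleton_iff.1 hk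
    -- (k g) z = z (k g), k z' = z' k
    have h5 : k * z' * k⁻¹ = z := by
      rw [hz']
      calc k * (g * z * g⁻¹) * k⁻¹ = (k * g * z) * (k * g)⁻¹ := by group
        _ = z * (k * g) * (k * g)⁻¹ := by rw [h3]
        _ = z := by group
    rw [h4, mul_inv_cancel_right] at h5
    exact h5
  · exfalso
    set D := P ⊓ P' with hD
    have hDz : z ∈ D := ⟨hzP, hzP'⟩
    have hDz' : z' ∈ D := ⟨hz'P, hz'P'⟩
    have hDp : IsPGroup p D := hP.isPGroup.to_le inf_le_left
    have h1 := exists_mem_norm hP.isPGroup hlt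
    set U := Subgroup.normalizer (D : Set G) ⊓ P with hU
    have hUC' : U ≤ C' := inf_le_left.trans (h' D hDp hDz' (inf_le_right.trans hP'.le))
    have hUp : IsPGroup p U := hP.isPGroup.to_le inf_le_right
    obtain ⟨P'', hP'', hUP''⟩ := exists_isSyl_ge hUp hUC'
    have h2 := hmax (P, P'') ⟨⟨hP, hP''⟩, hz'P, hUP'' (h1.le hDz)⟩
    have h3 : U ≤ P ⊓ P'' := le_inf inf_le_right hUP''
    have h4 := Subgroup.card_le_of_le h3
    have h5 : Nat.card D < Nat.card U := by
      refine lt_of_le_of_ne (Subgroup.card_le_of_le h1.le) fun h => h1.ne ?_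
      exact Subgroup.eq_of_le_of_card_ge h1.le h.ge
    have h6 : Nat.card ↥(P ⊓ P'') ≤ Nat.card ↥D := h2
    exact absurd (h4.trans h6) (not_le.2 h5)

end Cfsg.Agent.H34.WC
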