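import Cfsg.Agent.H34.WC2
import Cfsg.Agent.H34.WC3
import Cfsg.Agent.H51.Replacement

set_option autoImplicit false
set_option linter.all false

/-! Abelian subgroups of maximal order in a p-subgroup T of G, J(T), replacement (helper34, for S1945). -/

namespace Cfsg.Agent.H34.WC

open Cfsg.Agent.SigF

variable {G : Type*} [Group G] [Finite G] {p : ℕ} [Fact p.Prime]

/-- abelian subgroups of `T` of maximal order -/
def MA (T A : Subgroup G) : Prop :=
  A ≤ T ∧ (∀ a ∈ A, ∀ b ∈ A, a * b = b * a) ∧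
    ∀ B ≤ T, (∀ a ∈ B, ∀ b ∈ B, a * b = b * a) → Nat.card B ≤ Nat.card A

/-- the Thompson subgroup (abelian version) -/
def JJ (T : Subgroup G) : Subgroup G := sSup {A | MA T A}

omit [Finite G] in
theorem cj_comm {B : Subgroup G} (g : G) (h : ∀ a ∈ B, ∀ b ∈ B, a * b = b * a) :
    ∀ a ∈ cj g B, ∀ b ∈ cj g B, a * b = b * a := by
  intro a ha b hb
  rw [mem_cj] at ha hb
  have := h _ ha _ hb
  have h1 : g * (g⁻¹ * a * g * (g⁻¹ * b * g)) * g⁻¹ = a * b := by group
  have h2 : g * (g⁻¹ * b * g * (g⁻¹ * a * g)) * g⁻¹ = b * a := by group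
  rw [← h1, this, h2]

omit [Finite G] in
theorem MA.cj {T A : Subgroup G} (h : MA T A) (g : G) : MA (cj g T) (cj g A) := by
  refine ⟨cj_mono h.1, cj_comm g h.2.1, fun B hB hBc => ?_⟩
  have h1 := h.2.2 (SigF.cj g⁻¹ B) (by rw [← cj_le_cj (g := g), cj_cj_inv]; exact hB) (cj_comm _ hBc)
  rwa [card_cj] at h1 ⊢

omit [Finite G] in
theorem cj_JJ_le (g : G) (T : Subgroup G) : cj g (JJ T) ≤ JJ (cj g T) := by
  rw [JJ, cj_def, sSup_eq_iSup, Subgroup.map_iSup]
  refine iSup_le fun A => ?_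
  rw [Subgroup.map_iSup]
  exact iSup_le fun hA => le_sSup (MA.cj hA g)

omit [Finite G] in
theorem cj_JJ (g : G) (T : Subgroup G) : cj g (JJ T) = JJ (cj g T) := by
  refine le_antisymm (cj_JJ_le g T) ?_
  have h := cj_JJ_le g⁻¹ (cj g T)
  rw [cj_inv_cj] at h
  rw [← cj_le_cj (g := g⁻¹), cj_inv_cj]
  exact h

omit [Finite G] in
theorem JJ_le (T : Subgroup G) : JJ T ≤ T := sSup_le fun _ hA => hA.1

theorem exists_MA (T : Subgroup G) : ∃ A, MA T A := by
  obtain ⟨A, hA, hmax⟩ := Set.exists_max_image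
    {A : Subgroup G | A ≤ T ∧ ∀ a ∈ A, ∀ b ∈ A, a * b = b * a} (fun A => Nat.card A) (Set.toFinite _)
    ⟨⊥, bot_le, by intro a ha b hb; rw [Subgroup.mem_bot.1 ha, Subgroup.mem_bot.1 hb]⟩
  exact ⟨A, hA.1, hA.2, fun B hB hBc => hmax B ⟨hB, hBc⟩⟩

/-- a subgroup of `T` which is abelian and centralises `A` lies in `A` -/
theorem MA.le_of_comm {T A B : Subgroup G} (h : MA T A) (hBT : B ≤ T)
    (hB : ∀ a ∈ B, ∀ b ∈ B, a * b = b * a) (hAB : ∀ a ∈ A, ∀ b ∈ B, a * b = b * a) : B ≤ A := by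
  have h1 : ∀ x ∈ A ⊔ B, ∀ y ∈ A ⊔ B, x * y = y * x := by
    have h2 : A ⊔ B ≤ Subgroup.centralizer ((A : Set G) ∪ (B : Set G)) := by
      refine sup_le (fun a ha => ?_) (fun b hb => ?_)
      · rw [Subgroup.mem_centralizer_iff]
        rintro x (hx | hx)
        · exact h.2.1 x hx a ha
        · exact (hAB a ha x hx).symm
      · rw [Subgroup.mem_centralizer_iff]
        rintro x (hx | hx)
        · exact hAB x hx b hb
        · exact hB x hx b hb
    intro x hx y hy
    have h3 : A ⊔ B ≤ Subgroup.centralizer ({x} : Set G) := by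
      refine sup_le (fun a ha => ?_) (fun b hb => ?_)
      · rw [Subgroup.mem_centralizer_singleton_iff]
        exact (Subgroup.mem_centralizer_iff.1 (h2 hx) a (Or.inl ha))
      · rw [Subgroup.mem_centralizer_singleton_iff]
        exact (Subgroup.mem_centralizer_iff.1 (h2 hx) b (Or.inr hb))
    exact (Subgroup.mem_centralizer_singleton_iff.1 (h3 hy)).symm
  have h2 := h.2.2 (A ⊔ B) (sup_le h.1 hBT) h1
  have h3 : A = A ⊔ B := Subgroup.eq_of_le_of_card_ge le_sup_left h2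
  rw [h3]
  exact le_sup_right

theorem ma_iff {T A : Subgroup G} (hA : A ≤ T) : MA T A ↔ A.subgroupOf T ∈ maxAbelianSubgroups T := by
  rw [H51.mem_maxAbelian_iff, H51.isComm_iff]
  have hc : ∀ B : Subgroup G, B ≤ T → Nat.card (B.subgroupOf T) = Nat.card B := fun B hB =>
    Nat.card_congr (Subgroup.subgroupOfEquivOfLe hB).toEquiv
  constructor
  · rintro ⟨_, h2, h3⟩
    refine ⟨fun a ha b hb => Subtype.ext (h2 a ha b hb), fun B hB => ?_⟩
    rw [hc A hA]
    rw [H51.isComm_iff] at hB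
    have h4 := h3 (B.map T.subtype) (Subgroup.map_subtype_le _) (by
      rintro _ ⟨a, ha, rfl⟩ _ ⟨b, hb, rfl⟩
      exact congrArg Subtype.val (hB a ha b hb))
    rwa [Nat.card_congr (B.equivMapOfInjective T.subtype T.subtype_injective).toEquiv]
  · rintro ⟨h2, h3⟩
    refine ⟨hA, fun a ha b hb => congrArg Subtype.val (h2 ⟨a, hA ha⟩ ha ⟨b, hA hb⟩ hb), fun B hB hBc => ?_⟩
    have h4 := h3 (B.subgroupOf T) (by
      rw [H51.isComm_iff]
      intro a ha b hb
      exact Subtype.ext (hBc a ha b hb))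
    rwa [hc A hA, hc B hB] at h4

theorem repl {T A V : Subgroup G} (hT : IsPGroup p T) (hA : MA T A) (hVT : V ≤ T)
    (hV : ∀ a ∈ V, ∀ b ∈ V, a * b = b * a) (hTV : T ≤ Subgroup.normalizer (V : Set G))
    (hn : ¬ V ≤ Subgroup.normalizer (A : Set G)) :
    ∃ A', MA T A' ∧ Nat.card ↥(A ⊓ V) < Nat.card ↥(A' ⊓ V) ∧ A' ≤ Subgroup.normalizer (A : Set G) := by
  have hnorm : ∀ {H K : Subgroup G}, H ≤ T → K ≤ T →
      (H.subgroupOf T ≤ Subgroup.normalizer ((K.subgroupOf T : Subgroup T) : Set T) ↔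
        H ≤ Subgroup.normalizer (K : Set G)) := by
    intro H K hH hK
    constructor
    · intro h x hx
      have h1 := h (show (⟨x, hH hx⟩ : T) ∈ H.subgroupOf T from hx)
      rw [Subgroup.mem_normalizer_iff] at h1 ⊢
      intro y
      constructor
      · intro hy; exact (h1 ⟨y, hK hy⟩).1 hy
      · intro hy
        have hyT : y ∈ T := by
          have h3 := T.mul_mem (T.mul_mem (T.inv_mem (hH hx)) (hK hy)) (hH hx)
          have h4 : x⁻¹ * (x * y * x⁻¹) * x = y := by group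
          rwa [h4] at h3
        exact (h1 ⟨y, hyT⟩).2 hy
    · intro h x hx
      have h1 := h (show (x : G) ∈ H from hx)
      rw [Subgroup.mem_normalizer_iff] at h1 ⊢
      intro y
      exact h1 y
  obtain ⟨A', hA', h1, h2⟩ := H51.thompson_replacement (G := T) (p := p) hT (A := A.subgroupOf T)
    (B := V.subgroupOf T) ((ma_iff hA.1).1 hA) (by
      rw [H51.isComm_iff]; intro a ha b hb; exact Subtype.ext (hV a ha b hb))
    ((hnorm hA.1 hVT).2 (hA.1.trans hTV)) (fun h => hn ((hnorm hVT hA.1).1 h))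
  have h3 : (A'.map T.subtype).subgroupOf T = A' :=
    Subgroup.comap_map_eq_self_of_injective T.subtype_injective A'
  have h4 : A'.map T.subtype ≤ T := Subgroup.map_subtype_le _
  refine ⟨A'.map T.subtype, (ma_iff h4).2 (by rw [h3]; exact hA'), ?_, (hnorm h4 hA.1).1 (by rw [h3]; exact h2)⟩
  have h5 : A.subgroupOf T ⊓ V.subgroupOf T = (A ⊓ V).subgroupOf T := rfl
  have h6 : A' ⊓ V.subgroupOf T = (A'.map T.subtype ⊓ V).subgroupOf T := by
    have h8 : (A'.map T.subtype ⊓ V).subgroupOf T = (A'.map T.subtype).subgroupOf T ⊓ V.subgroupOf T := rfl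
    rw [h8, h3]
  rw [h5, h6] at h1
  have hc : ∀ B : Subgroup G, B ≤ T → Nat.card (B.subgroupOf T) = Nat.card B := fun B hB =>
    Nat.card_congr (Subgroup.subgroupOfEquivOfLe hB).toEquiv
  have h7 : Nat.card ((A ⊓ V).subgroupOf T) < Nat.card ((A'.map T.subtype ⊓ V).subgroupOf T) := by
    refine lt_of_le_of_ne (Subgroup.card_le_of_le h1.le) fun h => h1.ne ?_
    exact Subgroup.eq_of_le_of_card_ge h1.le h.ge
  rwa [hc _ (inf_le_right.trans hVT), hc _ (inf_le_right.trans hVT)] at h7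

end Cfsg.Agent.H34.WC
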