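import Cfsg.Agent.H34.WC4

set_option autoImplicit false
set_option linter.all false

/-! Glauberman: for p odd a central element of S centralised by N(J(S)) is isolated (helper34, for S1945). -/

namespace Cfsg.Agent.H34.WC

open Cfsg.Agent.SigF

variable {G : Type*} [Group G] [Finite G] {p : ℕ} [Fact p.Prime]

/-- order of a Sylow subgroup of `H` -/
noncomputable def sy (p : ℕ) (H : Subgroup G) : ℕ := Nat.card ↥(Classical.choose (exists_isSyl p H))

theorem sy_eq {P H : Subgroup G} (h : IsSyl p P H) : Nat.card P = sy p H := by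
  obtain ⟨k, _, hk⟩ := h.exists_cj (Classical.choose_spec (exists_isSyl p H))
  rw [sy, ← hk, card_cj]

theorem card_le_sy {U H : Subgroup G} (hU : IsPGroup p U) (hUH : U ≤ H) : Nat.card U ≤ sy p H := by
  obtain ⟨P, hP, hUP⟩ := exists_isSyl_ge hU hUH
  rw [← sy_eq hP]
  exact Subgroup.card_le_of_le hUP

theorem card_lt {A B : Subgroup G} (h : A < B) : Nat.card A < Nat.card B := by
  refine lt_of_le_of_ne (Subgroup.card_le_of_le h.le) fun he => h.ne ?_
  exact Subgroup.eq_of_le_of_card_ge h.le he.ge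

theorem cj_eq_of_le {A : Subgroup G} {g : G} (h : cj g A ≤ A) : cj g A = A :=
  Subgroup.eq_of_le_of_card_ge h (by rw [card_cj])

/-- Sylow subgroups of normal subgroups -/
theorem isSyl_inf {T X D : Subgroup G} (hT : IsSyl p T X) (hDX : D ≤ X) (hD : X ≤ Subgroup.normalizer (D : Set G)) :
    IsSyl p (T ⊓ D) D := by
  refine isSyl_of_forall (hT.isPGroup.to_le inf_le_left) inf_le_right fun U hU hUD hle => ?_
  obtain ⟨Q, hQ, hUQ⟩ := exists_isSyl_ge hU (hUD.trans hDX)
  obtain ⟨x, hx, rfl⟩ := hT.exists_cj hQ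
  have h1 : cj x (T ⊓ D) = cj x T ⊓ D := by
    rw [cj_inf, mem_normalizer_iff_cj.1 (hD hx)]
  have h2 : U ≤ cj x (T ⊓ D) := by rw [h1]; exact le_inf hUQ hUD
  have h3 := Subgroup.card_le_of_le h2
  rw [card_cj] at h3
  exact (Subgroup.eq_of_le_of_card_ge hle h3).symm

/-- the data of a minimal situation -/
structure Sit (p : ℕ) (z : G) (R T : Subgroup G) : Prop where
  hR : IsPGroup p R
  hzR : z ∈ R
  hRC : R ≤ Subgroup.centralizer {z}
  hX : ¬ Subgroup.normalizer (R : Set G) ≤ Subgroup.centralizer {z}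
  hT : IsSyl p T (Subgroup.normalizer (R : Set G))
  hTC : T ≤ Subgroup.centralizer {z}
  hRT : R ≤ T
  hJ : Subgroup.normalizer ((JJ T : Subgroup G) : Set G) ≤ Subgroup.centralizer {z}
  hK : ∀ K : Subgroup G, K ≤ T → T ≤ Subgroup.normalizer (K : Set G) → z ∈ K → Nat.card R < Nat.card K →
    Subgroup.normalizer (K : Set G) ≤ Subgroup.centralizer {z}

theorem z_mem_JJ {T : Subgroup G} {z : G} (hz : z ∈ T) (hTC : T ≤ Subgroup.centralizer {z}) : z ∈ JJ T := by
  obtain ⟨A, hA⟩ := exists_MA T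
  have h1 : Subgroup.zpowers z ≤ A := by
    refine hA.le_of_comm (Subgroup.zpowers_le.2 hz) ?_ ?_
    · rintro _ ⟨a, rfl⟩ _ ⟨b, rfl⟩
      exact (Commute.refl z).zpow_zpow a b
    · rintro a ha _ ⟨b, rfl⟩
      have h2 : Commute a z := (Subgroup.mem_centralizer_singleton_iff.1 (hTC (hA.1 ha)))
      exact h2.zpow_right b
  exact (le_sSup (show A ∈ {A | MA T A} from hA)) (h1 (Subgroup.mem_zpowers z))

theorem exists_sit {S : Subgroup G} (hS : IsSyl p S ⊤) {z : G} (hzS : z ∈ S) (hzc : S ≤ Subgroup.centralizer {z})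
    (hJ : Subgroup.normalizer ((JJ S : Subgroup G) : Set G) ≤ Subgroup.centralizer {z}) {g : G}
    (hg : g * z * g⁻¹ ∈ S) (hne : g * z * g⁻¹ ≠ z) : ∃ R T, Sit p z R T := by
  set C := Subgroup.centralizer ({z} : Set G) with hC
  let 𝓡 : Set (Subgroup G) := {R | IsPGroup p R ∧ z ∈ R ∧ R ≤ C ∧ ¬ Subgroup.normalizer (R : Set G) ≤ C}
  have h𝓡 : 𝓡.Nonempty := by
    by_contra hem
    apply hne
    refine ea hS hzS hzc (fun R hR hz hRC => ?_) hg
    by_contra hcon
    exact hem ⟨R, hR, hz, hRC, hcon⟩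
  let f : Subgroup G → ℕ := fun R => sy p (Subgroup.normalizer (R : Set G) ⊓ C) * (Nat.card G + 1) + Nat.card R
  obtain ⟨R, ⟨hRp, hzR, hRC, hRX⟩, hmax⟩ := Set.exists_max_image 𝓡 f (Set.toFinite _) h𝓡
  have M : ∀ K ∈ 𝓡, sy p (Subgroup.normalizer (K : Set G) ⊓ C) ≤ sy p (Subgroup.normalizer (R : Set G) ⊓ C) ∧
      (sy p (Subgroup.normalizer (R : Set G) ⊓ C) ≤ sy p (Subgroup.normalizer (K : Set G) ⊓ C) →
        Nat.card K ≤ Nat.card R) := by
    intro K hK
    have h1 : f K ≤ f R := hmax K hK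
    have h2 : Nat.card K ≤ Nat.card G := Subgroup.card_le_card_group K
    have h3 : Nat.card R ≤ Nat.card G := Subgroup.card_le_card_group R
    simp only [f] at h1
    constructor
    · by_contra hlt
      push_neg at hlt
      have h4 : (sy p (Subgroup.normalizer (R : Set G) ⊓ C) + 1) * (Nat.card G + 1) ≤
          sy p (Subgroup.normalizer (K : Set G) ⊓ C) * (Nat.card G + 1) := Nat.mul_le_mul_right _ hlt
      have h5 : (sy p (Subgroup.normalizer (R : Set G) ⊓ C) + 1) * (Nat.card G + 1) =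
        sy p (Subgroup.normalizer (R : Set G) ⊓ C) * (Nat.card G + 1) + (Nat.card G + 1) := by ring
      omega
    · intro hle
      have h4 := Nat.mul_le_mul_right (Nat.card G + 1) hle
      omega
  obtain ⟨T, hT⟩ := exists_isSyl p (Subgroup.normalizer (R : Set G) ⊓ C)
  have hcT : Nat.card T = sy p (Subgroup.normalizer (R : Set G) ⊓ C) := sy_eq hT
  have hTX : T ≤ Subgroup.normalizer (R : Set G) := hT.le.trans inf_le_left
  have hTC : T ≤ C := hT.le.trans inf_le_right
  have hRT : R ≤ T := by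
    obtain ⟨Q, hQ, hRQ⟩ := exists_isSyl_ge hRp (le_inf Subgroup.le_normalizer hRC : R ≤ Subgroup.normalizer (R : Set G) ⊓ C)
    obtain ⟨k, hk, rfl⟩ := hQ.exists_cj hT
    have h1 : cj k R = R := mem_normalizer_iff_cj.1 hk.1
    rw [← h1]
    exact cj_mono hRQ
  have hzT : z ∈ T := hRT hzR
  have hbig : ∀ K : Subgroup G, ¬ IsSyl p T ⊤ → Subgroup.normalizer (T : Set G) ≤ Subgroup.normalizer (K : Set G) →
      sy p (Subgroup.normalizer (K : Set G) ⊓ C) ≤ sy p (Subgroup.normalizer (R : Set G) ⊓ C) → False := by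
    intro K hns hNK hle
    obtain ⟨P, hP, hTP⟩ := exists_isSyl_ge hT.isPGroup hTC
    have hPtop : IsSyl p P ⊤ := isSyl_top_of hS hzc hP
    have hlt : T < P := lt_of_le_of_ne hTP (fun h => hns (h ▸ hPtop))
    have h1 := exists_mem_norm hP.isPGroup hlt
    have h2 := card_lt h1
    have h3 : Nat.card ↥(Subgroup.normalizer (T : Set G) ⊓ P) ≤ sy p (Subgroup.normalizer (K : Set G) ⊓ C) :=
      card_le_sy (hP.isPGroup.to_le inf_le_right) (le_inf (inf_le_left.trans hNK) (inf_le_right.trans hP.le))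
    omega
  have hJT : Subgroup.normalizer ((JJ T : Subgroup G) : Set G) ≤ C := by
    by_cases hTs : IsSyl p T ⊤
    · obtain ⟨c, hc, hcT'⟩ := (hS.of_le hzc le_top).exists_cj (hTs.of_le hTC le_top)
      intro x hx
      have h1 : c⁻¹ * x * c ∈ Subgroup.normalizer ((JJ S : Subgroup G) : Set G) := by
        rw [mem_normalizer_iff_cj] at hx ⊢
        rw [← hcT', ← cj_JJ] at hx
        rw [mul_assoc, cj_mul, cj_mul, hx, cj_inv_cj]
      have h2 := hJ h1
      have h3 : x = c * (c⁻¹ * x * c) * c⁻¹ := by group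
      rw [h3]
      exact C.mul_mem (C.mul_mem hc h2) (C.inv_mem hc)
    · by_contra hcon
      have hmem : JJ T ∈ 𝓡 := ⟨hT.isPGroup.to_le (JJ_le T), z_mem_JJ hzT hTC, (JJ_le T).trans hTC, hcon⟩
      refine hbig (JJ T) hTs ?_ (M _ hmem).1
      intro x hx
      rw [mem_normalizer_iff_cj] at hx ⊢
      rw [cj_JJ, hx]
  refine ⟨R, T, hRp, hzR, hRC, hRX, ?_, hTC, hRT, hJT, ?_⟩
  · refine isSyl_of_forall hT.isPGroup hTX fun U hU hUX hTU => ?_
    by_contra hne'
    have hlt : T < U := lt_of_le_of_ne hTU (Ne.symm hne')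
    have h1 := exists_mem_norm hU hlt
    by_cases hW : Subgroup.normalizer (T : Set G) ⊓ U ≤ C
    · exact h1.ne (hT.eq_of_le (hU.to_le inf_le_right) (le_inf (inf_le_right.trans hUX) hW) h1.le).symm
    · have hmem : T ∈ 𝓡 := ⟨hT.isPGroup, hzT, hTC, fun h => hW (inf_le_left.trans h)⟩
      by_cases hTs : IsSyl p T ⊤
      · exact hne' (hTs.eq_of_le hU le_top hTU)
      · exact hbig T hTs le_rfl (M _ hmem).1
  · intro K hKT hTK hzK hlt
    by_contra hcon
    have hmem : K ∈ 𝓡 := ⟨hT.isPGroup.to_le hKT, hzK, hKT.trans hTC, hcon⟩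
    have h1 : Nat.card T ≤ sy p (Subgroup.normalizer (K : Set G) ⊓ C) :=
      card_le_sy hT.isPGroup (le_inf hTK hTC)
    have h2 := (M _ hmem).2 (by rw [← hcT]; exact h1)
    omega

end Cfsg.Agent.H34.WC
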