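import Cfsg.Agent.H34.WC5

set_option autoImplicit false
set_option linter.all false

/-! Glauberman: for p odd a central element of S centralised by N(J(S)) is isolated (helper34, for S1945). -/

namespace Cfsg.Agent.H34.WC

open Cfsg.Agent.SigF

variable {G : Type*} [Group G] [Finite G] {p : ℕ} [Fact p.Prime]

theorem exists_power {z : G} {X R : Subgroup G} (hR : IsPGroup p R) (hz : z ∈ R)
    (hX : ¬ X ≤ Subgroup.centralizer {z}) :
    ∃ k, ¬ X ≤ Subgroup.centralizer {z ^ p ^ k} ∧ X ≤ Subgroup.centralizer {(z ^ p ^ k) ^ p} := by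
  classical
  have h0 : ∃ n, X ≤ Subgroup.centralizer {z ^ p ^ n} := by
    obtain ⟨n, hn⟩ := hR ⟨z, hz⟩
    refine ⟨n, ?_⟩
    have : z ^ p ^ n = 1 := congrArg Subtype.val hn
    rw [this]
    intro x _
    rw [Subgroup.mem_centralizer_singleton_iff]; simp
  have h1 : Nat.find h0 ≠ 0 := by
    intro h
    have h2 := Nat.find_spec h0
    rw [h, pow_zero, pow_one] at h2
    exact hX h2
  obtain ⟨k, hk⟩ := Nat.exists_eq_succ_of_ne_zero h1
  refine ⟨k, ?_, ?_⟩
  · exact Nat.find_min h0 (by omega)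
  · have h2 := Nat.find_spec h0
    rw [hk] at h2
    rwa [← pow_mul, ← pow_succ]

open Classical in
theorem no_sit (hp : p ≠ 2) {z : G} {R T : Subgroup G} (h : Sit p z R T) : False := by
  obtain ⟨hR, hzR, hRC, hX, hT, hTC, hRT, hJ, hK⟩ := h
  set X := Subgroup.normalizer (R : Set G) with hXdef
  set C := Subgroup.centralizer ({z} : Set G) with hC
  obtain ⟨k, hk1, hk2⟩ := exists_power hR hzR hX
  set z1 := z ^ p ^ k with hz1
  have hz1R : z1 ∈ R := R.pow_mem hzR _
  have hCz1 : C ≤ Subgroup.centralizer {z1} := by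
    intro x hx
    rw [Subgroup.mem_centralizer_singleton_iff]
    have h2 : Commute x z := (Subgroup.mem_centralizer_singleton_iff.1 hx)
    exact (h2.pow_right _)
  have hzX : ∀ x ∈ X, x * (z1 ^ p) = z1 ^ p * x := fun x hx => Subgroup.mem_centralizer_singleton_iff.1 (hk2 hx)
  -- the subgroup `V`
  set V := Subgroup.closure {v : G | ∃ x ∈ X, v = x * z1 * x⁻¹} with hV
  have hz1V : z1 ∈ V := Subgroup.subset_closure ⟨1, X.one_mem, by simp⟩
  have hVR : V ≤ R := by
    rw [hV, Subgroup.closure_le]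
    rintro _ ⟨x, hx, rfl⟩
    exact (Subgroup.mem_normalizer_iff.1 hx z1).1 hz1R
  have hVC : V ≤ Subgroup.centralizer (R : Set G) := by
    rw [hV, Subgroup.closure_le]
    rintro _ ⟨x, hx, rfl⟩
    show x * z1 * x⁻¹ ∈ Subgroup.centralizer (R : Set G)
    rw [Subgroup.mem_centralizer_iff]
    intro r hr
    have h1 : x⁻¹ * r * x ∈ R := (Subgroup.mem_normalizer_iff''.1 hx r).1 hr
    have h2 := Subgroup.mem_centralizer_singleton_iff.1 (hCz1 (hRC h1))
    calc r * (x * z1 * x⁻¹) = x * (x⁻¹ * r * x * z1) * x⁻¹ := by group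
      _ = x * (z1 * (x⁻¹ * r * x)) * x⁻¹ := by rw [h2]
      _ = x * z1 * x⁻¹ * r := by group
  have hVcomm : ∀ a ∈ V, ∀ b ∈ V, a * b = b * a := fun a ha b hb =>
    Subgroup.mem_centralizer_iff.1 (hVC hb) a (hVR ha)
  have hXVcj : ∀ x ∈ X, cj x V ≤ V := by
    intro x hx
    rw [hV, cj_def, MonoidHom.map_closure, Subgroup.closure_le]
    rintro _ ⟨_, ⟨y, hy, rfl⟩, rfl⟩
    refine Subgroup.subset_closure ⟨x * y, X.mul_mem hx hy, ?_⟩
    show x * (y * z1 * y⁻¹) * x⁻¹ = _
    group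
  have hXV : X ≤ Subgroup.normalizer (V : Set G) := fun x hx =>
    mem_normalizer_iff_cj.2 (cj_eq_of_le (hXVcj x hx))
  have hTV : T ≤ Subgroup.normalizer (V : Set G) := hT.le.trans hXV
  have hVT : V ≤ T := hVR.trans hRT
  have hRV : R ≤ Subgroup.centralizer (V : Set G) := by
    intro r hr
    rw [Subgroup.mem_centralizer_iff]
    intro v hv
    exact (Subgroup.mem_centralizer_iff.1 (hVC hv) r hr).symm
  have hcentV : ∀ g ∈ Subgroup.normalizer (V : Set G),
      g ∈ Subgroup.normalizer ((Subgroup.centralizer (V : Set G) : Subgroup G) : Set G) := by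
    intro g hg
    rw [mem_normalizer_iff_cj, cj_centralizer]
    congr 1
    have h1 := mem_normalizer_iff_cj.1 hg
    ext y
    constructor
    · rintro ⟨v, hv, rfl⟩
      exact (Subgroup.mem_normalizer_iff.1 hg v).1 hv
    · intro hy
      exact ⟨g⁻¹ * y * g, (Subgroup.mem_normalizer_iff''.1 hg y).1 hy, by group⟩
  -- T ∩ C(V) = R
  have hTCV : T ⊓ Subgroup.centralizer (V : Set G) ≤ R := by
    by_contra hcon
    set K := T ⊓ Subgroup.centralizer (V : Set G) with hKdef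
    have hRK : R ≤ K := le_inf hRT hRV
    have hlt : R < K := lt_of_le_of_ne hRK (fun he => hcon he.ge)
    have hTK : T ≤ Subgroup.normalizer (K : Set G) := by
      intro t ht
      rw [mem_normalizer_iff_cj, hKdef, cj_inf, cj_eq_of_mem ht, mem_normalizer_iff_cj.1 (hcentV t (hTV ht))]
    have hNK := hK K inf_le_left hTK (hRK hzR) (card_lt hlt)
    -- Frattini
    set D := X ⊓ Subgroup.centralizer (V : Set G) with hD
    have hXD : X ≤ Subgroup.normalizer (D : Set G) := by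
      intro x hx
      rw [mem_normalizer_iff_cj, hD, cj_inf, cj_eq_of_mem hx, mem_normalizer_iff_cj.1 (hcentV x (hXV hx))]
    have hKD : IsSyl p K D := by
      have h1 := isSyl_inf hT (inf_le_left : D ≤ X) hXD
      have h2 : T ⊓ D = K := by
        rw [hD, hKdef, ← inf_assoc, inf_eq_left.2 hT.le]
      rwa [h2] at h1
    apply hk1
    intro x hx
    have h1 : IsSyl p (cj x K) D := by
      have := hKD.cj x
      rwa [mem_normalizer_iff_cj.1 (hXD hx)] at this
    obtain ⟨d, hd, hdK⟩ := h1.exists_cj hKD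
    rw [← cj_mul] at hdK
    have h2 : d * x ∈ Subgroup.centralizer ({z1} : Set G) := hCz1 (hNK (mem_normalizer_iff_cj.2 hdK))
    have h3 : d ∈ Subgroup.centralizer ({z1} : Set G) := by
      rw [Subgroup.mem_centralizer_singleton_iff]
      exact (Subgroup.mem_centralizer_iff.1 hd.2 z1 hz1V).symm
    have h4 : x = d⁻¹ * (d * x) := by group
    rw [h4]
    exact mul_mem (inv_mem h3) h2
  -- some member of MA T does not centralise V
  have hex : ∃ A, MA T A ∧ ¬ A ≤ Subgroup.centralizer (V : Set G) := by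
    by_contra hcon
    push_neg at hcon
    apply hX
    refine le_trans ?_ hJ
    intro x hx
    rw [mem_normalizer_iff_cj]
    apply cj_eq_of_le
    rw [JJ, cj_def, sSup_eq_iSup, Subgroup.map_iSup]
    refine iSup_le fun A => ?_
    rw [Subgroup.map_iSup]
    refine iSup_le fun hA => ?_
    have hA' : MA T A := hA
    refine le_iSup_of_le (cj x A) (le_iSup_of_le ?_ le_rfl)
    have h1 : A ≤ R := (le_inf hA'.1 (hcon A hA')).trans hTCV
    have h2 : cj x A ≤ R := by
      have := cj_mono (g := x) h1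
      rwa [mem_normalizer_iff_cj.1 hx] at this
    exact ⟨h2.trans hRT, cj_comm x hA'.2.1, fun B hB hBc => by rw [card_cj]; exact hA'.2.2 B hB hBc⟩
  obtain ⟨A0, ⟨hA0, hA0V⟩, hA0max⟩ := Set.exists_max_image
    {A | MA T A ∧ ¬ A ≤ Subgroup.centralizer (V : Set G)} (fun A => Nat.card ↥(A ⊓ V)) (Set.toFinite _) hex
  have hA0N : V ≤ Subgroup.normalizer (A0 : Set G) := by
    by_contra hn
    obtain ⟨A', hA', hlt, hA'N⟩ := repl hT.isPGroup hA0 hVT hVcomm hTV hn
    have h1 : A' ≤ Subgroup.centralizer (V : Set G) := by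
      by_contra hA'V
      exact absurd (hA0max A' ⟨hA', hA'V⟩) (not_le.2 hlt)
    have h2 : V ≤ A' := hA'.le_of_comm hVT hVcomm fun a ha b hb =>
      (Subgroup.mem_centralizer_iff.1 (h1 ha) b hb).symm
    exact hn (h2.trans hA'N)
  -- the quadratic members
  let 𝒬 : Set (Subgroup G) := {A | MA T A ∧ V ≤ Subgroup.normalizer (A : Set G)}
  have h𝒬cj : ∀ A ∈ 𝒬, ∀ x ∈ X, cj x A ≤ T → cj x A ∈ 𝒬 := by
    rintro A ⟨hA1, hA2⟩ x hx hle
    refine ⟨⟨hle, cj_comm x hA1.2.1, fun B hB hBc => by rw [card_cj]; exact hA1.2.2 B hB hBc⟩, ?_⟩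
    intro v hv
    have h1 : x⁻¹ * v * x ∈ V := (Subgroup.mem_normalizer_iff''.1 (hXV hx) v).1 hv
    have h2 := mem_normalizer_iff_cj.1 (hA2 h1)
    rw [mem_normalizer_iff_cj, ← cj_mul]
    have h3 : v * x = x * (x⁻¹ * v * x) := by group
    rw [h3, cj_mul, h2]
  set Q0 := sSup 𝒬 with hQ0
  have hQ0T : Q0 ≤ T := sSup_le fun A hA => hA.1.1
  have hTQ0 : T ≤ Subgroup.normalizer (Q0 : Set G) := by
    intro t ht
    rw [mem_normalizer_iff_cj]
    apply cj_eq_of_le
    rw [hQ0, cj_def, sSup_eq_iSup, Subgroup.map_iSup]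
    refine iSup_le fun A => ?_
    rw [Subgroup.map_iSup]
    refine iSup_le fun hA => ?_
    refine le_iSup_of_le (cj t A) (le_iSup_of_le ?_ le_rfl)
    refine h𝒬cj A hA t (hT.le ht) ?_
    have := cj_mono (g := t) hA.1.1
    rwa [cj_eq_of_mem ht] at this
  have hNQ : Subgroup.normalizer ((Q0 ⊔ R : Subgroup G) : Set G) ≤ C := by
    refine hK (Q0 ⊔ R) (sup_le hQ0T hRT) ?_ (Subgroup.mem_sup_right hzR) ?_
    · intro t ht
      rw [mem_normalizer_iff_cj, cj_def, Subgroup.map_sup, ← cj_def, ← cj_def,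
        mem_normalizer_iff_cj.1 (hTQ0 ht), mem_normalizer_iff_cj.1 (hT.le ht)]
    · refine card_lt (lt_of_le_of_ne le_sup_right fun he => hA0V ?_)
      have h1 : A0 ≤ Q0 := le_sSup ⟨hA0, hA0N⟩
      exact (h1.trans (le_sup_left.trans he.ge)).trans hRV
  -- fixed points of Q0
  have hfix : ∀ x ∈ X, Q0 ≤ Subgroup.centralizer ({x * z1 * x⁻¹} : Set G) → x * z1 * x⁻¹ = z1 := by
    intro x hx hQx
    set v := x * z1 * x⁻¹ with hv
    have h1 : cj x T ≤ X ⊓ Subgroup.centralizer ({v} : Set G) := by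
      refine le_inf ?_ ?_
      · have := cj_mono (g := x) hT.le
        rwa [cj_eq_of_mem hx] at this
      · have h2 : cj x (Subgroup.centralizer ({z1} : Set G)) = Subgroup.centralizer ({v} : Set G) := by
          rw [cj_centralizer, Set.image_singleton]
        rw [← h2]
        exact cj_mono (hTC.trans hCz1)
    have h2 : IsSyl p (cj x T) X := by
      have := hT.cj x
      rwa [cj_eq_of_mem hx] at this
    have h3 : IsSyl p (cj x T) (X ⊓ Subgroup.centralizer ({v} : Set G)) := h2.of_le h1 inf_le_left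
    obtain ⟨P, hP, hQP⟩ := exists_isSyl_ge (hT.isPGroup.to_le hQ0T)
      (le_inf (hQ0T.trans hT.le) hQx : Q0 ≤ X ⊓ Subgroup.centralizer ({v} : Set G))
    obtain ⟨c, hc, hcP⟩ := h3.exists_cj hP
    rw [← cj_mul] at hcP
    set g := c * x with hg
    have hgX : g ∈ X := X.mul_mem hc.1 hx
    have hgX' : g⁻¹ ∈ X := X.inv_mem hgX
    have hle : cj g⁻¹ Q0 ≤ T := by
      rw [← cj_le_cj (g := g), cj_cj_inv, hcP]
      exact hQP
    have hgQ : cj g⁻¹ Q0 ≤ Q0 := by
      have hle' := hle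
      rw [hQ0, cj_def, sSup_eq_iSup, Subgroup.map_iSup]
      refine iSup_le fun A => ?_
      rw [Subgroup.map_iSup]
      refine iSup_le fun hA => ?_
      refine le_iSup_of_le (cj g⁻¹ A) (le_iSup_of_le ?_ le_rfl)
      exact h𝒬cj A hA g⁻¹ hgX' ((cj_mono (le_sSup hA)).trans hle)
    have h4 : g⁻¹ ∈ Subgroup.normalizer ((Q0 ⊔ R : Subgroup G) : Set G) := by
      rw [mem_normalizer_iff_cj, cj_def, Subgroup.map_sup, ← cj_def, ← cj_def,
        cj_eq_of_le hgQ, mem_normalizer_iff_cj.1 hgX']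
    have h5 : g ∈ Subgroup.centralizer ({z1} : Set G) := by
      have := inv_mem (hCz1 (hNQ h4))
      rwa [inv_inv] at this
    have h6 := Subgroup.mem_centralizer_singleton_iff.1 h5
    have h7 := Subgroup.mem_centralizer_singleton_iff.1 hc.2
    -- g z1 g⁻¹ = c v c⁻¹ = v
    have h8 : g * z1 * g⁻¹ = v := by
      have : g * z1 * g⁻¹ = c * v * c⁻¹ := by rw [hg, hv]; group
      rw [this, h7, mul_inv_cancel_right]
    rw [← h8, h6, mul_inv_cancel_right]
  -- the orbit sum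
  haveI : Fintype V := Fintype.ofFinite V
  letI : CommGroup V := { (inferInstance : Group V) with
    mul_comm := fun a b => Subtype.ext (hVcomm a a.2 b b.2) }
  let φN : Subgroup.normalizer (V : Set G) →* MulAut V := V.normalizerMonoidHom
  let φX : X →* MulAut V := φN.comp (Subgroup.inclusion hXV)
  let φT : T →* MulAut V := φN.comp (Subgroup.inclusion hTV)
  have hφX : ∀ (x : X) (v : V), ((φX x v : V) : G) = x * v * (x : G)⁻¹ := fun x v => rfl
  have hφT : ∀ (t : T) (v : V), ((φT t v : V) : G) = t * v * (t : G)⁻¹ := fun t v => rfl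
  let z1' : V := ⟨z1, hz1V⟩
  let Ω : Finset V := Finset.univ.filter (fun v => ∃ x ∈ X, (v : G) = x * z1 * x⁻¹)
  have hΩmem : ∀ v : V, v ∈ Ω ↔ ∃ x ∈ X, (v : G) = x * z1 * x⁻¹ := fun v => by simp [Ω]
  have hΩX : ∀ u ∈ Ω, ∀ x : X, φX x u ∈ Ω := by
    intro u hu x
    obtain ⟨y, hy, hyu⟩ := (hΩmem u).1 hu
    refine (hΩmem _).2 ⟨x * y, X.mul_mem x.2 hy, ?_⟩
    rw [hφX, hyu]; group
  let c' : V := z1' ^ p
  have hc' : ∀ u ∈ Ω, u ^ p = c' := by
    intro u hu
    obtain ⟨y, hy, hyu⟩ := (hΩmem u).1 hu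
    apply Subtype.ext
    show ((u : G)) ^ p = z1 ^ p
    rw [hyu, conj_pow, hzX y hy, mul_inv_cancel_right]
  have hVp : IsPGroup p V := hR.to_le hVR
  let 𝓕 : Set (Subgroup T) := {B | B.map T.subtype ∈ 𝒬}
  have hchain := chain_prod φT hp hVp hT.isPGroup 𝓕
    (by
      intro B hB t
      show (B.map (MulAut.conj t).toMonoidHom).map T.subtype ∈ 𝒬
      have h1 : (B.map (MulAut.conj t).toMonoidHom).map T.subtype = cj (t : G) (B.map T.subtype) := by
        rw [cj_def, Subgroup.map_map, Subgroup.map_map]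
        congr 1
      rw [h1]
      have hB' : B.map T.subtype ∈ 𝒬 := hB
      refine h𝒬cj _ hB' t (hT.le t.2) ?_
      have := cj_mono (g := (t : G)) hB'.1.1
      rwa [cj_eq_of_mem t.2] at this)
    (by
      intro B hB a ha b hb u
      have hB' : B.map T.subtype ∈ 𝒬 := hB
      have ha' : (a : G) ∈ B.map T.subtype := ⟨a, ha, rfl⟩
      have hb' : (b : G) ∈ B.map T.subtype := ⟨b, hb, rfl⟩
      have h1 : (u : G)⁻¹ * ((b : G) * u * (b : G)⁻¹) ∈ B.map T.subtype := by
        have h2 : (u : G)⁻¹ * b * u ∈ B.map T.subtype :=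
          (Subgroup.mem_normalizer_iff''.1 (hB'.2 u.2) b).1 hb'
        have h3 := (B.map T.subtype).mul_mem h2 ((B.map T.subtype).inv_mem hb')
        have h4 : (u : G)⁻¹ * b * u * (b : G)⁻¹ = (u : G)⁻¹ * ((b : G) * u * (b : G)⁻¹) := by group
        rwa [h4] at h3
      have h2 := hB'.1.2.1 _ ha' _ h1
      apply Subtype.ext
      show (a : G) * ((u : G)⁻¹ * ((b : G) * u * (b : G)⁻¹)) * (a : G)⁻¹ = (u : G)⁻¹ * ((b : G) * u * (b : G)⁻¹)
      rw [h2, mul_inv_cancel_right])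
    c' Ω (fun u hu t => hΩX u hu ⟨t, hT.le t.2⟩) hc'
  have hfilt : Ω.filter (fun u => ∀ A ∈ 𝓕, ∀ a ∈ A, φT a u = u) = {z1'} := by
    ext v
    rw [Finset.mem_filter, Finset.mem_singleton]
    constructor
    · rintro ⟨hv, hall⟩
      obtain ⟨x, hx, hxv⟩ := (hΩmem v).1 hv
      apply Subtype.ext
      rw [hxv]
      refine hfix x hx ?_
      refine sSup_le fun A hA a ha => ?_
      have hA' : A.subgroupOf T ∈ 𝓕 := by
        show (A.subgroupOf T).map T.subtype ∈ 𝒬
        rw [Subgroup.subgroupOf_map_subtype, inf_eq_left.2 hA.1.1]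
        exact hA
      have h1 := hall _ hA' ⟨a, hA.1.1 ha⟩ ha
      have h2 : a * (v : G) * a⁻¹ = v := congrArg Subtype.val h1
      rw [Subgroup.mem_centralizer_singleton_iff, ← hxv]
      exact mul_inv_eq_iff_eq_mul.1 h2
    · rintro rfl
      refine ⟨(hΩmem _).2 ⟨1, X.one_mem, by simp [z1']⟩, fun A _ a _ => ?_⟩
      apply Subtype.ext
      show (a : G) * z1 * (a : G)⁻¹ = z1
      have := Subgroup.mem_centralizer_singleton_iff.1 (hCz1 (hTC a.2))
      rw [this, mul_inv_cancel_right]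
  rw [hfilt, Finset.prod_singleton] at hchain
  obtain ⟨n, hn⟩ := Subgroup.mem_zpowers_iff.1 hchain
  have hz1eq : z1' = (∏ u ∈ Ω, u) * (c' ^ n)⁻¹ := by
    rw [hn, mul_inv, inv_inv, mul_inv_cancel_left]
  apply hk1
  intro x hx
  have h1 : φX ⟨x, hx⟩ (∏ u ∈ Ω, u) = ∏ u ∈ Ω, u := by
    rw [map_prod]
    refine Finset.prod_bij (fun u _ => φX ⟨x, hx⟩ u) (fun u hu => hΩX u hu _)
      (fun a _ b _ hab => (φX ⟨x, hx⟩).injective hab) ?_ (fun _ _ => rfl)
    intro b hb
    refine ⟨φX (⟨x, hx⟩⁻¹) b, hΩX b hb _, ?_⟩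
    rw [← MulAut.mul_apply, ← map_mul, mul_inv_cancel, map_one, MulAut.one_apply]
  have h2 : φX ⟨x, hx⟩ c' = c' := by
    apply Subtype.ext
    show x * (z1 ^ p) * x⁻¹ = z1 ^ p
    rw [hzX x hx, mul_inv_cancel_right]
  have h3 : φX ⟨x, hx⟩ z1' = z1' := by
    rw [hz1eq, map_mul, map_inv, map_zpow, h1, h2]
  have h4 : x * z1 * x⁻¹ = z1 := congrArg Subtype.val h3
  rw [Subgroup.mem_centralizer_singleton_iff]
  exact mul_inv_eq_iff_eq_mul.1 h4

/-- **Glauberman**: for `p` odd, an element of `Z(S)` centralised by `N_G(J(S))` is isolated. -/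
theorem gt (hp : p ≠ 2) {S : Subgroup G} (hS : IsSyl p S ⊤) {z : G} (hzS : z ∈ S)
    (hzc : S ≤ Subgroup.centralizer {z})
    (hJ : Subgroup.normalizer ((JJ S : Subgroup G) : Set G) ≤ Subgroup.centralizer {z}) {g : G}
    (hg : g * z * g⁻¹ ∈ S) : g * z * g⁻¹ = z := by
  by_contra hne
  obtain ⟨R, T, h⟩ := exists_sit hS hzS hzc hJ hg hne
  exact no_sit hp h

end Cfsg.Agent.H34.WC
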